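import Cfsg.Agent.H879.E6.Kill
import Cfsg.Agent.H163.E6.Semi

/-!
# S5927, S5928: `A₇` in characteristic 5 (helper879)

`Cfsg.Agent.H163.E6.Cases.seven_five`.
-/

set_option autoImplicit false

namespace Cfsg.Agent.H879.E6

open Cfsg Cfsg.Lie Module
open Cfsg.Agent.H952.F4 (sh cr tf ev MaxAlt)
open Cfsg.Agent.H952.F4.Jord
open Cfsg.Agent.ChevalleyStructure.E6Min.Tables Cfsg.Agent.ChevalleyStructure.E6Min.Basic
  Cfsg.Agent.ChevalleyStructure.E6Min.Adjoint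
open Cfsg.Agent.H931.E6
open Cfsg.Agent.H163.E6 (V V' Lift Stab Sit Tab FixSym Bgrp)

universe u

variable {F : Type u} [Field F] {H : Subgroup ↥(chevE6.group F)} {φ : T7 →* ↥(chevE6.group F)} {ψ : T7 →* ↥(Zgrp F)}

theorem pr_V (ψ : T7 →* ↥(Zgrp F)) : Pr (MonoidHom.comp (V F) ψ) (MonoidHom.comp (V' F) ψ) where
  tfa g x y := Cfsg.Agent.H163.E6.Act.tf_act (ψ g) x y
  sha g x := Cfsg.Agent.H163.E6.Act.sh_act (ψ g) x
  sha' g x := Cfsg.Agent.H163.E6.Act.sh_act' (ψ g) x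
  cra g x y := Cfsg.Agent.H163.E6.Act.cr_act (ψ g) x y
  cra' g x y := Cfsg.Agent.H163.E6.Act.cr_act' (ψ g) x y
  Na g x := Cfsg.Agent.H163.E6.Act.N_act (ψ g) x
  Na' g x := Cfsg.Agent.H163.E6.Act.N_act' (ψ g) x

theorem psi_mem (hψ : Lift φ ψ) (a : T7) : ψ a ∈ Bgrp φ := by
  have h1 : a ∈ commutator T7 := by
    rw [Cfsg.Agent.H163.E6.Cov.alt_perfect (n := 7) (by norm_num)]
    trivial
  have h2 : ψ a ∈ (commutator T7).map ψ := ⟨a, h1, rfl⟩
  rw [commutator_def, Subgroup.map_commutator] at h2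
  refine Subgroup.commutator_mono ?_ ?_ h2
  all_goals
    rintro _ ⟨b, -, rfl⟩
    exact ⟨b, (hψ b).symm⟩

theorem three_ev (hT : Tab 5 F) (hi : Function.Injective φ) (hψ : Lift φ ψ) {g : T7}
    (hg : (g : Equiv.Perm (Fin 7)).cycleType = {3}) : ev (V F (ψ g)) 1 = 15 ∨ ev (V F (ψ g)) 1 = 9 := by
  have h1 : ad F (ψ g) ≠ 1 := by
    rw [hψ g]
    exact fun h => ne_one_of_type hg (by decide) (hi (h.trans (map_one φ).symm))
  have h2 : ψ g ^ 3 = 1 := by rw [← map_pow, pow_of_type hg (by decide), map_one]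
  obtain ⟨k, hk⟩ := Cfsg.Agent.H163.E6.Cov.three_inv (n := 7) (by norm_num) hg
  have h3 : ∃ x, x * ψ g * x⁻¹ = (ψ g)⁻¹ := ⟨ψ k, by rw [← map_inv, ← map_mul, ← map_mul, hk, map_inv]⟩
  have h4 := hT.three_real (by norm_num) (ψ g) h1 h2 h3
  rcases hT.three (by norm_num) (ψ g) h1 h2 with h | h | h | h
  · exact Or.inl h.1
  · exact Or.inr h.1
  · exact Or.inr h.1
  · exact absurd h.1 h4

theorem three_conj {g g' : T7} (hg : (g : Equiv.Perm (Fin 7)).cycleType = {3})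
    (hg' : (g' : Equiv.Perm (Fin 7)).cycleType = {3}) : ∃ k : T7, k * g * k⁻¹ = g' :=
  isConj_iff.mp (alternatingGroup.isThreeCycle_isConj
    (by rw [Nat.card_eq_fintype_card, Fintype.card_fin]; norm_num) hg hg')

/-- a white tuple in one of the modules gives a contradiction -/
theorem finish [Finite F] [CharP F 5] (hS : Sit H 7 φ) (hx : MaxAlt H 7 φ ∨ FixSym φ) (hψ : Lift φ ψ)
    (hev2 : ∀ g : T7, (g : Equiv.Perm (Fin 7)).cycleType = {2, 2} → ev (V F (ψ g)) 1 = 15)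
    (hev3 : ∀ g : T7, (g : Equiv.Perm (Fin 7)).cycleType = {3} → ev (V F (ψ g)) 1 = 9)
    {R R' : Representation F ↥(Zgrp F) (I27 → F)} (hR : (R = V F ∧ R' = V' F) ∨ (R = V' F ∧ R' = V F))
    {v : Fin 7 → I27 → F} {c : F} (hv : Seven (MonoidHom.comp R ψ) v) (h0 : v 0 ≠ 0) (ht : Tup v c) : False := by
  have h5 := five_zero (F := F)
  have h7 : (7 : F) ≠ 0 := fun h => two_ne (F := F) (by linear_combination h - h5)
  have hR1 : R = V F ∨ R = V' F := hR.imp And.left And.left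
  have hpr : Pr (MonoidHom.comp R ψ) (MonoidHom.comp R' ψ) := by
    rcases hR with ⟨rfl, rfl⟩ | ⟨rfl, rfl⟩
    · exact pr_V ψ
    · exact (pr_V ψ).swap
  have hevR : ∀ g : T7, ev (MonoidHom.comp R ψ g) 1 = ev (V F (ψ g)) 1 := by
    intro g
    rcases hR with ⟨rfl, -⟩ | ⟨rfl, -⟩
    · rfl
    · exact ev' g
  have e2 : ∀ g : T7, (g : Equiv.Perm (Fin 7)).cycleType = {2, 2} → ev (MonoidHom.comp R ψ g) 1 = 15 := fun g hg =>
    (hevR g).trans (hev2 g hg)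
  have e3 : ∀ g : T7, (g : Equiv.Perm (Fin 7)).cycleType = {3} → ev (MonoidHom.comp R ψ g) 1 = 9 := fun g hg =>
    (hevR g).trans (hev3 g hg)
  have hnf : NoFix (MonoidHom.comp R' ψ) := by
    rcases hR with ⟨-, rfl⟩ | ⟨-, rfl⟩
    · exact noFix' hS hψ
    · exact noFix hS hψ
  by_cases hc : c = 0
  · subst hc
    exact ts_false hS hψ two_ne h7 hR1 ⟨v, hv, h0, ts_of_zero hpr e2 e3 hv h0 ht⟩
  rcases hx with hM | hF
  · exact kill hM hψ hR1 hv.act ht hc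
  · let S : Set ↥(Zgrp F) := {g | ∃ a : T7, (a : Equiv.Perm (Fin 7)) 6 = 6 ∧ ψ a = g}
    have hSB : S ⊆ Bgrp φ := by
      rintro _ ⟨a, -, rfl⟩
      exact psi_mem hψ a
    have hfix : ∃ x, x ≠ 0 ∧ ∀ g ∈ S, R g x = x := by
      refine ⟨v 6, v_ne ht hc 6, ?_⟩
      rintro _ ⟨a, ha, rfl⟩
      have := hv.act a 6
      rw [ha] at this
      exact this
    have hfix' : ∃ w, w ≠ 0 ∧ ∀ g ∈ S, R' g w = w := by
      rcases hR with ⟨rfl, rfl⟩ | ⟨rfl, rfl⟩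
      · exact (hF S hSB).1 hfix
      · exact (hF S hSB).2 hfix
    obtain ⟨w, hw0, hw⟩ := hfix'
    obtain ⟨y, hy, hy0⟩ := exists_seven hnf hw0 fun a ha => hw (ψ a) ⟨a, ha, rfl⟩
    exact hy0 (no_seven hpr e2 e3 hv h0 ht hc hy)

end Cfsg.Agent.H879.E6

namespace Cfsg.Agent.H163.E6.Cases

open Cfsg Cfsg.Lie Module
open Cfsg.Agent.ChevalleyStructure.E6Min.Tables Cfsg.Agent.ChevalleyStructure.E6Min.Basic
  Cfsg.Agent.ChevalleyStructure.E6Min.Adjoint
open Cfsg.Agent.H952.F4 (ev es matRep sh cr tf MaxAlt tr1)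
open Cfsg.Agent.H931.E6 Cfsg.Agent.H879.E6

universe u

variable {F : Type u} [Field F] [Finite F] {H : Subgroup ↥(chevE6.group F)}

/-- **S11** `A₇` in characteristic 5 -/
theorem seven_five [CharP F 5] {φ : ↥(alternatingGroup (Fin 7)) →* ↥(chevE6.group F)} (hS : Sit H 7 φ)
    (hx : MaxAlt H 7 φ ∨ FixSym φ)
    {ψ : ↥(alternatingGroup (Fin 7)) →* ↥(Zgrp F)} (hψ : Lift φ ψ) : False := by
  have h5 := five_zero (F := F)
  have h2 : (2 : F) ≠ 0 := two_ne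
  have h3 : (3 : F) ≠ 0 := fun h => one_ne_zero (α := F) (by linear_combination 2 * h - h5)
  have : Fact (Nat.Prime 5) := ⟨Nat.prime_five⟩
  have hT : Tab 5 F := Tor.tab 5
  have hi := lift_inj hS.inj hψ
  -- the involutions
  have e2 : ∀ g : T7, (g : Equiv.Perm (Fin 7)).cycleType = {2, 2} → ev (V F (ψ g)) 1 = 15 := by
    intro g hg
    rcases tw hT hi (by norm_num) hg with h | h
    · exact h
    exfalso
    have hall : ∀ g' : T7, (g' : Equiv.Perm (Fin 7)).cycleType = {2, 2} → ev (V F (ψ g')) 1 = 11 := by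
      intro g' hg'
      obtain ⟨k, hk⟩ := two_conj hg hg'
      rw [← hk]
      exact (ev_conj (MonoidHom.comp (V F) ψ) k g 1).trans h
    refine Eleven.no_eleven h2 h3 (MonoidHom.comp (V F) ψ) finrank27 hall (fun g hg => ?_) fun g hg => ?_
    · exact (three_ev hT hS.inj hψ hg).symm
    · rcases fo hT hi (by norm_num) hg with ⟨h1, -⟩ | ⟨-, h1⟩
      · rw [hall _ (sq_type hg)] at h1
        omega
      · exact h1
  -- the 3-cycles
  by_cases h15 : ∃ g : T7, (g : Equiv.Perm (Fin 7)).cycleType = {3} ∧ ev (V F (ψ g)) 1 = 15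
  · obtain ⟨g, hg, h15⟩ := h15
    refine seven_five_15 hS hψ e2 fun g' hg' => ?_
    obtain ⟨k, hk⟩ := three_conj hg hg'
    rw [← hk]
    exact ((ev_conj (MonoidHom.comp (V F) ψ) k g 1).trans h15).ge
  push Not at h15
  have e3 : ∀ g : T7, (g : Equiv.Perm (Fin 7)).cycleType = {3} → ev (V F (ψ g)) 1 = 9 := fun g hg =>
    (three_ev hT hS.inj hψ hg).resolve_left (h15 g hg)
  have e4 : ∀ g : T7, (g : Equiv.Perm (Fin 7)).cycleType = {4, 2} → 7 ≤ ev (V F (ψ g)) 1 := by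
    intro g hg
    rcases fo hT hi (by norm_num) hg with h | h
    · exact h.2
    · have := e2 _ (sq_type hg)
      omega
  have e5 : ∀ g : T7, (g : Equiv.Perm (Fin 7)).cycleType = {5} → 6 ≤ ev (V F (ψ g)) 1 := by
    intro g hg
    have h := Cfsg.Agent.H952.F4.Eig.le_mul_ev 5 (T := V F (ψ g)) (by
      rw [← map_pow, ← map_pow, pow_of_type hg (n := 5) (by decide), map_one, map_one])
    rw [finrank27] at h
    omega
  -- seven vectors
  have fin : ∀ {R R' : Representation F ↥(Zgrp F) (I27 → F)}, ((R = V F ∧ R' = V' F) ∨ (R = V' F ∧ R' = V F)) →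
      Pr (MonoidHom.comp R ψ) (MonoidHom.comp R' ψ) → NoFix (MonoidHom.comp R ψ) → NoFix (MonoidHom.comp R' ψ) →
      ∀ {w}, w ≠ 0 → (∀ g : T7, (g : Equiv.Perm (Fin 7)) 6 = 6 → MonoidHom.comp R ψ g w = w) → False := by
    intro R R' hR hpr hn hn' w hw0 hw
    obtain ⟨v, hv, h0⟩ := exists_seven hn hw0 hw
    rcases exists_white hpr hn' hv h0 with ⟨v, c, hv, h0, ht⟩ | ⟨v, c, hv, h0, ht⟩
    · exact finish hS hx hψ e2 e3 hR hv h0 ht
    · exact finish hS hx hψ e2 e3 (hR.symm.imp And.symm And.symm) hv h0 ht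
  rcases exists_fixed (pair_tf ψ) finrank27 (fun g hg => (e2 g hg).ge) e4 e5 with ⟨w, hw0, hw⟩ | ⟨w, hw0, hw⟩
  · exact fin (Or.inl ⟨rfl, rfl⟩) (pr_V ψ) (noFix hS hψ) (noFix' hS hψ) hw0 hw
  · exact fin (Or.inr ⟨rfl, rfl⟩) (pr_V ψ).swap (noFix' hS hψ) (noFix hS hψ) hw0 hw

end Cfsg.Agent.H163.E6.Cases
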