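import Cfsg.Agent.H879.E6.ModelB

/-!
# S5927, S5928: every tuple is the image of the explicit tuple (helper879)

`exists_conj` : for a tuple `v` with constant `c ≠ 0` in characteristic 5 there is a similitude of the cubic form with
factor `c` which maps the explicit tuple to `v`.
-/

set_option autoImplicit false

namespace Cfsg.Agent.H879.E6

open Cfsg.Lie Cfsg.Agent.H952.F4 Cfsg.Agent.H952.F4.Jord Cfsg.Agent.H879.E6.Uniq
open Cfsg.Agent.ChevalleyStructure.E6Min.Tables Cfsg.Agent.ChevalleyStructure.E6Min.Basic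

section
variable {F : Type*} [Field F]

/-- the trilinear form is nondegenerate -/
theorem tri_nondeg {x : I27 → F} (h : ∀ y z, tf (cr x y) z = 0) : x = 0 := by
  have h1 : ∀ y, cr x y = 0 := fun y => tf_nondeg (h y)
  have h2 : x = tr1 x • u0 F := by
    have := cr_u0 x
    rw [cr_comm, h1] at this
    exact (sub_eq_zero.1 this.symm).symm
  set y : I27 → F := Pi.single (0, 0, 1) 1 with hy
  have hty : tr1 y = 0 := by
    simp [tr1, Matrix.trace, mat3, Fin.sum_univ_three, hy]
  have h3 := h1 y
  rw [h2, cr_smul_left, cr_u0, hty, zero_smul, zero_sub] at h3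
  have h4 := congrFun h3 (0, 0, 1)
  simp [hy] at h4
  rw [h2, h4, zero_smul]

theorem tfl_apply (x y : I27 → F) : tfl x y = tf x y := rfl

/-- the trilinear form as a linear map -/
def L3 : (I27 → F) →ₗ[F] (I27 → F) →ₗ[F] (I27 → F) →ₗ[F] F :=
  LinearMap.mk₂ F (fun x y => tfl (cr x y))
    (fun x x' y => LinearMap.ext fun z => by
      rw [LinearMap.add_apply, tfl_apply, tfl_apply, tfl_apply, cr_add_left, tf_add_left])
    (fun c x y => LinearMap.ext fun z => by
      rw [LinearMap.smul_apply, tfl_apply, tfl_apply, cr_smul_left, tf_smul_left, smul_eq_mul])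
    (fun x y y' => LinearMap.ext fun z => by
      rw [LinearMap.add_apply, tfl_apply, tfl_apply, tfl_apply, cr_add_right, tf_add_left])
    (fun c x y => LinearMap.ext fun z => by
      rw [LinearMap.smul_apply, tfl_apply, tfl_apply, cr_smul_right, tf_smul_left, smul_eq_mul])

theorem L3_apply (x y z : I27 → F) : L3 x y z = tf (cr x y) z := rfl

/-- two trilinear forms which agree on a basis -/
theorem tri_ext {ι : Type*} (b : Module.Basis ι F (I27 → F)) (e : (I27 → F) →ₗ[F] (I27 → F)) (c : F)
    (h : ∀ i j k, tf (cr (e (b i)) (e (b j))) (e (b k)) = c * tf (cr (b i) (b j)) (b k)) (x y z : I27 → F) :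
    tf (cr (e x) (e y)) (e z) = c * tf (cr x y) z := by
  have h1 : ∀ i j, (L3 (e (b i)) (e (b j))).comp e = c • L3 (b i) (b j) := fun i j => b.ext fun k => h i j k
  have h2 : ∀ i y z, tf (cr (e (b i)) (e y)) (e z) = c * tf (cr (b i) y) z := by
    intro i y z
    have : ((L3 (e (b i))).comp e).flip (e z) = c • (L3 (b i)).flip z := by
      refine b.ext fun j => ?_
      have := LinearMap.congr_fun (h1 i j) z
      exact this
    exact LinearMap.congr_fun this y
  have h3 : ∀ x y z, tf (cr (e x) (e y)) (e z) = c * tf (cr x y) z := by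
    intro x y z
    have : ((L3.comp e).flip (e y)).flip (e z) = c • (L3.flip y).flip z := by
      refine b.ext fun i => ?_
      exact h2 i y z
    exact LinearMap.congr_fun this x
  exact h3 x y z

end

section
variable {F : Type*} [Field F] [CharP F 5] {v : Fin 7 → I27 → F} {c : F}

theorem q0_eq (i : Fin 7) : uu (q0 F) (vv i) = q0 F i := by
  have := (q0_tup (F := F)).cr_ww_share i (i + 1) (i + 2)
  rw [(q0_tup (F := F)).tri _ _ _ (Good.n1 i) (Good.n2 i) (Good.n3 i), one_smul] at this
  exact this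

omit [CharP F 5] in
theorem uu_vv (h : Tup v c) (i : Fin 7) : uu v (vv i) = c • v i := by
  have := h.cr_ww_share i (i + 1) (i + 2)
  rw [h.tri _ _ _ (Good.n1 i) (Good.n2 i) (Good.n3 i)] at this
  exact this

/-- **Conjugation**: every tuple is the image of the explicit one. -/
theorem exists_conj (h : Tup v c) (hc : c ≠ 0) : ∃ e : (I27 → F) ≃ₗ[F] (I27 → F),
    (∀ x y z, tf (cr (e x) (e y)) (e z) = c * tf (cr x y) z) ∧ (∀ i, e (q0 F i) = v i) ∧
      ∀ q : Q, e (uu (q0 F) q) = c⁻¹ • uu v q := by
  let e : (I27 → F) →ₗ[F] (I27 → F) := (bas27 F).constr F fun n => c⁻¹ • uu v (bq n)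
  have he : ∀ n, e (bas27 F n) = c⁻¹ • uu v (bq n) := fun n => Module.Basis.constr_basis _ _ _ _
  have key : ∀ x y z : Q, tf (cr (c⁻¹ • uu v x) (c⁻¹ • uu v y)) (c⁻¹ • uu v z) = c * t3 (q0 F) x y z := by
    intro x y z
    have := t3_eq two_ne h q0_tup x y z
    rw [cr_smul_left, cr_smul_right, tf_smul_left, tf_smul_left, tf_smul_right]
    change c⁻¹ * (c⁻¹ * (c⁻¹ * t3 v x y z)) = _
    rw [this]
    field_simp
  have htri : ∀ x y z, tf (cr (e x) (e y)) (e z) = c * tf (cr x y) z := by
    refine tri_ext (bas27 F) e c fun i j k => ?_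
    rw [he, he, he, key, bas27_apply, bas27_apply, bas27_apply]
    rfl
  have hinj : Function.Injective e := by
    rw [← LinearMap.ker_eq_bot, LinearMap.ker_eq_bot']
    intro x hx
    refine tri_nondeg fun y z => ?_
    have := htri x y z
    rw [hx, cr_zero_left, tf_zero_left] at this
    exact (mul_eq_zero.1 this.symm).resolve_left hc
  let e' : (I27 → F) ≃ₗ[F] (I27 → F) := LinearEquiv.ofInjectiveEndo e hinj
  have he' : ∀ x, e' x = e x := fun x => rfl
  have hu : ∀ q : Q, e (uu (q0 F) q) = c⁻¹ • uu v q := by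
    intro q
    refine sub_eq_zero.1 (tri_nondeg fun y z => ?_)
    -- on the basis
    have hb : ∀ i j, L3 (e (uu (q0 F) q) - c⁻¹ • uu v q) (e (bas27 F i)) (e (bas27 F j)) = 0 := by
      intro i j
      rw [map_sub, LinearMap.sub_apply, LinearMap.sub_apply, L3_apply, L3_apply, htri, he, he, key, bas27_apply,
        bas27_apply]
      exact sub_self _
    have hb2 : ∀ i, (L3 (e (uu (q0 F) q) - c⁻¹ • uu v q) (e (bas27 F i))).comp e = 0 := fun i =>
      (bas27 F).ext fun j => hb i j
    have hb3 : ∀ w, ((L3 (e (uu (q0 F) q) - c⁻¹ • uu v q)).flip (e w)).comp e = 0 := fun w =>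
      (bas27 F).ext fun i => LinearMap.congr_fun (hb2 i) w
    have := LinearMap.congr_fun (hb3 (e'.symm z)) (e'.symm y)
    change L3 (e (uu (q0 F) q) - c⁻¹ • uu v q) (e (e'.symm y)) (e (e'.symm z)) = 0 at this
    have hy : e (e'.symm y) = y := e'.apply_symm_apply y
    have hz : e (e'.symm z) = z := e'.apply_symm_apply z
    rw [hy, hz] at this
    exact this
  refine ⟨e', htri, fun i => ?_, hu⟩
  have := hu (vv i)
  rw [q0_eq, uu_vv h, smul_smul, inv_mul_cancel₀ hc, one_smul] at this
  exact this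

end

end Cfsg.Agent.H879.E6
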