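import Cfsg.Agent.H879.E6.Conj

/-!
# S5927, S5928: a proper subspace stable under the stabilizer of the tuple and another isometry (helper879)
-/

set_option autoImplicit false

namespace Cfsg.Agent.H879.E6

open Cfsg.Lie Cfsg.Agent.H952.F4 Cfsg.Agent.H952.F4.Jord Cfsg.Agent.H879.E6.Uniq
open Cfsg.Agent.ChevalleyStructure.E6Min.Tables Cfsg.Agent.ChevalleyStructure.E6Min.Basic

section
variable {F : Type*} [Field F]

/-- the 19-dimensional subspace of a tuple -/
def WW (v : Fin 7 → I27 → F) : Submodule F (I27 → F) where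
  carrier := {x | ∀ a b c d : Fin 7, dis (a, b, c, d) = true → tf x (ee v a b c d) = 0}
  add_mem' {x y} hx hy a b c d h := by rw [tf_add_left, hx a b c d h, hy a b c d h, add_zero]
  zero_mem' a b c d _ := by rw [tf_zero_left]
  smul_mem' r x hx a b c d h := by rw [tf_smul_left, hx a b c d h, mul_zero]

theorem mem_WW {v : Fin 7 → I27 → F} {x : I27 → F} :
    x ∈ WW v ↔ ∀ a b c d : Fin 7, dis (a, b, c, d) = true → tf x (ee v a b c d) = 0 := Iff.rfl

theorem tf_ee (v : Fin 7 → I27 → F) (x : I27 → F) (a b c d : Fin 7) : tf x (ee v a b c d) =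
    tf x (ww v a b) + tf x (ww v c d) - (tf x (ww v a c) + tf x (ww v b d)) := by
  unfold ee
  rw [sub_eq_add_neg, ← neg_one_smul F, tf_add_right, tf_add_right, tf_smul_right, tf_add_right]
  ring

/-- stability under maps permuting the lines -/
theorem WW_stable {v : Fin 7 → I27 → F} {k : (I27 → F) →ₗ[F] (I27 → F)} {μ : F}
    (hk : ∀ x y z, tf (cr (k x) (k y)) (k z) = μ * tf (cr x y) z) {s : Equiv.Perm (Fin 7)} {l : F} (hl : l ≠ 0)
    (hs : ∀ i, k (v i) = l • v (s i)) {x : I27 → F} (hx : x ∈ WW v) : k x ∈ WW v := by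
  intro a b c d h
  have key : ∀ a b, tf (k x) (ww v (s a) (s b)) = (l⁻¹ * l⁻¹ * μ) * tf x (ww v a b) := by
    intro a b
    have e : ∀ a, v (s a) = l⁻¹ • k (v a) := fun a => by rw [hs, smul_smul, inv_mul_cancel₀ hl, one_smul]
    unfold ww
    rw [e a, e b, ← tf_cr, cr_smul_right, tf_smul_left, tf_smul_right, hk, ← tf_cr]
    ring
  have hd : dis (act s.symm (a, b, c, d)) = true := dis_act s.symm.injective h
  have h1 := hx _ _ _ _ hd
  rw [tf_ee] at h1 ⊢
  have k1 : ∀ a b, tf (k x) (ww v a b) = (l⁻¹ * l⁻¹ * μ) * tf x (ww v (s.symm a) (s.symm b)) := by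
    intro a b
    rw [← key, s.apply_symm_apply, s.apply_symm_apply]
  rw [k1, k1, k1, k1]
  linear_combination (l⁻¹ * l⁻¹ * μ) * h1

theorem tf_v_ww {v : Fin 7 → I27 → F} {c : F} (h : Tup v c) {k a b : Fin 7} (hab : a ≠ b) :
    tf (v k) (ww v a b) = if k = a ∨ k = b then 0 else c := by
  unfold ww
  split_ifs with hh
  · refine h.tri_zero ?_
    rcases hh with h1 | h1
    · exact Or.inl h1
    · exact Or.inr (Or.inl h1)
  · simp only [not_or] at hh
    exact h.tri _ _ _ hh.1 hh.2 hab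

theorem v_mem_WW {v : Fin 7 → I27 → F} {c : F} (h : Tup v c) (k : Fin 7) : v k ∈ WW v := by
  intro a b x y hd
  obtain ⟨g1, g2, g3, g4, g5, g6⟩ := dis_iff.1 hd
  rw [tf_ee, tf_v_ww h g1, tf_v_ww h g6, tf_v_ww h g2, tf_v_ww h g5]
  by_cases h1 : k = a
  · subst h1
    simp [g1, g2, g3]
  by_cases h2 : k = b
  · subst h2
    simp [h1, g4, g5]
  by_cases h3 : k = x
  · subst h3
    simp [h1, h2, g6]
  by_cases h4 : k = y
  · subst h4
    simp [h1, h2, h3]
  simp [h1, h2, h3, h4]

theorem v_ne {v : Fin 7 → I27 → F} {c : F} (h : Tup v c) (hc : c ≠ 0) (k : Fin 7) : v k ≠ 0 := by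
  intro h0
  have := h.tri k (k + 1) (k + 2) (Good.n1 k) (Good.n2 k) (Good.n3 k)
  rw [h0, tf_zero_left] at this
  exact hc this.symm

/-- maps preserving the trilinear form up to a factor -/
theorem tri_symm (e : (I27 → F) ≃ₗ[F] (I27 → F)) {c : F} (hc : c ≠ 0)
    (he : ∀ x y z, tf (cr (e x) (e y)) (e z) = c * tf (cr x y) z) (x y z : I27 → F) :
    tf (cr (e.symm x) (e.symm y)) (e.symm z) = c⁻¹ * tf (cr x y) z := by
  have := he (e.symm x) (e.symm y) (e.symm z)
  rw [e.apply_symm_apply, e.apply_symm_apply, e.apply_symm_apply] at this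
  rw [this, ← mul_assoc, inv_mul_cancel₀ hc, one_mul]

end

section
variable {F : Type*} [Field F] [CharP F 5] {v : Fin 7 → I27 → F} {c : F}

omit [CharP F 5] in
theorem WW_conj (e : (I27 → F) ≃ₗ[F] (I27 → F)) (hc : c ≠ 0)
    (he : ∀ x y z, tf (cr (e x) (e y)) (e z) = c * tf (cr x y) z) (hv : ∀ i, e (q0 F i) = v i) (x : I27 → F) :
    e x ∈ WW v ↔ x ∈ WW (q0 F) := by
  have key : ∀ a b, tf (e x) (ww v a b) = c * tf x (ww (q0 F) a b) := by
    intro a b
    unfold ww
    rw [← hv, ← hv, ← tf_cr, he, tf_cr]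
  rw [mem_WW, mem_WW]
  refine forall_congr' fun a => forall_congr' fun b => forall_congr' fun x' => forall_congr' fun d =>
    imp_congr_right fun _ => ?_
  rw [tf_ee, tf_ee, key, key, key, key]
  constructor
  · intro h
    refine (mul_eq_zero.1 ?_).resolve_left hc
    linear_combination h
  · intro h
    linear_combination c * h

theorem WW_q0_ne_top : WW (q0 F) ≠ ⊤ := by
  intro h
  have h1 : ee (q0 F) 0 1 2 3 = 0 := by
    refine tf_nondeg fun y => ?_
    have : y ∈ WW (q0 F) := by rw [h]; exact Submodule.mem_top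
    rw [tf_comm]
    exact this 0 1 2 3 (by decide)
  have h2 := all_range chkE (show 0 < 8 by norm_num)
  rw [Bool.and_eq_true] at h2
  have h3 : vec F (E8L.getD 0 []) = ee (q0 F) 0 1 2 3 := by
    rw [← vec_eq (F := F) h2.2, vec_add, vec_add, vec_smul, vec_add, ← tv_ww chk0, ← tv_ww chk0, ← tv_ww chk0,
      ← tv_ww chk0]
    have h4 : ((4 : ℕ) : F) = -1 := by
      have := five_zero (F := F)
      push_cast
      linear_combination this
    rw [h4, neg_one_smul, ← sub_eq_add_neg]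
    rfl
  rw [h1] at h3
  have h5 := congrFun h3 (0, 0, 2)
  have h6 : gt (E8L.getD 0 []) (nb (0 : Fin 3).val (0 : Fin 3).val (2 : Fin 3).val) = 1 := by decide +kernel
  simp only [vec, Pi.zero_apply] at h5
  rw [h6, Nat.cast_one] at h5
  exact one_ne_zero h5

/-- **The core**: a proper nonzero subspace `WW v`, and an isometry stabilizing it which does not permute the lines of
the tuple. -/
theorem core (h : Tup v c) (hc : c ≠ 0) : WW v ≠ ⊥ ∧ WW v ≠ ⊤ ∧ ∃ g : (I27 → F) ≃ₗ[F] (I27 → F),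
    (∀ x y z, tf (cr (g x) (g y)) (g z) = tf (cr x y) z) ∧ (∀ x ∈ WW v, g x ∈ WW v) ∧
    ∀ (j : Fin 7) (l : F), g.symm (v 0) ≠ l • v j := by
  obtain ⟨e, he, hev, -⟩ := exists_conj h hc
  obtain ⟨g0, hg0, hgv, -⟩ := exists_conj (q2_tup (F := F)) one_ne_zero
  refine ⟨?_, ?_, ?_⟩
  · intro h0
    have := v_mem_WW h 0
    rw [h0, Submodule.mem_bot] at this
    exact v_ne h hc 0 this
  · intro h0
    apply WW_q0_ne_top (F := F)
    rw [Submodule.eq_top_iff']
    intro x
    rw [← WW_conj e hc he hev, h0]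
    exact Submodule.mem_top
  · -- `g⁻¹ = e g0 e⁻¹`
    have hs := tri_symm e hc he
    have hs0 : ∀ x y z, tf (cr (g0.symm x) (g0.symm y)) (g0.symm z) = tf (cr x y) z := by
      intro x y z
      have := tri_symm g0 one_ne_zero hg0 x y z
      rwa [inv_one, one_mul] at this
    let g : (I27 → F) ≃ₗ[F] (I27 → F) := (e.symm.trans g0.symm).trans e
    have hg : ∀ x, g x = e (g0.symm (e.symm x)) := fun x => rfl
    have hg' : ∀ x, g.symm x = e (g0 (e.symm x)) := fun x => rfl
    refine ⟨g, ?_, ?_, ?_⟩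
    · intro x y z
      rw [hg, hg, hg, he, hs0, hs, ← mul_assoc, mul_inv_cancel₀ hc, one_mul]
    · intro x hx
      rw [hg, WW_conj e hc he hev]
      have hx' : e.symm x ∈ WW (q0 F) := by
        rw [← WW_conj e hc he hev, e.apply_symm_apply]
        exact hx
      generalize e.symm x = y at hx'
      obtain ⟨f, hf⟩ := w2_red (tfl y) fun a b c d hd => hx' a b c d hd
      have key : ∀ a b, a ≠ b → tf (g0.symm y) (ww (q0 F) a b) = f a + f b := by
        intro a b hab
        rw [← hf a b hab]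
        change _ = tf y (cr (q2 F a) (q2 F b))
        unfold ww
        have e1 : ∀ i, q0 F i = g0.symm (q2 F i) := fun i => by rw [← hgv, g0.symm_apply_apply]
        rw [e1, e1, ← tf_cr, hs0, tf_cr]
      intro a b x' d hd
      obtain ⟨g1, g2, g3, g4, g5, g6⟩ := dis_iff.1 hd
      rw [tf_ee, key _ _ g1, key _ _ g6, key _ _ g2, key _ _ g5]
      ring
    · intro j l hh
      rw [hg', ← hev, e.symm_apply_apply, hgv, ← hev j, ← map_smul] at hh
      exact q2_ne j l (e.injective hh)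

end

end Cfsg.Agent.H879.E6
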