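import Cfsg.Agent.H931.E6.Cases

/-!
# `A₇` in characteristic different from 2 and 3: involutions have not `ev = 11` (helper879)

For every field with `2, 3 ≠ 0`: a 27-dimensional representation of `A₇` with `ev = 11` on the class `(2,2)`, `ev = 9, 15`
on `(3)` and `ev = 5, 9` on `(4,2)` does not exist.
-/

set_option autoImplicit false

namespace Cfsg.Agent.H879.E6.Eleven

open Equiv Equiv.Perm Module
open Cfsg.Agent.H952.F4 (ev es)
open Cfsg.Agent.H931.E6
open Cfsg.Agent.H546.F4Eig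

variable {K V : Type*} [Field K] [AddCommGroup V] [Module K V] [FiniteDimensional K V]

/-- two commuting involutions on a subspace -/
theorem four_on (h2 : (2 : K) ≠ 0) (A B : Module.End K V) (W : Submodule K V) (hA : ∀ v ∈ W, A v ∈ W)
    (hB : ∀ v ∈ W, B v ∈ W) (hAA : ∀ v ∈ W, A (A v) = v) (hBB : ∀ v ∈ W, B (B v) = v)
    (hAB : ∀ v ∈ W, A (B v) = B (A v)) :
    2 * finrank K ↥(W ⊓ es A 1 ⊓ es B 1) + finrank K W =
      finrank K ↥(W ⊓ es A 1) + finrank K ↥(W ⊓ es B 1) + finrank K ↥(W ⊓ es (A * B) 1) := by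
  have sp : ∀ (T : Module.End K V) (U : Submodule K V), (∀ v ∈ U, T v ∈ U) → (∀ v ∈ U, T (T v) = v) →
      finrank K U = finrank K ↥(U ⊓ es T 1) + finrank K ↥(U ⊓ es T (-1)) := fun T U h h' =>
    split_sq h2 one_ne_zero T U h fun v hv => by rw [h' v hv, one_mul, one_smul]
  have h1 := sp A W hA hAA
  have h3 := sp B (W ⊓ es A 1) (fun v hv => ⟨hB v hv.1, by
    have h := hv.2
    rw [SetLike.mem_coe, mem_es_one] at h ⊢
    rw [hAB v hv.1, h]⟩) fun v hv => hBB v hv.1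
  have h4 := sp B (W ⊓ es A (-1)) (fun v hv => ⟨hB v hv.1, by
    have h := hv.2
    rw [SetLike.mem_coe, mem_es_neg] at h ⊢
    rw [hAB v hv.1, h, map_neg]⟩) fun v hv => hBB v hv.1
  have h5 := sp A (W ⊓ es B 1) (fun v hv => ⟨hA v hv.1, by
    have h := hv.2
    rw [SetLike.mem_coe, mem_es_one] at h ⊢
    rw [← hAB v hv.1, h]⟩) fun v hv => hAA v hv.1
  have h6 := sp A (W ⊓ es (A * B) 1) (fun v hv => ⟨hA v hv.1, by
    have h := hv.2
    rw [SetLike.mem_coe, mem_es_one, Module.End.mul_apply] at h ⊢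
    rw [← hAB v hv.1, h]⟩) fun v hv => hAA v hv.1
  have e1 : W ⊓ es B 1 ⊓ es A 1 = W ⊓ es A 1 ⊓ es B 1 := inf_right_comm _ _ _
  have e2 : W ⊓ es B 1 ⊓ es A (-1) = W ⊓ es A (-1) ⊓ es B 1 := inf_right_comm _ _ _
  have e3 : W ⊓ es (A * B) 1 ⊓ es A 1 = W ⊓ es A 1 ⊓ es B 1 := by
    ext v
    simp only [Submodule.mem_inf, mem_es_one, Module.End.mul_apply]
    constructor
    · rintro ⟨⟨h, h'⟩, h''⟩
      rw [hAB v h, h''] at h'
      exact ⟨⟨h, h''⟩, h'⟩
    · rintro ⟨⟨h, h'⟩, h''⟩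
      exact ⟨⟨h, by rw [h'', h']⟩, h'⟩
  have e4 : W ⊓ es (A * B) 1 ⊓ es A (-1) = W ⊓ es A (-1) ⊓ es B (-1) := by
    ext v
    simp only [Submodule.mem_inf, mem_es_one, mem_es_neg, Module.End.mul_apply]
    constructor
    · rintro ⟨⟨h, h'⟩, h''⟩
      rw [hAB v h, h'', map_neg] at h'
      exact ⟨⟨h, h''⟩, by rw [← h', neg_neg, h']⟩
    · rintro ⟨⟨h, h'⟩, h''⟩
      exact ⟨⟨h, by rw [h'', map_neg, h', neg_neg]⟩, h'⟩
  rw [e1, e2] at h5
  rw [e3, e4] at h6
  omega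

/-! ### the elements -/

def ea : T7 := ⟨c[0, 1] * c[2, 3], mem_alternatingGroup.2 (by decide +kernel)⟩
def eb : T7 := ⟨c[0, 2] * c[1, 3], mem_alternatingGroup.2 (by decide +kernel)⟩
/-- `(0 2)(4 5)` -/
def et : T7 := ⟨c[0, 2] * c[4, 5], mem_alternatingGroup.2 (by decide +kernel)⟩
/-- `(0 1)(4 5)` -/
def eu : T7 := ⟨c[0, 1] * c[4, 5], mem_alternatingGroup.2 (by decide +kernel)⟩
/-- `(0 1 2)` -/
def es3 : T7 := ⟨c[0, 1, 2], mem_alternatingGroup.2 (by decide +kernel)⟩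
/-- `(1 2 3)` -/
def ez : T7 := ⟨c[1, 2, 3], mem_alternatingGroup.2 (by decide +kernel)⟩
/-- `(0 6)(4 5)` -/
def eg : T7 := ⟨c[0, 6] * c[4, 5], mem_alternatingGroup.2 (by decide +kernel)⟩
/-- `(1 6)(4 5)` -/
def eh : T7 := ⟨c[1, 6] * c[4, 5], mem_alternatingGroup.2 (by decide +kernel)⟩
/-- `(1 2)(4 5)` -/
def el : T7 := ⟨c[1, 2] * c[4, 5], mem_alternatingGroup.2 (by decide +kernel)⟩
/-- `(0 4)(5 6)` -/
def ek : T7 := ⟨c[0, 4] * c[5, 6], mem_alternatingGroup.2 (by decide +kernel)⟩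
/-- `(4 5 6)` -/
def er : T7 := ⟨c[4, 5, 6], mem_alternatingGroup.2 (by decide +kernel)⟩

theorem r1 : ea * ea = 1 := by decide +kernel
theorem r2 : eb * eb = 1 := by decide +kernel
theorem r3 : ea * eb = eb * ea := by decide +kernel
theorem r4 : (ea * eb) * (ea * eb) = 1 := by decide +kernel
theorem r5 : es3 ^ 3 = 1 := by decide +kernel
theorem r6 : es3 * ea * es3⁻¹ = ea * eb := by decide +kernel
theorem r7 : es3 * (ea * eb) * es3⁻¹ = ea * (ea * eb) := by decide +kernel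
theorem r8 : et * et = 1 := by decide +kernel
theorem r9 : eu * eu = 1 := by decide +kernel
theorem r10 : et * eu = es3 := by decide +kernel
theorem r11 : (ea * et) * (ea * et) = eb := by decide +kernel
theorem r12 : (eb * eu) * (eb * eu) = ea := by decide +kernel
theorem r13 : et * eb = eb * et := by decide +kernel
theorem r14 : eu * ea = ea * eu := by decide +kernel
theorem r15 : ea * et = et * (ea * eb) := by decide +kernel
theorem r16 : eb * eu = eu * (ea * eb) := by decide +kernel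
theorem r17 : eg * eh * eg = eu := by decide +kernel
theorem r18 : eu * eg * eu⁻¹ = eh := by decide +kernel
theorem r19 : el = eu * et * eu := by decide +kernel
theorem r20 : ez = eb * (es3 * es3) := by decide +kernel
theorem r21 : el * eg = eg * el := by decide +kernel
theorem r22 : ez * eg = eg * ez := by decide +kernel
theorem r23 : ez ^ 3 = 1 := by decide +kernel
theorem r24 : el * el = 1 := by decide +kernel
theorem r25 : el * ez * el⁻¹ = ez⁻¹ := by decide +kernel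
theorem r26 : (eg * el) * (eg * el) = 1 := by decide +kernel
theorem r27 : (eg * el) * ez * (eg * el)⁻¹ = ez⁻¹ := by decide +kernel
theorem r28 : eg * eg = 1 := by decide +kernel
theorem r29 : ek * ek = 1 := by decide +kernel
theorem r30 : eg * ek = ek * eg := by decide +kernel
theorem r31 : er * eg * er⁻¹ = ek := by decide +kernel
theorem r32 : er * ek * er⁻¹ = eg * ek := by decide +kernel
theorem r33 : er * ez * er⁻¹ = ez := by decide +kernel
theorem r34 : ek * ez = ez * ek := by decide +kernel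
theorem r35 : ez * el = el * (ez * ez) := by decide +kernel
theorem r36 : er⁻¹ * ez * er⁻¹⁻¹ = ez := by decide +kernel
theorem r37 : er⁻¹ * ek * er⁻¹⁻¹ = eg := by decide +kernel
theorem r38 : er⁻¹ * (eg * ek) * er⁻¹⁻¹ = ek := by decide +kernel
theorem r39 : (⟨c[0, 1, 2, 3] * c[4, 5], mem_alternatingGroup.2 (by decide +kernel)⟩ : T7) * es3 *
    (⟨c[0, 1, 2, 3] * c[4, 5], mem_alternatingGroup.2 (by decide +kernel)⟩ : T7)⁻¹ = ez := by decide +kernel
theorem r40 : el * (ea * et) * el⁻¹ = eb * eu := by decide +kernel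

theorem ty_ea : (((ea : T7) : Perm (Fin 7)).cycleType = {2, 2}) := by decide +kernel
theorem ty_eb : (((eb : T7) : Perm (Fin 7)).cycleType = {2, 2}) := by decide +kernel
theorem ty_eab : (((ea * eb : T7) : Perm (Fin 7)).cycleType = {2, 2}) := by decide +kernel
theorem ty_et : (((et : T7) : Perm (Fin 7)).cycleType = {2, 2}) := by decide +kernel
theorem ty_eu : (((eu : T7) : Perm (Fin 7)).cycleType = {2, 2}) := by decide +kernel
theorem ty_ebt : (((eb * et : T7) : Perm (Fin 7)).cycleType = {2, 2}) := by decide +kernel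
theorem ty_eau : (((ea * eu : T7) : Perm (Fin 7)).cycleType = {2, 2}) := by decide +kernel
theorem ty_eg : (((eg : T7) : Perm (Fin 7)).cycleType = {2, 2}) := by decide +kernel
theorem ty_el : (((el : T7) : Perm (Fin 7)).cycleType = {2, 2}) := by decide +kernel
theorem ty_egl : (((eg * el : T7) : Perm (Fin 7)).cycleType = {2, 2}) := by decide +kernel
theorem ty_ek : (((ek : T7) : Perm (Fin 7)).cycleType = {2, 2}) := by decide +kernel
theorem ty_egk : (((eg * ek : T7) : Perm (Fin 7)).cycleType = {2, 2}) := by decide +kernel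
theorem ty_s : ((es3 : Perm (Fin 7)).cycleType = {3}) := by decide +kernel
theorem ty_z : ((ez : Perm (Fin 7)).cycleType = {3}) := by decide +kernel
theorem ty_at : (((ea * et : T7) : Perm (Fin 7)).cycleType = {4, 2}) := by decide +kernel
theorem ty_bu : (((eb * eu : T7) : Perm (Fin 7)).cycleType = {4, 2}) := by decide +kernel

/-! ### the theorem -/

theorem mem_fix {T : Module.End K V} {v : V} : v ∈ es T 1 ↔ T v = v := mem_es_one

/-- conjugation of an intersection of fixed spaces -/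
theorem finrank_inf_conj (ρ : Representation K T7 V) (k x y : T7) :
    finrank K ↥(es (ρ (k * x * k⁻¹)) 1 ⊓ es (ρ (k * y * k⁻¹)) 1) ≤ finrank K ↥(es (ρ x) 1 ⊓ es (ρ y) 1) := by
  refine LinearMap.finrank_le_finrank_of_injective
    (f := ((ρ k⁻¹).restrict (p := es (ρ (k * x * k⁻¹)) 1 ⊓ es (ρ (k * y * k⁻¹)) 1)
      (q := es (ρ x) 1 ⊓ es (ρ y) 1) ?_)) ?_
  · have key : ∀ x v, ρ (k * x * k⁻¹) v = v → ρ x (ρ k⁻¹ v) = ρ k⁻¹ v := by
      intro x v h
      have h1 := congrArg (ρ k⁻¹) h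
      rw [← Module.End.mul_apply, ← map_mul, ← mul_assoc, ← mul_assoc, inv_mul_cancel, one_mul, map_mul,
        Module.End.mul_apply] at h1
      exact h1
    rintro v ⟨h1, h2⟩
    rw [SetLike.mem_coe, mem_es_one] at h1 h2
    exact ⟨mem_es_one.2 (key x v h1), mem_es_one.2 (key y v h2)⟩
  · intro u v h
    have h1 := congrArg Subtype.val h
    have h2 := congrArg (ρ k) h1
    simp only [LinearMap.coe_restrict_apply] at h2
    rw [← Module.End.mul_apply, ← Module.End.mul_apply, ← map_mul, mul_inv_cancel, map_one] at h2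
    exact Subtype.ext h2

theorem no_eleven (h2 : (2 : K) ≠ 0) (h3 : (3 : K) ≠ 0) (ρ : Representation K T7 V) (h27 : finrank K V = 27)
    (hev2 : ∀ g : T7, (g : Perm (Fin 7)).cycleType = {2, 2} → ev (ρ g) 1 = 11)
    (hev3 : ∀ g : T7, (g : Perm (Fin 7)).cycleType = {3} → ev (ρ g) 1 = 9 ∨ ev (ρ g) 1 = 15)
    (hev4 : ∀ g : T7, (g : Perm (Fin 7)).cycleType = {4, 2} → ev (ρ g) 1 = 9 ∨ ev (ρ g) 1 = 5) : False := by
  set M : Submodule K V := es (ρ ea) 1 ⊓ es (ρ eb) 1 with hM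
  have mM : ∀ v, v ∈ M ↔ ρ ea v = v ∧ ρ eb v = v := fun v => by
    rw [hM, Submodule.mem_inf, mem_es_one, mem_es_one]
  -- the four-group
  have d1 : finrank K M = 3 := by
    have := four h2 ρ r1 r2 r3
    rw [hev2 _ ty_ea, hev2 _ ty_eb, hev2 _ ty_eab, h27, ← hM] at this
    omega
  have eM : es (ρ ea) 1 ⊓ es (ρ (ea * eb)) 1 = M := by
    ext v
    rw [mM, Submodule.mem_inf, mem_es_one, mem_es_one, rho_mul]
    constructor
    · rintro ⟨h, h'⟩
      refine ⟨h, ?_⟩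
      have := congrArg (ρ ea) h'
      rw [rho_sq ρ r1, h] at this
      exact this
    · rintro ⟨h, h'⟩
      exact ⟨h, by rw [h', h]⟩
  -- the elements of order 3
  have d2 : ev (ρ es3) 1 = 9 ∧ finrank K ↥(M ⊓ es (ρ es3) 1) = 1 := by
    have h := a4 h2 ρ r1 r4 (by rw [← mul_assoc, r1, one_mul, mul_assoc, ← r3, ← mul_assoc, r1, one_mul]) r5 r6 r7
    rw [eM, h27, d1] at h
    have h' : finrank K ↥(M ⊓ es (ρ es3) 1) ≤ finrank K M := Submodule.finrank_mono inf_le_left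
    rw [d1] at h'
    rcases hev3 _ ty_s with h3' | h3' <;> omega
  -- `M` is stable under `et`, `eu`
  have tM : ∀ v ∈ M, ρ et v ∈ M := by
    intro v hv
    rw [mM] at hv ⊢
    refine ⟨?_, ?_⟩
    · rw [← rho_mul, r15, rho_mul, rho_mul, hv.2, hv.1]
    · rw [← rho_mul, ← r13, rho_mul, hv.2]
  have uM : ∀ v ∈ M, ρ eu v ∈ M := by
    intro v hv
    rw [mM] at hv ⊢
    refine ⟨?_, ?_⟩
    · rw [← rho_mul, ← r14, rho_mul, hv.1]
    · rw [← rho_mul, r16, rho_mul, rho_mul, hv.2, hv.1]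
  -- the dihedral groups
  have d3 : 2 * finrank K ↥(M ⊓ es (ρ et) 1) + 5 = ev (ρ (ea * et)) 1 := by
    have h := four_on h2 (ρ ea) (ρ et) (es (ρ eb) 1) (fun v hv => ?_) (fun v hv => ?_) (fun v _ => rho_sq ρ r1 v)
      (fun v _ => rho_sq ρ r8 v) (fun v hv => ?_)
    · have e1 : es (ρ eb) 1 ⊓ es (ρ ea) 1 = M := inf_comm _ _
      have e2 : 2 * finrank K ↥(es (ρ eb) 1 ⊓ es (ρ et) 1) + 27 = 33 := by
        have := four h2 ρ r2 r8 r13.symm
        rwa [hev2 _ ty_eb, hev2 _ ty_et, hev2 _ ty_ebt, h27] at this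
      have e3 : es (ρ eb) 1 ⊓ es (ρ ea * ρ et) 1 = es (ρ (ea * et)) 1 := by
        rw [← map_mul]
        refine inf_eq_right.2 fun v hv => ?_
        rw [mem_es_one] at hv ⊢
        rw [← r11, rho_mul, hv, hv]
      have e4 : finrank K ↥(es (ρ eb) 1) = 11 := hev2 _ ty_eb
      rw [e1, e3, d1, e4] at h
      have e5 : ev (ρ (ea * et)) 1 = finrank K ↥(es (ρ (ea * et)) 1) := rfl
      omega
    · rw [mem_es_one] at hv ⊢
      rw [← rho_mul, ← r3, rho_mul, hv]
    · rw [mem_es_one] at hv ⊢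
      rw [← rho_mul, ← r13, rho_mul, hv]
    · rw [mem_es_one] at hv
      rw [← rho_mul, r15, rho_mul, rho_mul, hv]
  have d4 : 2 * finrank K ↥(M ⊓ es (ρ eu) 1) + 5 = ev (ρ (eb * eu)) 1 := by
    have h := four_on h2 (ρ eb) (ρ eu) (es (ρ ea) 1) (fun v hv => ?_) (fun v hv => ?_) (fun v _ => rho_sq ρ r2 v)
      (fun v _ => rho_sq ρ r9 v) (fun v hv => ?_)
    · have e2 : 2 * finrank K ↥(es (ρ ea) 1 ⊓ es (ρ eu) 1) + 27 = 33 := by
        have := four h2 ρ r1 r9 r14.symm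
        rwa [hev2 _ ty_ea, hev2 _ ty_eu, hev2 _ ty_eau, h27] at this
      have e3 : es (ρ ea) 1 ⊓ es (ρ eb * ρ eu) 1 = es (ρ (eb * eu)) 1 := by
        rw [← map_mul]
        refine inf_eq_right.2 fun v hv => ?_
        rw [mem_es_one] at hv ⊢
        rw [← r12, rho_mul, hv, hv]
      have e4 : finrank K ↥(es (ρ ea) 1) = 11 := hev2 _ ty_ea
      rw [← hM, e3, d1, e4] at h
      have e5 : ev (ρ (eb * eu)) 1 = finrank K ↥(es (ρ (eb * eu)) 1) := rfl
      omega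
    · rw [mem_es_one] at hv ⊢
      rw [← rho_mul, r3, rho_mul, hv]
    · rw [mem_es_one] at hv ⊢
      rw [← rho_mul, ← r14, rho_mul, hv]
    · rw [mem_es_one] at hv
      rw [← rho_mul, r16, r3, rho_mul, rho_mul, hv]
  -- the two cases
  have h42 : ev (ρ (ea * et)) 1 = 9 ∧ ev (ρ (eb * eu)) 1 = 9 := by
    have h40 : ev (ρ (eb * eu)) 1 = ev (ρ (ea * et)) 1 := by
      rw [← r40]
      exact ev_conj ρ _ _ _
    rcases hev4 _ ty_at with h5 | h5
    · exact ⟨h5, by rw [h40, h5]⟩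
    exfalso
    have e1 : M ⊓ es (ρ et) 1 = ⊥ := Submodule.finrank_eq_zero.1 (by omega)
    have e2 : M ⊓ es (ρ eu) 1 = ⊥ := Submodule.finrank_eq_zero.1 (by omega)
    have f1 : ∀ v ∈ M, ρ et v = -v := by
      intro v hv
      have h6 : v + ρ et v ∈ M ⊓ es (ρ et) 1 := ⟨M.add_mem hv (tM v hv), by
        rw [SetLike.mem_coe, mem_es_one, map_add, rho_sq ρ r8, add_comm]⟩
      rw [e1, Submodule.mem_bot] at h6
      exact (neg_eq_of_add_eq_zero_right h6).symm
    have f2 : ∀ v ∈ M, ρ eu v = -v := by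
      intro v hv
      have h6 : v + ρ eu v ∈ M ⊓ es (ρ eu) 1 := ⟨M.add_mem hv (uM v hv), by
        rw [SetLike.mem_coe, mem_es_one, map_add, rho_sq ρ r9, add_comm]⟩
      rw [e2, Submodule.mem_bot] at h6
      exact (neg_eq_of_add_eq_zero_right h6).symm
    have f3 : M ⊓ es (ρ es3) 1 = M := inf_eq_left.2 fun v hv => by
      rw [mem_es_one, ← r10, rho_mul, f2 v hv, map_neg, f1 v hv, neg_neg]
    rw [f3] at d2
    omega
  -- a vector fixed by `S₄`
  obtain ⟨x, hx0, hxM, hxt, hxu⟩ : ∃ x, x ≠ 0 ∧ x ∈ M ∧ ρ et x = x ∧ ρ eu x = x := by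
    have e1 : finrank K ↥(M ⊓ es (ρ et) 1) = 2 := by omega
    have e2 : finrank K ↥(M ⊓ es (ρ eu) 1) = 2 := by omega
    have e3 := Submodule.finrank_sup_add_finrank_inf_eq (M ⊓ es (ρ et) 1) (M ⊓ es (ρ eu) 1)
    have e4 : finrank K ↥((M ⊓ es (ρ et) 1) ⊔ (M ⊓ es (ρ eu) 1)) ≤ finrank K M :=
      Submodule.finrank_mono (sup_le inf_le_left inf_le_left)
    have e5 : 0 < finrank K ↥((M ⊓ es (ρ et) 1) ⊓ (M ⊓ es (ρ eu) 1)) := by omega
    obtain ⟨x, hx, hx0⟩ := (Submodule.ne_bot_iff _).1 (Submodule.one_le_finrank_iff.1 e5)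
    exact ⟨x, hx0, hx.1.1, mem_es_one.1 hx.1.2, mem_es_one.1 hx.2.2⟩
  have hxs : ρ es3 x = x := by rw [← r10, rho_mul, hxu, hxt]
  have hxz : ρ ez x = x := by rw [r20, rho_mul, rho_mul, hxs, hxs, ((mM x).1 hxM).2]
  have hxl : ρ el x = x := by rw [r19, rho_mul, rho_mul, hxu, hxt, hxu]
  set y := x + ρ eg x with hy
  have hy0 : y ≠ 0 := by
    intro h0
    have h1 : ρ eg x = -x := by rw [hy] at h0; exact (neg_eq_of_add_eq_zero_right h0).symm
    have h4 : ρ eh x = -x := by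
      have hi : ρ eu⁻¹ x = x := by
        have := congrArg (ρ eu⁻¹) hxu
        rw [← rho_mul, inv_mul_cancel, map_one] at this
        exact this.symm
      rw [← r18, rho_mul, rho_mul, hi, h1, map_neg, hxu]
    have h5 : ρ eu x = -x := by
      rw [← r17, rho_mul, rho_mul, h1, map_neg, h4, neg_neg, h1]
    rw [hxu] at h5
    have h6 : (2 : K) • x = 0 := by
      rw [two_smul]
      nth_rewrite 1 [h5]
      exact neg_add_cancel x
    exact hx0 ((smul_eq_zero.1 h6).resolve_left h2)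
  have hyg : ρ eg y = y := by rw [hy, map_add, rho_sq ρ r28, add_comm]
  have hyl : ρ el y = y := by rw [hy, map_add, hxl, ← rho_mul, r21, rho_mul, hxl]
  have hyz : ρ ez y = y := by rw [hy, map_add, hxz, ← rho_mul, r22, rho_mul, hxz]
  -- dimensions
  have k1 : 2 * finrank K ↥(es (ρ ez) 1 ⊓ es (ρ el) 1) + 27 = 2 * 11 + ev (ρ ez) 1 := by
    have := dihedral h2 ρ (m := 3) (by decide) (by exact_mod_cast h3) r23 r24 r25 (μ := 1) (Or.inl rfl)
    rwa [h27, hev2 _ ty_el] at this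
  have k2 : 2 * finrank K ↥(es (ρ ez) 1 ⊓ es (ρ (eg * el)) 1) + 27 = 2 * 11 + ev (ρ ez) 1 := by
    have := dihedral h2 ρ (m := 3) (by decide) (by exact_mod_cast h3) r23 r26 r27 (μ := 1) (Or.inl rfl)
    rwa [h27, hev2 _ ty_egl] at this
  have k0 : ev (ρ ez) 1 = 9 := by
    rw [← r39]
    exact (ev_conj ρ _ _ _).trans d2.1
  have kz : finrank K ↥(es (ρ ez) 1) = 9 := k0
  have sg : ∀ v ∈ es (ρ ez) 1, ρ eg v ∈ es (ρ ez) 1 := fun v hv => by
    rw [mem_es_one] at hv ⊢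
    rw [← rho_mul, r22, rho_mul, hv]
  have sk : ∀ v ∈ es (ρ ez) 1, ρ ek v ∈ es (ρ ez) 1 := fun v hv => by
    rw [mem_es_one] at hv ⊢
    rw [← rho_mul, ← r34, rho_mul, hv]
  have sl : ∀ v ∈ es (ρ ez) 1, ρ el v ∈ es (ρ ez) 1 := fun v hv => by
    rw [mem_es_one] at hv ⊢
    rw [← rho_mul, r35, rho_mul, rho_mul, hv, hv]
  have k3 := four_rel ρ h2 r28 r24 r21.symm (es (ρ ez) 1) sg sl
  have k4 := four_rel ρ h2 r28 r29 r30 (es (ρ ez) 1) sg sk
  have k5 := finrank_inf_conj ρ er⁻¹ ez ek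
  have k6 := finrank_inf_conj ρ er⁻¹ ez (eg * ek)
  rw [r36, r37] at k5
  rw [r36, r38] at k6
  have k7 : 2 * finrank K ↥(es (ρ eg) 1 ⊓ es (ρ ek) 1) + 27 = 33 := by
    have := four h2 ρ r28 r29 r30
    rwa [hev2 _ ty_eg, hev2 _ ty_ek, hev2 _ ty_egk, h27] at this
  have k8 : finrank K ↥(es (ρ ez) 1 ⊓ es (ρ eg) 1 ⊓ es (ρ ek) 1) ≤ finrank K ↥(es (ρ eg) 1 ⊓ es (ρ ek) 1) :=
    Submodule.finrank_mono (le_inf (inf_le_left.trans inf_le_right) inf_le_right)
  have k9 : 1 ≤ finrank K ↥(es (ρ ez) 1 ⊓ es (ρ eg) 1 ⊓ es (ρ el) 1) := by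
    rw [Submodule.one_le_finrank_iff, Submodule.ne_bot_iff]
    exact ⟨y, ⟨⟨mem_es_one.2 hyz, mem_es_one.2 hyg⟩, mem_es_one.2 hyl⟩, hy0⟩
  rw [kz] at k3 k4
  rw [k0] at k1 k2
  omega

end Cfsg.Agent.H879.E6.Eleven
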