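import Cfsg.Agent.H879.E6.Seven
import Cfsg.Agent.H927.E6Cnt
import Cfsg.Agent.H65.E6Full
import Cfsg.Agent.H163.E6.Bgrp

/-!
# S5927, S5928: maximality and the tuple of `A₇` in characteristic 5 (helper879)
-/

set_option autoImplicit false

namespace Cfsg.Agent.H879.E6

open Cfsg Cfsg.Lie Module
open Cfsg.Agent.H952.F4 (sh cr tf ev MaxAlt)
open Cfsg.Agent.H952.F4.Jord
open Cfsg.Agent.H879.E6.Uniq (Q Good dis dis_iff dis_act act)
open Cfsg.Agent.ChevalleyStructure.E6Min.Tables Cfsg.Agent.ChevalleyStructure.E6Min.Basic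
  Cfsg.Agent.ChevalleyStructure.E6Min.Adjoint
open Cfsg.Agent.H931.E6 (T7 Seven NoFix)
open Cfsg.Agent.H163.E6 (V V' Lift Stab Sit Act.gz Act.V_gz Act.V'_gz Act.gz_mul Act.gz_gz)

universe u

/-! ### Homomorphisms from a perfect group -/

theorem hom_ext_central {A G : Type*} [Group A] [Group G] (hA : commutator A = ⊤) (f g : A →* G)
    (h : ∀ a, f a * (g a)⁻¹ ∈ Subgroup.center G) : f = g := by
  let χ : A →* ↥(Subgroup.center G) := MonoidHom.mk' (fun a => ⟨f a * (g a)⁻¹, h a⟩) (by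
    intro a b
    apply Subtype.ext
    change f (a * b) * (g (a * b))⁻¹ = f a * (g a)⁻¹ * (f b * (g b)⁻¹)
    have h1 := Subgroup.mem_center_iff.1 (h b) (g a)⁻¹
    rw [map_mul, map_mul, mul_inv_rev]
    calc f a * f b * ((g b)⁻¹ * (g a)⁻¹) = f a * (f b * (g b)⁻¹ * (g a)⁻¹) := by group
      _ = f a * ((g a)⁻¹ * (f b * (g b)⁻¹)) := by rw [h1]
      _ = _ := by group)
  ext a
  have h1 : a ∈ χ.ker := by
    have h2 : commutator A ≤ χ.ker := by
      rw [commutator_def, Subgroup.commutator_le]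
      intro a _ b _
      rw [MonoidHom.mem_ker, map_commutatorElement, commutatorElement_eq_one_iff_mul_comm]
      exact Subtype.ext (Subgroup.mem_center_iff.1 (χ b).2 _)
    rw [hA] at h2
    exact h2 trivial
  have h2 : f a * (g a)⁻¹ = 1 := congrArg Subtype.val h1
  exact mul_inv_eq_one.1 h2

section

variable {F : Type u} [Field F] {R : Representation F ↥(Zgrp F) (I27 → F)}

theorem R_mul (g h : ↥(Zgrp F)) (x : I27 → F) : R (g * h) x = R g (R h x) := by
  rw [map_mul]; rfl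

theorem R_inv (g : ↥(Zgrp F)) (x : I27 → F) : R g⁻¹ (R g x) = x := by
  rw [← R_mul, inv_mul_cancel, map_one]; rfl

theorem R_inv' (g : ↥(Zgrp F)) (x : I27 → F) : R g (R g⁻¹ x) = x := by
  rw [← R_mul, mul_inv_cancel, map_one]; rfl

/-- the trilinear form is invariant -/
theorem R_tri (hR : R = V F ∨ R = V' F) (g : ↥(Zgrp F)) (x y z : I27 → F) :
    tf (cr (R g x) (R g y)) (R g z) = tf (cr x y) z := by
  rcases hR with rfl | rfl
  · rw [Cfsg.Agent.H163.E6.Act.cr_act, tf_comm, Cfsg.Agent.H163.E6.Act.tf_act, tf_comm]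
  · rw [Cfsg.Agent.H163.E6.Act.cr_act', Cfsg.Agent.H163.E6.Act.tf_act]

theorem R_sh (hR : R = V F ∨ R = V' F) (g : ↥(Zgrp F)) {x : I27 → F} (hx : sh x = 0) : sh (R g x) = 0 := by
  rcases hR with rfl | rfl
  · rw [Cfsg.Agent.H163.E6.Act.sh_act, hx, map_zero]
  · rw [Cfsg.Agent.H163.E6.Act.sh_act', hx, map_zero]

theorem R_inj (hR : R = V F ∨ R = V' F) {g h : ↥(Zgrp F)} (H : ∀ x, R g x = R h x) : g = h := by
  rcases hR with rfl | rfl
  · exact Cfsg.Agent.H163.E6.V_injective H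
  · have h1 : Act.gz g = Act.gz h := Cfsg.Agent.H163.E6.V_injective fun x => by
      rw [Act.V_gz, Act.V_gz]; exact H x
    have h2 := congrArg Act.gz h1
    rwa [Act.gz_gz, Act.gz_gz] at h2

/-- linear maps preserving the cubic form come from the group -/
theorem exists_R (hR : R = V F ∨ R = V' F) (hF : ∃ c : F, c ≠ 0 ∧ c ≠ 1) (m : (I27 → F) ≃ₗ[F] (I27 → F))
    (hm : ∀ x, cubicT (m x) = cubicT x) : ∃ g : ↥(Zgrp F), ∀ x, R g x = m x := by
  let M : GL I27 F := ⟨LinearMap.toMatrix' (m : (I27 → F) →ₗ[F] (I27 → F)),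
    LinearMap.toMatrix' (m.symm : (I27 → F) →ₗ[F] (I27 → F)), by
      rw [← LinearMap.toMatrix'_comp, LinearEquiv.comp_symm, LinearMap.toMatrix'_id], by
      rw [← LinearMap.toMatrix'_comp, LinearEquiv.symm_comp, LinearMap.toMatrix'_id]⟩
  have hM : ∀ x, ((M : GL I27 F) : Matrix I27 I27 F).mulVec x = m x := fun x =>
    LinearMap.toMatrix'_mulVec (m : (I27 → F) →ₗ[F] (I27 → F)) x
  have h1 : M ∈ Zgrp F := by
    rw [Cfsg.Agent.H65.E6Full.Zgrp_eq_of_three hF, Cfsg.Agent.ChevalleyStructure.E6Min.Forms.mem_E6univ_iff]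
    intro x
    rw [hM, hm]
  rcases hR with rfl | rfl
  · exact ⟨⟨M, h1⟩, hM⟩
  · refine ⟨Act.gz ⟨M, h1⟩, fun x => ?_⟩
    rw [Act.V'_gz]
    exact hM x

theorem mem_iff_of_stable {W : Submodule F (I27 → F)} {T : (I27 → F) →ₗ[F] (I27 → F)} (hinj : Function.Injective T)
    (hT : ∀ x ∈ W, T x ∈ W) (x : I27 → F) : T x ∈ W ↔ x ∈ W := by
  refine ⟨fun h => ?_, hT x⟩
  have h1 : W.map T = W := by
    apply Submodule.eq_of_le_of_finrank_le
    · rintro _ ⟨y, hy, rfl⟩
      exact hT y hy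
    · exact (Submodule.equivMapOfInjective T hinj W).finrank_eq.le
  rw [← h1] at h
  obtain ⟨y, hy, h2⟩ := h
  rw [← hinj h2]
  exact hy

end

/-! ### Automorphisms -/

section

variable {F : Type u} [Field F] {R : Representation F ↥(Zgrp F) (I27 → F)} {H : Subgroup ↥(chevE6.group F)}
  {φ : T7 →* ↥(chevE6.group F)} {ψ : T7 →* ↥(Zgrp F)}

/-- conjugation by an element over `H` -/
theorem conj_lift (hM : MaxAlt H 7 φ) (hψ : Lift φ ψ) {k : ↥(Zgrp F)} (hk : ad F k ∈ H) :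
    ∃ s : Equiv.Perm (Fin 7), ∀ a : T7, k * ψ a * k⁻¹ = ψ (MulAut.conjNormal s a) := by
  have hex : ∀ x, ∃ y, φ y = ad F k * φ x * (ad F k)⁻¹ := fun x => hM.norm _ hk (φ x) ⟨x, rfl⟩
  choose f hf using hex
  have hinj : Function.Injective f := by
    intro x y hxy
    have h1 := hf x
    rw [hxy, hf y] at h1
    exact hM.inj (mul_left_cancel (mul_right_cancel h1)).symm
  let α : MulAut T7 := MulEquiv.ofBijective
    (MonoidHom.mk' f (fun x y => hM.inj (by rw [hf, map_mul, map_mul, hf, hf]; group)))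
    (Finite.injective_iff_bijective.mp hinj)
  obtain ⟨s, hs⟩ := (S2119.result 7 (by norm_num) (by norm_num)).2 α
  refine ⟨s, ?_⟩
  have h1 : ∀ x : T7, MulAut.conjNormal s x = f x := by
    intro x
    rw [hs]; rfl
  let f1 : T7 →* ↥(Zgrp F) := MonoidHom.mk' (fun a => k * ψ a * k⁻¹) (fun a b => by rw [map_mul]; group)
  let f2 : T7 →* ↥(Zgrp F) := ψ.comp (MulAut.conjNormal s : MulAut T7).toMonoidHom
  have h2 : f1 = f2 := by
    refine hom_ext_central (Cfsg.Agent.H163.E6.Cov.alt_perfect (n := 7) (by norm_num)) f1 f2 fun a => ?_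
    rw [← ker_ad, MonoidHom.mem_ker]
    change ad F (k * ψ a * k⁻¹ * (ψ (MulAut.conjNormal s a))⁻¹) = 1
    rw [map_mul, map_mul, map_mul, map_inv, map_inv, hψ, hψ, h1, hf]
    group
  intro a
  exact DFunLike.congr_fun h2 a

/-- the vectors `u` span the space -/
theorem ext_uu [CharP F 5] {v : Fin 7 → I27 → F} {c : F} {e : (I27 → F) ≃ₗ[F] (I27 → F)}
    (he : ∀ q : Q, e (uu (q0 F) q) = c⁻¹ • uu v q) {S T : (I27 → F) →ₗ[F] (I27 → F)}
    (h : ∀ q : Q, S (uu v q) = T (uu v q)) : S = T := by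
  have h1 : S.comp (e : (I27 → F) →ₗ[F] (I27 → F)) = T.comp (e : (I27 → F) →ₗ[F] (I27 → F)) := by
    refine (bas27 F).ext fun n => ?_
    rw [bas27_apply, LinearMap.comp_apply, LinearMap.comp_apply]
    change S (e (uu (q0 F) (bq n))) = T (e (uu (q0 F) (bq n)))
    rw [he, map_smul, map_smul, h]
  refine LinearMap.ext fun x => ?_
  have := LinearMap.congr_fun h1 (e.symm x)
  simpa using this

theorem R_uu (hR : R = V F ∨ R = V' F) (g : ↥(Zgrp F)) (v : Fin 7 → I27 → F) (q : Q) :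
    R g (uu v q) = uu (fun i => R g (v i)) q := by
  unfold uu ww
  rcases hR with rfl | rfl
  · rw [← Cfsg.Agent.H163.E6.Act.cr_act', ← Cfsg.Agent.H163.E6.Act.cr_act, ← Cfsg.Agent.H163.E6.Act.cr_act]
  · rw [← Cfsg.Agent.H163.E6.Act.cr_act, ← Cfsg.Agent.H163.E6.Act.cr_act', ← Cfsg.Agent.H163.E6.Act.cr_act']

theorem uu_act (v : Fin 7 → I27 → F) (s : Equiv.Perm (Fin 7)) (q : Q) :
    uu (fun i => v (s i)) q = uu v (act s q) := rfl

/-- **(step H)** elements over `H` permute the lines of the tuple -/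
theorem lines [Finite F] [CharP F 5] (hM : MaxAlt H 7 φ) (hψ : Lift φ ψ) (hR : R = V F ∨ R = V' F) {v : Fin 7 → I27 → F}
    {c : F} (hv : ∀ (a : T7) i, R (ψ a) (v i) = v ((a : Equiv.Perm (Fin 7)) i)) (ht : Tup v c) (hc : c ≠ 0)
    {k : ↥(Zgrp F)} (hk : ad F k ∈ H) :
    ∃ (s : Equiv.Perm (Fin 7)) (l : F), l ≠ 0 ∧ ∀ i, R k (v i) = l • v (s i) := by
  obtain ⟨s, hs⟩ := conj_lift hM hψ hk
  -- the second tuple
  set v2 : Fin 7 → I27 → F := fun i => R k (v (s.symm i)) with hv2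
  have t2 : Tup v2 c := by
    refine ⟨fun i => R_sh hR k (ht.white _), ?_, ?_⟩
    · rw [hv2]
      simp only
      rw [← map_sum, Equiv.sum_comp s.symm v, ht.sum, map_zero]
    · intro i j l hij hil hjl
      rw [hv2, ← tf_cr, R_tri hR, tf_cr]
      exact ht.tri _ _ _ (s.symm.injective.ne hij) (s.symm.injective.ne hil) (s.symm.injective.ne hjl)
  have a2 : ∀ (a : T7) i, R (ψ a) (v2 i) = v2 ((a : Equiv.Perm (Fin 7)) i) := by
    intro a i
    -- `a = conjNormal s b`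
    obtain ⟨b, rfl⟩ : ∃ b, MulAut.conjNormal s b = a := ⟨(MulAut.conjNormal s).symm a, (MulAut.conjNormal s).apply_symm_apply a⟩
    have h1 : ψ (MulAut.conjNormal s b) * k = k * ψ b := by rw [← hs]; group
    rw [hv2]
    simp only
    rw [← R_mul, h1, R_mul, hv, MulAut.conjNormal_apply]
    congr 2
    change (b : Equiv.Perm (Fin 7)) (s.symm i) = s.symm (s ((b : Equiv.Perm (Fin 7)) (s.symm i)))
    rw [s.symm_apply_apply]
  obtain ⟨e, e1, e2, e3⟩ := exists_conj ht hc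
  obtain ⟨e', e1', e2', e3'⟩ := exists_conj t2 hc
  let m : (I27 → F) ≃ₗ[F] (I27 → F) := e.symm.trans e'
  have hm : ∀ x, m x = e' (e.symm x) := fun x => rfl
  have mtri : ∀ x y z, tf (cr (m x) (m y)) (m z) = tf (cr x y) z := by
    intro x y z
    rw [hm, hm, hm, e1', tri_symm e hc e1, ← mul_assoc, mul_inv_cancel₀ hc, one_mul]
  have h5 := five_zero (F := F)
  have mN : ∀ x, cubicT (m x) = cubicT x := by
    intro x
    have h1 := mtri x x x
    rw [cr_self, cr_self, tf_smul_left, tf_smul_left, tf_sh_self, tf_sh_self] at h1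
    linear_combination h1 - (cubicT (m x) - cubicT x) * h5
  have mu : ∀ q, m (uu v q) = uu v2 q := by
    intro q
    have h1 : uu v q = c • e (uu (q0 F) q) := by rw [e3, smul_smul, mul_inv_cancel₀ hc, one_smul]
    rw [hm, h1, map_smul, e.symm_apply_apply, map_smul, e3', smul_smul, mul_inv_cancel₀ hc, one_smul]
  have mv : ∀ i, m (v i) = v2 i := by
    intro i
    rw [hm, ← e2 i, e.symm_apply_apply, e2']
  have hF : ∃ c : F, c ≠ 0 ∧ c ≠ 1 := ⟨2, two_ne, fun h => one_ne_zero (α := F) (by linear_combination h)⟩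
  obtain ⟨h0, hh0⟩ := exists_R hR hF m mN
  have hcomm : ∀ a : T7, h0 * ψ a = ψ a * h0 := by
    intro a
    apply R_inj hR
    have h1 : (R (h0 * ψ a)) = R (ψ a * h0) := by
      refine ext_uu e3 fun q => ?_
      rw [R_mul, R_mul, hh0, hh0, mu, R_uu hR, R_uu hR]
      simp only [hv, a2]
      rw [uu_act, uu_act, mu]
    intro x
    rw [h1]
  have hz : ad F h0 = 1 := by
    refine Cfsg.Agent.H163.E6.Cnt.centralizer_eq hM (by norm_num) fun a => ?_
    rw [← hψ a, ← map_mul, ← map_mul, hcomm]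
  obtain ⟨d, hd⟩ := Cfsg.Agent.H163.E6.exists_smul hz hR
  have hkv : ∀ j, R k (v j) = d • v (s j) := by
    intro j
    rw [← hd, hh0, mv, hv2]
    simp only
    rw [s.symm_apply_apply]
  refine ⟨s, d, ?_, hkv⟩
  rintro rfl
  have h1 := hkv 0
  rw [zero_smul] at h1
  have h2 := R_inv (R := R) k (v 0)
  rw [h1, map_zero] at h2
  exact v_ne ht hc 0 h2.symm

/-- **(step 7)** `H` is not maximal -/
theorem kill [Finite F] [CharP F 5] (hM : MaxAlt H 7 φ) (hψ : Lift φ ψ) (hR : R = V F ∨ R = V' F) {v : Fin 7 → I27 → F}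
    {c : F} (hv : ∀ (a : T7) i, R (ψ a) (v i) = v ((a : Equiv.Perm (Fin 7)) i)) (ht : Tup v c) (hc : c ≠ 0) :
    False := by
  obtain ⟨c1, c2, g, g1, g2, g3⟩ := core ht hc
  have h5 := five_zero (F := F)
  have gN : ∀ x, cubicT (g x) = cubicT x := by
    intro x
    have h1 := g1 x x x
    rw [cr_self, cr_self, tf_smul_left, tf_smul_left, tf_sh_self, tf_sh_self] at h1
    linear_combination h1 - (cubicT (g x) - cubicT x) * h5
  have hF : ∃ c : F, c ≠ 0 ∧ c ≠ 1 := ⟨2, two_ne, fun h => one_ne_zero (α := F) (by linear_combination h)⟩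
  obtain ⟨g', hg'⟩ := exists_R hR hF g gN
  have hinj : ∀ k : ↥(Zgrp F), Function.Injective (R k) := fun k x y h => by
    rw [← R_inv (R := R) k x, h, R_inv]
  -- the stabilizer
  let S : Subgroup ↥(Zgrp F) :=
    { carrier := {k | ∀ x, R k x ∈ WW v ↔ x ∈ WW v}
      mul_mem' := fun {a b} ha hb x => by rw [R_mul, ha, hb]
      one_mem' := fun x => by rw [map_one]; exact Iff.rfl
      inv_mem' := fun {a} ha x => by rw [← ha (R a⁻¹ x), R_inv'] }
  have memS : ∀ k, k ∈ S ↔ ∀ x, R k x ∈ WW v ↔ x ∈ WW v := fun k => Iff.rfl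
  have hgS : g' ∈ S := by
    rw [memS]
    exact mem_iff_of_stable (hinj g') fun x hx => by rw [hg']; exact g2 x hx
  set L := S.map (ad F) with hL
  have hHL : H ≤ L := by
    intro x hx
    obtain ⟨k, rfl⟩ := ad_surjective (F := F) x
    refine ⟨k, ?_, rfl⟩
    obtain ⟨s, l, hl, hs⟩ := lines hM hψ hR hv ht hc hx
    refine mem_iff_of_stable (hinj k) fun x hx => ?_
    exact WW_stable (k := R k) (μ := 1) (fun x y z => by rw [R_tri hR, one_mul]) hl hs hx
  have hLne : L ≠ ⊤ := by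
    intro htop
    have hall : ∀ k : ↥(Zgrp F), ∀ x ∈ WW v, R k x ∈ WW v := by
      intro k x hx
      have h1 : ad F k ∈ L := by rw [htop]; trivial
      obtain ⟨t, htS, h2⟩ := h1
      obtain ⟨d, hd⟩ := Cfsg.Agent.H163.E6.exists_smul (z := k * t⁻¹)
        (by rw [map_mul, map_inv, h2, mul_inv_cancel]) hR
      have h3 : R k x = d • R t x := by rw [← hd, ← R_mul, inv_mul_cancel_right]
      rw [h3]
      exact (WW v).smul_mem _ ((htS x).2 hx)
    have hallV : ∀ k : ↥(Zgrp F), ∀ x ∈ WW v, V F k x ∈ WW v := by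
      rcases hR with rfl | rfl
      · exact hall
      · intro k x hx
        have h1 := hall (Act.gz k) x hx
        rwa [Act.V'_gz] at h1
    exact c2 (Cfsg.Agent.H163.E6.Cnt.irred hallV c1)
  have hLH : L = H := by
    by_contra hne
    exact hLne (hM.coatom.2 L (lt_of_le_of_ne hHL (Ne.symm hne)))
  have hgH : ad F g'⁻¹ ∈ H := by
    rw [← hLH]
    exact ⟨g'⁻¹, inv_mem hgS, rfl⟩
  obtain ⟨s, l, -, hs⟩ := lines hM hψ hR hv ht hc hgH
  refine g3 (s 0) l ?_
  rw [← hs 0]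
  apply g.injective
  rw [g.apply_symm_apply, ← hg', R_inv']

end

end Cfsg.Agent.H879.E6
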