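import Cfsg.Agent.H879.E6.ModelA

/-!
# S5927, S5928: the explicit tuples over a field of characteristic 5 (helper879)
-/

set_option autoImplicit false

namespace Cfsg.Agent.H879.E6

open Cfsg.Lie Cfsg.Agent.H952.F4 Cfsg.Agent.H952.F4.Jord Cfsg.Agent.H879.E6.Uniq
open Cfsg.Agent.ChevalleyStructure.E6Min.Tables Cfsg.Agent.ChevalleyStructure.E6Min.Basic

theorem all_range {n : ℕ} {f : ℕ → Bool} (h : (List.range n).all f = true) {i : ℕ} (hi : i < n) : f i = true :=
  List.all_eq_true.1 h i (List.mem_range.2 hi)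

theorem sum_range7 (f : ℕ → ℕ) : ((List.range 7).map f).sum = ∑ i : Fin 7, f i.val := by
  rw [Fin.sum_univ_eq_sum_range (fun i => f i) 7]
  rfl

variable (F : Type*) [Field F]

/-- the tuple of a list -/
def tv (V : List (List ℕ)) : Fin 7 → I27 → F := fun i => vec F (V.getD i.val [])

variable {F} [CharP F 5]

theorem tv_ww {V W : List (List ℕ)} (h : chkT V W = true) (i j : Fin 7) :
    ww (tv F V) i j = vec F (W.getD (7 * i.val + j.val) []) := by
  unfold chkT at h
  simp only [Bool.and_eq_true] at h
  have h1 := all_range (all_range h.1.1.1 i.isLt) j.isLt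
  rw [← vec_eq (F := F) h1, ← vec_cr]
  rfl

theorem tup_of_chk {V W : List (List ℕ)} (h : chkT V W = true) : Tup (tv F V) 1 := by
  have hw := tv_ww (F := F) h
  unfold chkT at h
  simp only [Bool.and_eq_true] at h
  obtain ⟨⟨⟨h1, h2⟩, h3⟩, h4⟩ := h
  constructor
  · intro i
    have e := hw i i
    rw [vec_zero (all_range h2 i.isLt)] at e
    unfold ww at e
    rw [cr_self] at e
    exact (smul_eq_zero.1 e).resolve_left two_ne
  · funext ⟨k, i, j⟩
    have hn : nb k.val i.val j.val < 27 := by unfold nb; omega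
    have e := all_range h3 hn
    rw [Nat.beq_eq, sum_range7] at e
    rw [Finset.sum_apply]
    simp only [tv, vec]
    rw [← Nat.cast_sum, ← cast_mod, e]
    exact Nat.cast_zero
  · intro i j k hij hik hjk
    have e := all_range (all_range (all_range h4 i.isLt) j.isLt) k.isLt
    have f : ∀ a b : Fin 7, a ≠ b → Nat.beq a.val b.val = false := by
      intro a b hab
      rw [← Bool.not_eq_true, Nat.beq_eq]
      exact fun hh => hab (Fin.ext hh)
    rw [f i j hij, f i k hik, f j k hjk, Bool.false_or, Bool.false_or, Bool.false_or, Nat.beq_eq] at e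
    have hc : cr (tv F V j) (tv F V k) = ww (tv F V) j k := rfl
    rw [hc, hw j k]
    change tf (vec F (V.getD i.val [])) _ = 1
    rw [vec_tf, e, Nat.cast_one]

variable (F) in
/-- the first tuple -/
def q0 : Fin 7 → I27 → F := tv F V0

variable (F) in
/-- the second tuple -/
def q2 : Fin 7 → I27 → F := tv F V2

theorem q0_tup : Tup (q0 F) 1 := tup_of_chk chk0

theorem q2_tup : Tup (q2 F) 1 := tup_of_chk chk2

/-- the index of the basis -/
def bq (n : Fin 27) : Q := B27.getD n.val (0, 0, 0, 0)

theorem uu_bq (n : Fin 27) : uu (q0 F) (bq n) = vec F (U27.getD n.val []) := by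
  have h := all_range chkB n.isLt
  rw [← vec_eq (F := F) h, ← vec_cr, ← tv_ww chk0, ← tv_ww chk0]
  rfl

theorem tf_dual (m n : Fin 27) : tf (vec F (D27.getD m.val [])) (uu (q0 F) (bq n)) = if m = n then 1 else 0 := by
  have h := all_range (all_range chkD m.isLt) n.isLt
  rw [Nat.beq_eq] at h
  rw [uu_bq, vec_tf, h]
  by_cases hmn : m = n
  · subst hmn
    rw [if_pos rfl, Nat.beq_refl, cond_true, Nat.cast_one]
  · have : Nat.beq m.val n.val = false := by
      rw [← Bool.not_eq_true, Nat.beq_eq]
      exact fun hh => hmn (Fin.ext hh)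
    rw [if_neg hmn, this, cond_false, Nat.cast_zero]

/-- the trace form as a linear map -/
def tfl (x : I27 → F) : (I27 → F) →ₗ[F] F where
  toFun y := tf x y
  map_add' y z := tf_add_right x y z
  map_smul' c y := tf_smul_right c x y

theorem linInd : LinearIndependent F fun n : Fin 27 => uu (q0 F) (bq n) := by
  rw [Fintype.linearIndependent_iff]
  intro g hg m
  have h := congrArg (tfl (vec F (D27.getD m.val []))) hg
  rw [map_sum, map_zero] at h
  simp only [map_smul, smul_eq_mul] at h
  have e : ∀ n : Fin 27, tfl (vec F (D27.getD m.val [])) (uu (q0 F) (bq n)) = if m = n then 1 else 0 := tf_dual m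
  simp only [e, mul_ite, mul_one, mul_zero, Finset.sum_ite_eq, Finset.mem_univ, if_true] at h
  exact h

variable (F) in
/-- the basis of the vectors `u` -/
noncomputable def bas27 : Module.Basis (Fin 27) F (I27 → F) :=
  basisOfLinearIndependentOfCardEqFinrank (linInd (F := F)) (by
    rw [Module.finrank_fintype_fun_eq_card]
    decide)

theorem bas27_apply (n : Fin 27) : bas27 F n = uu (q0 F) (bq n) := by
  unfold bas27
  rw [coe_basisOfLinearIndependentOfCardEqFinrank]

/-- the combinations of the `w_ij` -/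
def ee (v : Fin 7 → I27 → F) (a b c d : Fin 7) : I27 → F := ww v a b + ww v c d - (ww v a c + ww v b d)

theorem ee_B8 (n : ℕ) (hn : n < 8) : ∃ a b c d : Fin 7, dis (a, b, c, d) = true ∧
    vec F (E8L.getD n []) = ee (q0 F) a b c d := by
  have h := all_range chkE hn
  rw [Bool.and_eq_true] at h
  refine ⟨_, _, _, _, h.1, ?_⟩
  rw [← vec_eq (F := F) h.2, vec_add, vec_add, vec_smul, vec_add, ← tv_ww chk0, ← tv_ww chk0, ← tv_ww chk0,
    ← tv_ww chk0]
  have h4 : ((4 : ℕ) : F) = -1 := by
    have := five_zero (F := F)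
    push_cast
    linear_combination this
  rw [h4, neg_one_smul, ← sub_eq_add_neg]
  rfl

/-- modulo the combinations of the first tuple, the second `w_ij` are sums -/
theorem w2_red (φ : (I27 → F) →ₗ[F] F) (hφ : ∀ a b c d : Fin 7, dis (a, b, c, d) = true → φ (ee (q0 F) a b c d) = 0) :
    ∃ f : Fin 7 → F, ∀ a b : Fin 7, a ≠ b → φ (ww (q2 F) a b) = f a + f b := by
  refine ⟨fun a => φ (vec F (F7.getD a.val [])), fun a b hab => ?_⟩
  have h := all_range (all_range chkW a.isLt) b.isLt
  have h1 : Nat.beq a.val b.val = false := by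
    rw [← Bool.not_eq_true, Nat.beq_eq]
    exact fun hh => hab (Fin.ext hh)
  rw [h1, Bool.false_or] at h
  have he : ∀ n, n < 8 → φ (vec F (E8L.getD n [])) = 0 := by
    intro n hn
    obtain ⟨a, b, c, d, h2, h3⟩ := ee_B8 (F := F) n hn
    rw [h3, hφ _ _ _ _ h2]
  have hl : ∀ c, φ (vec F (lin8 c)) = 0 := by
    intro c
    unfold lin8
    simp only [vec_add, vec_smul, map_add, map_smul, he 0 (by norm_num), he 1 (by norm_num), he 2 (by norm_num),
      he 3 (by norm_num), he 4 (by norm_num), he 5 (by norm_num), he 6 (by norm_num), he 7 (by norm_num), smul_zero,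
      add_zero]
  have e : ww (q2 F) a b = _ := tv_ww chk2 a b
  rw [e, vec_eq (F := F) h, vec_add, vec_add, map_add, map_add, hl, add_zero]

/-- the first vector of the second tuple is not proportional to a vector of the first tuple -/
theorem q2_ne (j : Fin 7) (c : F) : q2 F 0 ≠ c • q0 F j := by
  intro h
  have h1 := all_range chkN j.isLt
  rw [List.any_eq_true] at h1
  obtain ⟨s, hs, h1⟩ := h1
  rw [List.any_eq_true] at h1
  obtain ⟨t, ht, h1⟩ := h1
  rw [List.mem_range] at hs ht
  rw [Bool.not_eq_true', ← Bool.not_eq_true, Nat.beq_eq] at h1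
  apply h1
  have co : ∀ n, n < 27 → ((gt (V2.getD 0 []) n : ℕ) : F) = c * ((gt (V0.getD j.val []) n : ℕ) : F) := by
    intro n hn
    have := congrFun h (⟨n / 9, by omega⟩, ⟨n / 3 % 3, by omega⟩, ⟨n % 3, by omega⟩)
    simp only [q2, q0, tv, vec, Pi.smul_apply, smul_eq_mul] at this
    have e : nb (n / 9) (n / 3 % 3) (n % 3) = n := by unfold nb; omega
    rw [e] at this
    exact this
  have k : ((gt (V2.getD 0 []) s * gt (V0.getD j.val []) t : ℕ) : F) =
      ((gt (V2.getD 0 []) t * gt (V0.getD j.val []) s : ℕ) : F) := by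
    rw [Nat.cast_mul, Nat.cast_mul, co s hs, co t ht]
    ring
  exact (CharP.natCast_eq_natCast F 5).1 k

end Cfsg.Agent.H879.E6
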