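import Cfsg.Agent.H879.E6.Core
import Cfsg.Agent.H879.E6.Eleven
import Cfsg.Agent.H931.E6.Cases

/-!
# S5927, S5928: seven vectors permuted by `A₇` in characteristic 5 (helper879)

The tuple of white vectors.
-/

set_option autoImplicit false

namespace Cfsg.Agent.H879.E6

open Equiv Equiv.Perm Module
open Cfsg.Lie Cfsg.Agent.H952.F4 Cfsg.Agent.H952.F4.Jord
open Cfsg.Agent.H879.E6.Uniq (Q Good dis dis_iff dis_act act)
open Cfsg.Agent.ChevalleyStructure.E6Min.Tables Cfsg.Agent.ChevalleyStructure.E6Min.Basic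
open Cfsg.Agent.H931.E6 (T7 Seven NoFix five_trans rho_inv)

section

variable {F : Type*} [Field F]

/-- a dual pair of cubic representations -/
structure Pr (ρ ρ' : Representation F T7 (I27 → F)) : Prop where
  tfa : ∀ g x y, tf (ρ g x) (ρ' g y) = tf x y
  sha : ∀ g x, sh (ρ g x) = ρ' g (sh x)
  sha' : ∀ g x, sh (ρ' g x) = ρ g (sh x)
  cra : ∀ g x y, cr (ρ g x) (ρ g y) = ρ' g (cr x y)
  cra' : ∀ g x y, cr (ρ' g x) (ρ' g y) = ρ g (cr x y)
  Na : ∀ g x, cubicT (ρ g x) = cubicT x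
  Na' : ∀ g x, cubicT (ρ' g x) = cubicT x

variable {ρ ρ' : Representation F T7 (I27 → F)} {v : Fin 7 → I27 → F}

theorem Pr.swap (h : Pr ρ ρ') : Pr ρ' ρ :=
  ⟨fun g x y => by rw [tf_comm, h.tfa, tf_comm], h.sha', h.sha, h.cra', h.cra, h.Na', h.Na⟩

theorem Pr.tri (h : Pr ρ ρ') (g : T7) (x y z : I27 → F) :
    tf (cr (ρ g x) (ρ g y)) (ρ g z) = tf (cr x y) z := by
  rw [h.cra, h.swap.tfa]

theorem mul_app (g h : T7) (i : Fin 7) : ((g * h : T7) : Perm (Fin 7)) i = (g : Perm (Fin 7)) ((h : Perm (Fin 7)) i) :=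
  rfl

theorem inv_app {g : T7} {i j : Fin 7} (h : (g : Perm (Fin 7)) i = j) : ((g⁻¹ : T7) : Perm (Fin 7)) j = i := by
  rw [← h]
  exact (g : Perm (Fin 7)).symm_apply_apply i

theorem three_trans {i j k : Fin 7} (hij : i ≠ j) (hik : i ≠ k) (hjk : j ≠ k) :
    ∃ g : T7, (g : Perm (Fin 7)) 2 = i ∧ (g : Perm (Fin 7)) 3 = j ∧ (g : Perm (Fin 7)) 4 = k := by
  obtain ⟨l, hl⟩ := Cfsg.Agent.H931.E6.pick [i, j, k] (by simp)
  obtain ⟨m, hm⟩ := Cfsg.Agent.H931.E6.pick [i, j, k, l] (by simp)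
  simp only [List.mem_cons, List.not_mem_nil, or_false, not_or] at hl hm
  obtain ⟨g, g1, g2, g3, -, -⟩ := five_trans hij hik (Ne.symm hl.1) (Ne.symm hm.1) hjk (Ne.symm hl.2.1)
    (Ne.symm hm.2.1) (Ne.symm hl.2.2) (Ne.symm hm.2.2.1) (Ne.symm hm.2.2.2)
  exact ⟨g, g1, g2, g3⟩

theorem three_trans' {i j k i' j' k' : Fin 7} (hij : i ≠ j) (hik : i ≠ k) (hjk : j ≠ k) (hij' : i' ≠ j')
    (hik' : i' ≠ k') (hjk' : j' ≠ k') :
    ∃ g : T7, (g : Perm (Fin 7)) i = i' ∧ (g : Perm (Fin 7)) j = j' ∧ (g : Perm (Fin 7)) k = k' := by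
  obtain ⟨g, g1, g2, g3⟩ := three_trans hij hik hjk
  obtain ⟨h, h1, h2, h3⟩ := three_trans hij' hik' hjk'
  refine ⟨h * g⁻¹, ?_, ?_, ?_⟩
  · rw [mul_app, inv_app g1, h1]
  · rw [mul_app, inv_app g2, h2]
  · rw [mul_app, inv_app g3, h3]

theorem two_trans' {i j i' j' : Fin 7} (hij : i ≠ j) (hij' : i' ≠ j') :
    ∃ g : T7, (g : Perm (Fin 7)) i = i' ∧ (g : Perm (Fin 7)) j = j' := by
  obtain ⟨k, hk⟩ := Cfsg.Agent.H931.E6.pick [i, j] (by simp)
  obtain ⟨k', hk'⟩ := Cfsg.Agent.H931.E6.pick [i', j'] (by simp)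
  simp only [List.mem_cons, List.not_mem_nil, or_false, not_or] at hk hk'
  obtain ⟨g, g1, g2, -⟩ := three_trans' hij (Ne.symm hk.1) (Ne.symm hk.2) hij' (Ne.symm hk'.1) (Ne.symm hk'.2)
  exact ⟨g, g1, g2⟩

end

/-! ### The white tuple -/

section

variable {F : Type*} [Field F] [CharP F 5] {ρ ρ' : Representation F T7 (I27 → F)} {v : Fin 7 → I27 → F}

omit [CharP F 5] in
/-- seven white vectors permuted by `A₇` form a tuple -/
theorem tup_of_white (h : Pr ρ ρ') (hv : Seven ρ v) (hw : ∀ i, sh (v i) = 0) : ∃ c, Tup v c := by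
  refine ⟨tf (v 2) (cr (v 3) (v 4)), hw, hv.sum, ?_⟩
  intro i j k hij hik hjk
  obtain ⟨g, g1, g2, g3⟩ := three_trans hij hik hjk
  rw [← g1, ← g2, ← g3, ← hv.act, ← hv.act, ← hv.act, h.cra, h.tfa]

/-- **(step 3)** the invariants of seven vectors in characteristic 5 -/
theorem invs (h : Pr ρ ρ') (hv : Seven ρ v) :
    (∀ i, cubicT (v i) = 0) ∧ ∀ i j, tf (sh (v i)) (v j) = 0 := by
  -- the invariants
  have hn : ∀ i, cubicT (v i) = cubicT (v 0) := by
    intro i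
    obtain ⟨j, hj⟩ : ∃ j, j ≠ i := ⟨i + 1, by revert i; decide⟩
    obtain ⟨g, g1, -⟩ := two_trans' (i := 0) (j := 1) (by decide) (Ne.symm hj)
    rw [← g1, ← hv.act, h.Na]
  have ht : ∀ i j, i ≠ j → tf (sh (v i)) (v j) = tf (sh (v 0)) (v 1) := by
    intro i j hij
    obtain ⟨g, g1, g2⟩ := two_trans' (i := 0) (j := 1) (by decide) hij
    rw [← g1, ← g2, ← hv.act, ← hv.act, h.sha, h.swap.tfa]
  have hc : ∀ i j k, i ≠ j → i ≠ k → j ≠ k → tf (v i) (cr (v j) (v k)) = tf (v 2) (cr (v 3) (v 4)) := by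
    intro i j k hij hik hjk
    obtain ⟨g, g1, g2, g3⟩ := three_trans hij hik hjk
    rw [← g1, ← g2, ← g3, ← hv.act, ← hv.act, ← hv.act, h.cra, h.tfa]
  have e1 : tf (sh (v 0)) (∑ j, v j) = 0 := by rw [hv.sum, tf_zero_right]
  rw [tf_sum_right, Fin.sum_univ_seven, tf_sh_self, ht 0 2 (by decide), ht 0 3 (by decide), ht 0 4 (by decide),
    ht 0 5 (by decide), ht 0 6 (by decide)] at e1
  have e2 : tf (v 0) (cr (v 1) (∑ j, v j)) = 0 := by rw [hv.sum, cr_zero_right, tf_zero_right]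
  have e3 : tf (v 0) (cr (v 1) (v 0)) = 2 * tf (sh (v 0)) (v 1) := by
    rw [cr_comm, ← tf_cr, cr_self, tf_smul_left]
  have e4 : tf (v 0) (cr (v 1) (v 1)) = 2 * tf (sh (v 0)) (v 1) := by
    rw [cr_self, tf_smul_right, tf_comm, ht 1 0 (by decide)]
  rw [cr_sum_right, tf_sum_right, Fin.sum_univ_seven, e3, e4, hc 0 1 2 (by decide) (by decide) (by decide),
    hc 0 1 3 (by decide) (by decide) (by decide), hc 0 1 4 (by decide) (by decide) (by decide),
    hc 0 1 5 (by decide) (by decide) (by decide), hc 0 1 6 (by decide) (by decide) (by decide)] at e2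
  have h5 := five_zero (F := F)
  have t0 : tf (sh (v 0)) (v 1) = 0 := by
    linear_combination (tf (sh (v 0)) (v 1) + tf (v 2) (cr (v 3) (v 4))) * h5 - e2
  have n0 : cubicT (v 0) = 0 := by
    linear_combination (-cubicT (v 0) + 0) * h5 + 2 * e1 - 12 * t0
  refine ⟨fun i => by rw [hn, n0], fun i j => ?_⟩
  by_cases hij : i = j
  · rw [hij, tf_sh_self, hn, n0, mul_zero]
  · rw [ht i j hij, t0]

/-- **(step 3)** a white tuple in one of the two modules -/
theorem exists_white (h : Pr ρ ρ') (hρ' : NoFix ρ') (hv : Seven ρ v) (h0 : v 0 ≠ 0) :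
    (∃ v c, Seven ρ v ∧ v 0 ≠ 0 ∧ Tup v c) ∨ ∃ v c, Seven ρ' v ∧ v 0 ≠ 0 ∧ Tup v c := by
  by_cases hs : ∀ i, sh (v i) = 0
  · obtain ⟨c, hc⟩ := tup_of_white h hv hs
    exact Or.inl ⟨v, c, hv, h0, hc⟩
  · push Not at hs
    obtain ⟨i, hi⟩ := hs
    have hw : Seven ρ' fun i => sh (v i) := Seven.of_noFix hρ' fun g i => by rw [← h.sha, hv.act]
    have hw2 : ∀ i, sh (sh (v i)) = 0 := fun i => by rw [sh_sh, (invs h hv).1, zero_smul]
    obtain ⟨c, hc⟩ := tup_of_white h.swap hw hw2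
    exact Or.inr ⟨_, c, hw, hw.ne_zero hi, hc⟩

end

/-! ### The fixed space of `A₄` -/

section

open Eleven
open Cfsg.Agent.H546.F4Eig (mem_es_one rho_sq rho_mul)

theorem s1 : ea * es3 = es3 * eb := by decide +kernel
theorem s2 : eb * es3 = es3 * (ea * eb) := by decide +kernel
theorem s3 : ea * (es3 * es3) = es3 * (es3 * (ea * eb)) := by decide +kernel
theorem s4 : eb * (es3 * es3) = es3 * (es3 * ea) := by decide +kernel
theorem s5 : es3 * es3 * es3 = 1 := by decide +kernel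
theorem s6 : ea * (ea * eb) = eb := by decide +kernel
theorem s7 : eb * (ea * eb) = ea := by decide +kernel

theorem fx : ∀ k : Fin 7, (k = 4 ∨ k = 5 ∨ k = 6) → (ea : Perm (Fin 7)) k = k ∧ (eb : Perm (Fin 7)) k = k ∧
    (es3 : Perm (Fin 7)) k = k := by decide +kernel

variable {F : Type*} [Field F] [CharP F 5] {ρ ρ' : Representation F T7 (I27 → F)} {v : Fin 7 → I27 → F}

/-- the fixed space of `A₄` -/
def M4 (ρ : Representation F T7 (I27 → F)) : Submodule F (I27 → F) :=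
  es (ρ ea) 1 ⊓ es (ρ (ea * eb)) 1 ⊓ es (ρ es3) 1

omit [CharP F 5] in
theorem mem_M4 {x : I27 → F} : x ∈ M4 ρ ↔ ρ ea x = x ∧ ρ eb x = x ∧ ρ es3 x = x := by
  rw [M4, Submodule.mem_inf, Submodule.mem_inf, mem_es_one, mem_es_one, mem_es_one, rho_mul]
  constructor
  · rintro ⟨⟨h1, h2⟩, h3⟩
    refine ⟨h1, ?_, h3⟩
    have := congrArg (ρ ea) h2
    rw [rho_sq ρ r1, h1] at this
    exact this
  · rintro ⟨h1, h2, h3⟩
    exact ⟨⟨h1, by rw [h2, h1]⟩, h3⟩

theorem M4_dim (hev2 : ∀ g : T7, (g : Perm (Fin 7)).cycleType = {2, 2} → ev (ρ g) 1 = 15)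
    (hev3 : ∀ g : T7, (g : Perm (Fin 7)).cycleType = {3} → ev (ρ g) 1 = 9) : finrank F ↥(M4 ρ) = 3 := by
  have h1 := Cfsg.Agent.H546.F4Eig.four (two_ne (F := F)) ρ r1 r4
    (by rw [← mul_assoc, r1, one_mul, mul_assoc, ← r3, ← mul_assoc, r1, one_mul])
  rw [hev2 _ ty_ea, hev2 _ ty_eab, s6, hev2 _ ty_eb, Cfsg.Agent.H931.E6.finrank27] at h1
  have h := Cfsg.Agent.H546.F4Eig.a4 (two_ne (F := F)) ρ r1 r4
    (by rw [← mul_assoc, r1, one_mul, mul_assoc, ← r3, ← mul_assoc, r1, one_mul]) r5 r6 r7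
  rw [hev3 _ ty_s, Cfsg.Agent.H931.E6.finrank27] at h
  have h2 : finrank F ↥(M4 ρ) = finrank F ↥(es (ρ ea) 1 ⊓ es (ρ (ea * eb)) 1 ⊓ es (ρ es3) 1) := rfl
  omega

omit [CharP F 5] in
theorem v_mem_M4 (hv : Seven ρ v) {k : Fin 7} (hk : k = 4 ∨ k = 5 ∨ k = 6) : v k ∈ M4 ρ := by
  obtain ⟨h1, h2, h3⟩ := fx k hk
  rw [mem_M4, hv.act, hv.act, hv.act, h1, h2, h3]
  exact ⟨rfl, rfl, rfl⟩

theorem M4_span (hev2 : ∀ g : T7, (g : Perm (Fin 7)).cycleType = {2, 2} → ev (ρ g) 1 = 15)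
    (hev3 : ∀ g : T7, (g : Perm (Fin 7)).cycleType = {3} → ev (ρ g) 1 = 9) (hv : Seven ρ v) (h0 : v 0 ≠ 0) :
    M4 ρ = Submodule.span F (Set.range ![v 4, v 5, v 6]) := by
  have h7 : (7 : F) ≠ 0 := by
    intro h
    have h5 := five_zero (F := F)
    exact two_ne (F := F) (by linear_combination h - h5)
  have hli : LinearIndependent F ![v 4, v 5, v 6] := by
    rw [Fintype.linearIndependent_iff]
    intro x hx
    have h1 : ∑ i, (![0, 0, 0, 0, x 0, x 1, x 2] : Fin 7 → F) i • v i = 0 := by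
      rw [Fin.sum_univ_seven]
      rw [Fin.sum_univ_three] at hx
      simpa using hx
    have h2 := hv.coeff_eq h7 h0 h1
    intro i
    fin_cases i
    · simpa using h2 4 0
    · simpa using h2 5 0
    · simpa using h2 6 0
  symm
  apply Submodule.eq_of_le_of_finrank_le
  · rw [Submodule.span_le]
    rintro _ ⟨i, rfl⟩
    fin_cases i
    · exact v_mem_M4 hv (by decide)
    · exact v_mem_M4 hv (by decide)
    · exact v_mem_M4 hv (by decide)
  · rw [M4_dim hev2 hev3, finrank_span_eq_card hli, Fintype.card_fin]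

/-- a vector of the dual module fixed by `A₄` and orthogonal to `v 4, v 5, v 6` is zero -/
theorem orth (h : Pr ρ ρ') (hev2 : ∀ g : T7, (g : Perm (Fin 7)).cycleType = {2, 2} → ev (ρ g) 1 = 15)
    (hev3 : ∀ g : T7, (g : Perm (Fin 7)).cycleType = {3} → ev (ρ g) 1 = 9) (hv : Seven ρ v) (h0 : v 0 ≠ 0)
    {w : I27 → F} (hw : w ∈ M4 ρ') (o4 : tf (v 4) w = 0) (o5 : tf (v 5) w = 0) (o6 : tf (v 6) w = 0) : w = 0 := by
  have ho : ∀ x ∈ M4 ρ, tf x w = 0 := by
    intro x hx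
    rw [M4_span hev2 hev3 hv h0] at hx
    induction hx using Submodule.span_induction with
    | mem x hx =>
      obtain ⟨i, rfl⟩ := hx
      fin_cases i
      · exact o4
      · exact o5
      · exact o6
    | zero => exact tf_zero_left w
    | add x y _ _ hx hy => rw [tf_add_left, hx, hy, add_zero]
    | smul a x _ hx => rw [tf_smul_left, hx, mul_zero]
  refine tf_nondeg fun x => ?_
  rw [tf_comm]
  obtain ⟨w1, w2, w3⟩ := mem_M4.1 hw
  set u := x + ρ ea x + ρ eb x + ρ ea (ρ eb x) with hu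
  have ua : ρ ea u = u := by
    rw [hu, map_add, map_add, map_add, rho_sq ρ r1, rho_sq ρ r1]
    abel
  have ub : ρ eb u = u := by
    have e1 : ∀ y, ρ eb (ρ ea y) = ρ ea (ρ eb y) := fun y => by rw [← rho_mul, ← rho_mul, r3]
    rw [hu, map_add, map_add, map_add, rho_sq ρ r2, e1, e1, rho_sq ρ r2]
    abel
  set y := u + ρ es3 u + ρ es3 (ρ es3 u) with hy
  have hyM : y ∈ M4 ρ := by
    rw [mem_M4]
    refine ⟨?_, ?_, ?_⟩
    · have e1 : ρ ea (ρ es3 u) = ρ es3 u := by rw [← rho_mul, s1, rho_mul, ub]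
      have e2 : ρ ea (ρ es3 (ρ es3 u)) = ρ es3 (ρ es3 u) := by
        rw [← rho_mul ρ es3, ← rho_mul, s3, rho_mul, rho_mul, rho_mul, ub, ua, rho_mul]
      rw [hy, map_add, map_add, ua, e1, e2]
    · have e1 : ρ eb (ρ es3 u) = ρ es3 u := by rw [← rho_mul, s2, rho_mul, rho_mul, ub, ua]
      have e2 : ρ eb (ρ es3 (ρ es3 u)) = ρ es3 (ρ es3 u) := by
        rw [← rho_mul ρ es3, ← rho_mul, s4, rho_mul, rho_mul, ua, rho_mul]
      rw [hy, map_add, map_add, ub, e1, e2]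
    · have e2 : ρ es3 (ρ es3 (ρ es3 u)) = u := by
        rw [← rho_mul ρ es3, ← rho_mul, s5, map_one, Module.End.one_apply]
      rw [hy, map_add, map_add, e2]
      abel
  have ta : ∀ x, tf (ρ ea x) w = tf x w := fun x => by
    nth_rewrite 1 [← w1]
    exact h.tfa _ _ _
  have tb : ∀ x, tf (ρ eb x) w = tf x w := fun x => by
    nth_rewrite 1 [← w2]
    exact h.tfa _ _ _
  have ts : ∀ x, tf (ρ es3 x) w = tf x w := fun x => by
    nth_rewrite 1 [← w3]
    exact h.tfa _ _ _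
  have h1 := ho y hyM
  rw [hy, tf_add_left, tf_add_left, ts, ts, ts, hu, tf_add_left, tf_add_left, tf_add_left, ta, ta, tb] at h1
  have h2 : (2 : F) * tf x w = 0 := by
    have h5 := five_zero (F := F)
    linear_combination h1 - 2 * tf x w * h5
  exact (mul_eq_zero.1 h2).resolve_left two_ne

omit [CharP F 5] in
theorem w_mem_M4 (h : Pr ρ ρ') (hv : Seven ρ v) {j k : Fin 7} (hj : j = 4 ∨ j = 5 ∨ j = 6) (hk : k = 4 ∨ k = 5 ∨ k = 6) :
    ww v j k ∈ M4 ρ' := by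
  obtain ⟨h1, h2, h3⟩ := mem_M4.1 (v_mem_M4 hv hj)
  obtain ⟨k1, k2, k3⟩ := mem_M4.1 (v_mem_M4 hv hk)
  rw [mem_M4]
  unfold ww
  rw [← h.cra, ← h.cra, ← h.cra, h1, h2, h3, k1, k2, k3]
  exact ⟨rfl, rfl, rfl⟩

/-- **(step 5)** `c = 0` -/
theorem ts_of_zero (h : Pr ρ ρ') (hev2 : ∀ g : T7, (g : Perm (Fin 7)).cycleType = {2, 2} → ev (ρ g) 1 = 15)
    (hev3 : ∀ g : T7, (g : Perm (Fin 7)).cycleType = {3} → ev (ρ g) 1 = 9) (hv : Seven ρ v) (h0 : v 0 ≠ 0)
    (ht : Tup v 0) : ∀ i j, cr (v i) (v j) = 0 := by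
  have t0 : ∀ k, tf (v k) (ww v 4 5) = 0 := fun k => by
    rw [tf_v_ww ht (by decide), ite_self]
  have hw : ww v 4 5 = 0 := orth h hev2 hev3 hv h0 (w_mem_M4 h hv (by decide) (by decide)) (t0 _) (t0 _) (t0 _)
  intro i j
  by_cases hij : i = j
  · rw [hij]
    exact ht.ww_self j
  · obtain ⟨g, g1, g2⟩ := two_trans' (i := 4) (j := 5) (by decide) hij
    rw [← g1, ← g2, ← hv.act, ← hv.act, h.cra]
    unfold ww at hw
    rw [hw, map_zero]

/-- **(step 6)** `c ≠ 0`: `A₆` has no fixed vector in the dual module -/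
theorem no_seven (h : Pr ρ ρ') (hev2 : ∀ g : T7, (g : Perm (Fin 7)).cycleType = {2, 2} → ev (ρ g) 1 = 15)
    (hev3 : ∀ g : T7, (g : Perm (Fin 7)).cycleType = {3} → ev (ρ g) 1 = 9) (hv : Seven ρ v) (h0 : v 0 ≠ 0) {c : F}
    (ht : Tup v c) (hc : c ≠ 0) {y : Fin 7 → I27 → F} (hy : Seven ρ' y) : y 0 = 0 := by
  set β := tf (v 0) (y 1) with hβ
  have hb : ∀ i j, i ≠ j → tf (v i) (y j) = β := by
    intro i j hij
    obtain ⟨g, g1, g2⟩ := two_trans' (i := 0) (j := 1) (by decide) hij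
    rw [← g1, ← g2, ← hv.act, ← hy.act, h.tfa]
  have h66 : tf (v 6) (y 6) = -β := by
    have h1 : tf (v 6) (∑ j, y j) = 0 := by rw [hy.sum, tf_zero_right]
    rw [tf_sum_right, Fin.sum_univ_seven, hb 6 0 (by decide), hb 6 1 (by decide), hb 6 2 (by decide),
      hb 6 3 (by decide), hb 6 4 (by decide), hb 6 5 (by decide)] at h1
    have h5 := five_zero (F := F)
    linear_combination h1 - β * h5
  have tz : ∀ x a b c', tf x (c • a + (-β) • (b + c' + (-1 : F) • ww v 4 5)) =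
      c * tf x a - β * (tf x b + tf x c' - tf x (ww v 4 5)) := by
    intro x a b c'
    rw [tf_add_right, tf_smul_right, tf_smul_right, tf_add_right, tf_add_right, tf_smul_right]
    ring
  have hz : c • y 6 + (-β) • (ww v 5 6 + ww v 4 6 + (-1 : F) • ww v 4 5) = 0 := by
    refine orth h hev2 hev3 hv h0 ?_ ?_ ?_ ?_
    · refine Submodule.add_mem _ (Submodule.smul_mem _ _ (v_mem_M4 hy (by decide))) (Submodule.smul_mem _ _ ?_)
      exact Submodule.add_mem _ (Submodule.add_mem _ (w_mem_M4 h hv (by decide) (by decide))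
        (w_mem_M4 h hv (by decide) (by decide))) (Submodule.smul_mem _ _ (w_mem_M4 h hv (by decide) (by decide)))
    · rw [tz, hb 4 6 (by decide), tf_v_ww ht (by decide), tf_v_ww ht (by decide), tf_v_ww ht (by decide),
        if_neg (by decide), if_pos (by decide), if_pos (by decide)]
      ring
    · rw [tz, hb 5 6 (by decide), tf_v_ww ht (by decide), tf_v_ww ht (by decide), tf_v_ww ht (by decide),
        if_pos (by decide), if_neg (by decide), if_pos (by decide)]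
      ring
    · rw [tz, h66, tf_v_ww ht (by decide), tf_v_ww ht (by decide), tf_v_ww ht (by decide),
        if_pos (by decide), if_pos (by decide), if_neg (by decide)]
      ring
  -- another element
  obtain ⟨g, g6, g4, g5⟩ := three_trans' (i := 6) (j := 4) (k := 5) (i' := 6) (j' := 4) (k' := 3) (by decide)
    (by decide) (by decide) (by decide) (by decide) (by decide)
  have hw : ∀ (g : T7) a b, ρ' g (ww v a b) = ww v ((g : Perm (Fin 7)) a) ((g : Perm (Fin 7)) b) := by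
    intro g a b
    unfold ww
    rw [← h.cra, hv.act, hv.act]
  have hz' := congrArg (ρ' g) hz
  simp only [map_add, map_smul, map_zero, hw, hy.act, g6, g4, g5] at hz'
  have he : β • ee v 5 6 4 3 = 0 := by
    have h1 : β • ee v 5 6 4 3 = (c • y 6 + (-β) • (ww v 3 6 + ww v 4 6 + (-1 : F) • ww v 4 3)) -
        (c • y 6 + (-β) • (ww v 5 6 + ww v 4 6 + (-1 : F) • ww v 4 5)) := by
      unfold ee
      rw [Tup.ww_comm v 5 4, Tup.ww_comm v 6 3]
      module
    rw [h1, hz', hz, sub_zero]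
  have hβ0 : β = 0 := by
    by_contra hne
    have he0 := (smul_eq_zero.1 he).resolve_left hne
    refine (core ht hc).2.1 ?_
    rw [Submodule.eq_top_iff']
    intro x a b d e hd
    obtain ⟨g1, g2, g3, g4, g5, g6⟩ := dis_iff.1 hd
    obtain ⟨f, hf⟩ := Cfsg.Agent.H931.E6.pick [a, b, d, e] (by simp)
    simp only [List.mem_cons, List.not_mem_nil, or_false, not_or] at hf
    obtain ⟨k, -, k3, k4, k5, k6⟩ := five_trans (i := f) (j := e) (k := d) (l := a) (m := b) hf.2.2.2 hf.2.2.1 hf.1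
      hf.2.1 (Ne.symm g6) (Ne.symm g3) (Ne.symm g5) (Ne.symm g2) (Ne.symm g4) g1
    have h1 := congrArg (ρ' k) he0
    unfold ee at h1 ⊢
    simp only [map_add, map_sub, map_zero, hw, k3, k4, k5, k6] at h1
    rw [h1, tf_zero_right]
  have h6 : y 6 = 0 := by
    rw [hβ0, neg_zero, zero_smul, add_zero] at hz
    exact (smul_eq_zero.1 hz).resolve_left hc
  obtain ⟨g, g1, -⟩ := two_trans' (i := 6) (j := 5) (i' := 0) (j' := 1) (by decide) (by decide)
  rw [← g1, ← hy.act, h6, map_zero]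

end

end Cfsg.Agent.H879.E6
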