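import Cfsg.Agent.H879.E6.UniqD

/-!
# S5927, S5928: uniqueness of the cubic form of (A7, p = 5), fifth part (helper879)

All good functions are zero.
-/

set_option autoImplicit false

namespace Cfsg.Agent.H879.E6.Uniq

open Good (inj inj_iff)

/-- decoding of permutations -/
def dec (n : ℕ) (i : Fin 7) : Fin 7 := ⟨n / 7 ^ i.val % 7, Nat.mod_lt _ (by decide)⟩

/-- the representative with number `k` -/
def rp (k : ℕ) : T := reps.getD k ((0, 1, 2, 3), (0, 1, 2, 3), (0, 1, 2, 3))

/-- check of a row -/
def chk (y : Q) : List Q → List (ℕ × ℕ) → Bool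
  | [], _ => true
  | _ :: _, [] => false
  | z :: zs, e :: es => inj (dec e.1) && tb (cn (actT (dec e.1) (rp e.2))) (cn ((0, 1, 2, 3), y, z)) && chk y zs es

/-- the types of the second index -/
def ty (r : ℕ) : Q := [(0, 2, 1, 3), (0, 2, 1, 4), (0, 2, 4, 5), (0, 4, 1, 5), (0, 4, 2, 5), (0, 4, 5, 6)].getD r (0, 1, 2, 3)

/-- check of the list of the second indices -/
def chk1 : List Q → List (ℕ × ℕ) → Bool
  | [], _ => true
  | _ :: _, [] => false
  | y :: ys, e :: es =>
    ((eb y.1 0 && eb y.2.1 1) || (eb y.1 2 && eb y.2.1 3) || (eb y.2.2.1 2 && eb y.2.2.2 3) ||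
      (Nat.blt e.2 6 && inj (dec e.1) && qb (cq (act (dec e.1) (0, 1, 2, 3))) (0, 1, 2, 3) &&
        qb (cq (act (dec e.1) (ty e.2))) y)) && chk1 ys es

def ytab : List (ℕ × ℕ) := [(0, 6), (0, 6), (0, 6), (0, 6), (0, 6), (0, 6), (0, 6), (0, 6), (0, 6), (0, 6), (800667, 0), (800667, 1),
  (786261, 1), (671013, 1), (799899, 1), (785493, 1), (670245, 1), (800667, 2), (699825, 2), (584577, 2),
  (800373, 0), (800373, 1), (785967, 1), (670719, 1), (799893, 1), (785487, 1), (670239, 1), (800373, 2),
  (699531, 2), (584283, 2), (800661, 1), (800367, 1), (800667, 3), (699825, 3), (0, 6), (800667, 4), (699825, 4),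
  (800373, 4), (699531, 4), (800667, 5), (786255, 1), (785961, 1), (786261, 3), (584577, 3), (0, 6), (786261, 4),
  (584577, 4), (785967, 4), (584283, 4), (786261, 5), (671007, 1), (670713, 1), (671013, 3), (570171, 3), (0, 6),
  (671013, 4), (570171, 4), (670719, 4), (569877, 4), (671013, 5), (799605, 1), (785199, 1), (669951, 1),
  (800661, 2), (699819, 2), (584571, 2), (799599, 1), (785193, 1), (669945, 1), (800367, 2), (699525, 2),
  (584277, 2), (0, 6), (800661, 4), (699819, 4), (800367, 4), (699525, 4), (800661, 5), (0, 6), (786255, 4),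
  (584571, 4), (785961, 4), (584277, 4), (786255, 5), (0, 6), (671007, 4), (570165, 4), (670713, 4), (569871, 4),
  (671007, 5), (0, 6), (0, 6), (0, 6), (799899, 3), (699057, 3), (799899, 5), (785493, 3), (583809, 3),
  (785493, 5), (670245, 3), (569403, 3), (670245, 5), (799893, 5), (785487, 5), (670239, 5)]

theorem ychk : chk1 L105 ytab = true := by decide +kernel

def row0 : List (ℕ × ℕ) := [(800667, 3), (800667, 13), (786261, 13), (671013, 13), (800367, 13), (785961, 13), (670713, 13), (800667, 35),
  (699825, 35), (584577, 35), (800625, 3), (800625, 13), (786219, 13), (670971, 13), (800025, 13), (785619, 13),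
  (670371, 13), (800625, 35), (699783, 35), (584535, 35), (800667, 46), (800667, 47), (786261, 47), (671013, 47),
  (800625, 47), (786219, 47), (670971, 47), (800667, 48), (699825, 48), (584577, 48), (800367, 47), (800241, 13),
  (800667, 49), (699825, 49), (799899, 13), (800625, 49), (699783, 49), (800667, 50), (699825, 50), (800667, 51),
  (785961, 47), (785835, 13), (786261, 49), (584577, 49), (785493, 13), (786219, 49), (584535, 49), (786261, 50),
  (584577, 50), (786261, 51), (670713, 47), (670587, 13), (671013, 49), (570171, 49), (670245, 13), (670971, 49),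
  (570129, 49), (671013, 50), (570171, 50), (671013, 51), (800241, 47), (785835, 47), (670587, 47), (800367, 48),
  (699525, 48), (584277, 48), (799641, 13), (785235, 13), (669987, 13), (800241, 35), (699399, 35), (584151, 35),
  (799599, 13), (800367, 50), (699525, 50), (800241, 49), (699399, 49), (800367, 51), (785193, 13), (785961, 50),
  (584277, 50), (785835, 49), (584151, 49), (785961, 51), (669945, 13), (670713, 50), (569871, 50), (670587, 49),
  (569745, 49), (670713, 51), (799899, 35), (699057, 35), (583809, 35), (799899, 49), (699057, 49), (800025, 51),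
  (785493, 49), (583809, 49), (785619, 51), (670245, 49), (569403, 49), (670371, 51), (799641, 51), (785235, 51),
  (669987, 51)]

theorem rchk0 : chk (ty 0) L105 row0 = true := by decide +kernel

def row1 : List (ℕ × ℕ) := [(800667, 4), (798609, 13), (786261, 14), (671013, 14), (800373, 18), (785967, 19), (670719, 19), (800667, 36),
  (699825, 36), (584577, 37), (800625, 13), (798567, 4), (769755, 14), (654507, 14), (797685, 18), (798567, 36),
  (697725, 36), (768873, 19), (653625, 19), (467229, 37), (800373, 47), (797847, 15), (800667, 52), (699825, 52),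
  (800667, 53), (800667, 54), (699825, 54), (800667, 55), (699825, 55), (800667, 56), (797685, 47), (798567, 53),
  (798567, 54), (697725, 54), (799899, 15), (798567, 52), (697725, 52), (798567, 55), (697725, 55), (798567, 56),
  (800667, 57), (800667, 58), (769035, 16), (800667, 59), (785493, 16), (798567, 58), (798567, 59), (800667, 60),
  (800667, 61), (798567, 61), (699825, 57), (699825, 58), (653787, 16), (699825, 59), (670245, 16), (697725, 58),
  (697725, 59), (699825, 60), (699825, 61), (697725, 61), (797259, 53), (785199, 54), (669951, 54), (768447, 54),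
  (653199, 54), (800667, 62), (800667, 63), (800667, 64), (699825, 64), (800667, 65), (699825, 65), (800667, 66),
  (797259, 20), (768447, 21), (653199, 21), (797847, 38), (697005, 38), (466509, 39), (785199, 21), (798567, 64),
  (800667, 67), (800667, 68), (800667, 69), (800667, 70), (669951, 21), (697725, 64), (699825, 67), (699825, 68),
  (699825, 69), (699825, 70), (799899, 38), (699057, 38), (583809, 39), (798567, 65), (697725, 65), (798567, 66),
  (798567, 68), (798567, 70), (798567, 69), (697725, 68), (697725, 70), (697725, 69), (800667, 71), (800667, 72),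
  (699825, 72)]

theorem rchk1 : chk (ty 1) L105 row1 = true := by decide +kernel

def row2 : List (ℕ × ℕ) := [(800667, 5), (798609, 16), (782145, 16), (671013, 17), (800373, 22), (785967, 22), (670719, 23), (761499, 29),
  (699825, 40), (584577, 40), (800625, 35), (768873, 19), (766521, 19), (448707, 37), (735933, 19), (733581, 19),
  (213495, 37), (760641, 6), (386085, 24), (385791, 24), (800373, 48), (800373, 55), (785967, 55), (670719, 56),
  (735765, 54), (733371, 54), (660033, 62), (730629, 31), (800667, 73), (786261, 73), (768789, 54), (800367, 65),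
  (761709, 65), (800667, 74), (793725, 16), (760641, 49), (386085, 59), (728781, 68), (800667, 75), (376863, 70),
  (766395, 54), (785961, 65), (761661, 65), (786261, 74), (777261, 16), (760347, 49), (385791, 59), (728733, 68),
  (786261, 75), (376815, 70), (671007, 62), (670713, 66), (644931, 75), (527625, 75), (670245, 17), (184389, 59),
  (184095, 59), (800667, 76), (786261, 76), (384885, 32), (799605, 55), (785199, 55), (669951, 56), (758853, 31),
  (799899, 73), (785493, 73), (799599, 65), (785193, 65), (669945, 66), (759441, 44), (800667, 77), (786261, 77),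
  (799605, 22), (756873, 68), (799899, 76), (800667, 78), (800667, 79), (800667, 80), (785199, 22), (756921, 68),
  (785493, 76), (786261, 78), (786261, 79), (786261, 80), (669951, 23), (799899, 75), (785493, 75), (799899, 79),
  (785493, 79), (456915, 45), (723867, 29), (699057, 40), (583809, 40), (723993, 65), (227607, 74), (170391, 70),
  (723945, 65), (227313, 74), (170343, 70), (606615, 75), (489309, 75), (182613, 32), (799899, 80), (785493, 80),
  (225831, 45)]

theorem rchk2 : chk (ty 2) L105 row2 = true := by decide +kernel

def row3 : List (ℕ × ℕ) := [(800667, 6), (798609, 19), (782139, 19), (671013, 24), (796257, 19), (779787, 19), (670719, 24), (763035, 35),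
  (645729, 37), (528123, 37), (800667, 49), (798567, 54), (766641, 16), (671013, 59), (793851, 65), (777387, 68),
  (660081, 70), (761709, 65), (699825, 74), (762909, 75), (800373, 49), (796173, 54), (750177, 16), (670719, 59),
  (793803, 65), (777339, 68), (660033, 70), (747303, 65), (699531, 74), (748503, 75), (769083, 16), (752619, 16),
  (762909, 5), (402759, 17), (793725, 29), (761733, 22), (460383, 40), (747327, 22), (345135, 40), (401583, 23),
  (782055, 54), (779661, 54), (761733, 48), (398277, 62), (785493, 31), (761733, 55), (762909, 73), (747327, 55),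
  (748503, 73), (401583, 56), (570165, 59), (569871, 59), (402735, 62), (402375, 17), (670245, 32), (440307, 75),
  (762909, 76), (323001, 75), (748503, 76), (401559, 66), (791457, 68), (774993, 65), (556845, 70), (761325, 65),
  (762525, 75), (584571, 74), (791409, 68), (774945, 65), (556797, 70), (746919, 65), (748119, 75), (584277, 74),
  (799605, 31), (761349, 55), (762525, 73), (746943, 55), (748119, 73), (401199, 56), (774909, 29), (761349, 22),
  (459999, 40), (746943, 22), (344751, 40), (401199, 23), (569109, 32), (762525, 76), (421149, 75), (748119, 76),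
  (303843, 75), (401175, 66), (799899, 44), (699057, 45), (583515, 45), (762909, 78), (762909, 80), (762909, 79),
  (748503, 78), (762525, 80), (762525, 79), (748503, 80), (748119, 80), (762909, 77), (748503, 79), (748119, 79),
  (748503, 77)]

theorem rchk3 : chk (ty 3) L105 row3 = true := by decide +kernel

def row4 : List (ℕ × ℕ) := [(800667, 7), (798609, 21), (782145, 25), (671013, 26), (796257, 22), (785967, 27), (670719, 28), (763035, 38),
  (645729, 40), (584577, 41), (800625, 49), (798567, 52), (782103, 58), (664797, 59), (735945, 58), (777387, 52),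
  (559239, 59), (760641, 49), (384027, 59), (179979, 59), (800373, 50), (796173, 55), (785967, 60), (670719, 61),
  (793803, 64), (733371, 21), (660033, 67), (730839, 68), (699531, 75), (584283, 76), (768789, 21), (795837, 38),
  (761733, 22), (443919, 40), (735861, 25), (760557, 7), (386001, 26), (730863, 27), (227535, 41), (385119, 28),
  (782055, 64), (785961, 68), (761691, 55), (457149, 75), (777261, 21), (759675, 50), (381519, 67), (730863, 60),
  (226653, 76), (385119, 61), (671007, 67), (670713, 69), (644931, 73), (527625, 76), (569403, 26), (385977, 67),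
  (183885, 26), (207753, 76), (800667, 81), (385095, 69), (791457, 60), (774993, 55), (569109, 61), (758931, 68),
  (698763, 76), (583515, 75), (799599, 68), (773649, 38), (569103, 69), (800367, 78), (699525, 79), (583509, 79),
  (799605, 27), (758949, 27), (785493, 81), (800667, 82), (800667, 83), (760557, 83), (774909, 22), (756933, 60),
  (420807, 76), (800667, 84), (800667, 85), (731313, 85), (569109, 28), (456423, 76), (457599, 41), (670713, 85),
  (785493, 83), (457125, 79), (724341, 38), (699057, 41), (489729, 40), (724005, 55), (225927, 75), (182709, 61),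
  (723963, 22), (187119, 40), (182709, 28), (606615, 76), (489309, 73), (182691, 69), (760557, 85), (731313, 83),
  (225909, 79)]

theorem rchk4 : chk (ty 4) L105 row4 = true := by decide +kernel

def row5 : List (ℕ × ℕ) := [(800667, 8), (798609, 23), (782145, 28), (664839, 28), (796257, 23), (779793, 28), (662487, 28), (763035, 39),
  (645729, 39), (396555, 30), (800667, 51), (798567, 56), (782103, 61), (664797, 61), (793851, 66), (777387, 69),
  (660081, 69), (376863, 70), (376569, 70), (380091, 32), (800373, 51), (796173, 56), (779709, 61), (662403, 61),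
  (793803, 66), (777339, 69), (660033, 69), (261615, 70), (261321, 70), (262785, 32), (466557, 39), (349251, 39),
  (401583, 23), (399231, 23), (793725, 30), (385119, 28), (382767, 28), (267813, 28), (265461, 28), (391293, 8),
  (786255, 70), (785961, 70), (401541, 56), (396807, 66), (777261, 32), (385077, 61), (380343, 69), (267771, 61),
  (263037, 69), (391293, 51), (671007, 70), (670713, 70), (399147, 56), (396759, 66), (659955, 32), (382683, 61),
  (380295, 69), (265377, 61), (262989, 69), (390999, 51), (791457, 71), (573309, 72), (556845, 72), (800661, 80),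
  (699819, 80), (420957, 45), (791409, 71), (573261, 72), (556797, 72), (800367, 80), (699525, 80), (303651, 45),
  (799605, 33), (758157, 83), (640851, 83), (741399, 83), (624093, 83), (389205, 33), (785199, 34), (714891, 85),
  (421167, 79), (712491, 85), (303861, 79), (387183, 71), (669951, 34), (597585, 85), (421119, 79), (595185, 85),
  (303813, 79), (387231, 71), (724635, 45), (607329, 45), (489729, 43), (724593, 79), (607287, 79), (374799, 34),
  (724545, 79), (489645, 77), (169035, 72), (607239, 79), (489309, 77), (169083, 72), (259551, 34), (152571, 72),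
  (152619, 72)]

theorem rchk5 : chk (ty 5) L105 row5 = true := by decide +kernel

variable {F : Type*} [Field F]

theorem rp_zero (h2 : (2 : F) ≠ 0) (k : ℕ) : Z F (rp k) := by
  unfold rp
  rw [List.getD_eq_getElem?_getD]
  rcases h : reps[k]? with _ | t
  · exact Z_star 0 1 2 3 2 3 _
  · exact reps_zero h2 t (List.mem_of_getElem? h)

theorem chk_sound (h2 : (2 : F) ≠ 0) (y : Q) : ∀ (zs : List Q) (es : List (ℕ × ℕ)), chk y zs es = true →
    ∀ z ∈ zs, Z F ((0, 1, 2, 3), y, z)
  | [], _, _, _, hz => absurd hz List.not_mem_nil
  | _ :: _, [], h, _, _ => absurd h (by simp [chk])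
  | z :: zs, e :: es, h, w, hw => by
    unfold chk at h
    rw [Bool.and_eq_true] at h
    rcases List.mem_cons.1 hw with rfl | hw
    · exact Z_of _ _ (rp_zero h2 e.2) h.1
    · exact chk_sound h2 y zs es h.2 w hw

theorem row_zero (h2 : (2 : F) ≠ 0) (r : ℕ) (hr : r < 6) {z : Q} (hz : z ∈ L105) : Z F ((0, 1, 2, 3), ty r, z) := by
  rcases (by omega : r = 0 ∨ r = 1 ∨ r = 2 ∨ r = 3 ∨ r = 4 ∨ r = 5) with rfl | rfl | rfl | rfl | rfl | rfl
  · exact chk_sound h2 _ _ _ rchk0 z hz
  · exact chk_sound h2 _ _ _ rchk1 z hz
  · exact chk_sound h2 _ _ _ rchk2 z hz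
  · exact chk_sound h2 _ _ _ rchk3 z hz
  · exact chk_sound h2 _ _ _ rchk4 z hz
  · exact chk_sound h2 _ _ _ rchk5 z hz

theorem dis_act {s : Fin 7 → Fin 7} (hs : Function.Injective s) {z : Q} (hz : dis z = true) : dis (act s z) = true := by
  obtain ⟨i, j, k, l⟩ := z
  obtain ⟨g1, g2, g3, g4, g5, g6⟩ := dis_iff.1 hz
  exact dis_iff.2 ⟨hs.ne g1, hs.ne g2, hs.ne g3, hs.ne g4, hs.ne g5, hs.ne g6⟩

/-- canonical form of the second and third index -/
theorem Z_cq {x y z : Q} (h : Z F (x, cq y, cq z)) : Z F (x, y, z) := by
  intro d hd
  have := h d hd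
  dsimp only at this ⊢
  rwa [hd.cq1, hd.s23, hd.cq1, hd.s23] at this

theorem Z_cq1 {x y z : Q} (h : Z F (cq x, y, z)) : Z F (x, y, z) := by
  intro d hd
  have := h d hd
  dsimp only at this ⊢
  rwa [hd.s12, hd.s23, hd.cq1, hd.s23, hd.s12] at this

theorem Z_perm (s : Equiv.Perm (Fin 7)) {x y z : Q} (h : Z F (x, act s.symm y, act s.symm z)) :
    Z F (act s x, y, z) := by
  have := Z_rel h s.injective
  have e : ∀ w, act s (act s.symm w) = w := fun w => by simp only [act, Equiv.apply_symm_apply]
  unfold actT at this
  dsimp only at this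
  rwa [e, e] at this

theorem y_zero (h2 : (2 : F) ≠ 0) : ∀ (ys : List Q) (es : List (ℕ × ℕ)), chk1 ys es = true → ∀ y ∈ ys, ∀ z,
    dis z = true → Z F ((0, 1, 2, 3), y, z)
  | [], _, _, _, hz => absurd hz List.not_mem_nil
  | _ :: _, [], h, _, _ => absurd h (by simp [chk1])
  | y :: ys, e :: es, h, w, hw => by
    intro z hz
    unfold chk1 at h
    rw [Bool.and_eq_true] at h
    rcases List.mem_cons.1 hw with rfl | hw
    · have h1 := h.1
      obtain ⟨i, j, k, l⟩ := w
      simp only [Bool.or_eq_true, Bool.and_eq_true, eb_iff, qb_iff] at h1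
      rcases h1 with ((h1 | h1) | h1) | h1
      · rw [h1.1, h1.2]; exact Z_star _ _ _ _ _ _ _
      · rw [h1.1, h1.2]
        intro d hd
        change d (0, 1, 2, 3) (2, 3, k, l) z = 0
        rw [hd.s12, hd.s23, hd.a2, hd.s23, hd.star]
      · rw [h1.1, h1.2]
        intro d hd
        change d (0, 1, 2, 3) (i, j, 2, 3) z = 0
        rw [hd.s12, hd.s23, hd.a2, hd.s23, hd.s12, hd.s23, hd.a2, hd.s23, hd.star]
      · obtain ⟨⟨⟨h3, h4⟩, h5⟩, h6⟩ := h1
        have h4' := inj_iff h4
        let s : Equiv.Perm (Fin 7) := Equiv.ofBijective _ (Finite.injective_iff_bijective.1 h4')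
        have hs : ∀ q, act s q = act (dec e.1) q := fun q => rfl
        have hr : e.2 < 6 := by rwa [Nat.blt_eq] at h3
        have k1 : Z F ((0, 1, 2, 3), ty e.2, act s.symm z) := by
          have := row_zero (F := F) h2 e.2 hr (cq_mem (dis_act s.symm.injective hz))
          intro d hd
          have := this d hd
          dsimp only at this ⊢
          rwa [hd.cq1] at this
        have k2 := Z_rel k1 s.injective
        have e' : ∀ w, act s (act s.symm w) = w := fun w => by simp only [act, Equiv.apply_symm_apply]
        unfold actT at k2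
        dsimp only at k2
        rw [e', hs, hs] at k2
        rw [← h5, ← h6]
        intro d hd
        have := k2 d hd
        dsimp only at this ⊢
        rwa [hd.s23, hd.cq1, hd.s23, hd.s12, hd.s23, hd.cq1, hd.s23, hd.s12]
    · exact y_zero h2 ys es h.2 w hw z hz

/-- **Uniqueness**: all good functions are zero. -/
theorem Good.eq_zero {d : Q → Q → Q → F} (h : Good d) (h2 : (2 : F) ≠ 0) (x y z : Q) : d x y z = 0 := by
  have hv : ∀ x y g, d x y (vv g) = 0 := fun x y g => by rw [h.c13, h.vzero h2]
  rcases Bool.eq_false_or_eq_true (dis z) with hz | hz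
  swap
  · exact h.ovl _ _ (hv _ _) hz
  rcases Bool.eq_false_or_eq_true (dis y) with hy | hy
  swap
  · rw [h.s23]; exact h.ovl _ _ (hv _ _) hy
  rcases Bool.eq_false_or_eq_true (dis x) with hx | hx
  swap
  · rw [h.c13]; exact h.ovl _ _ (hv _ _) hx
  obtain ⟨s, hs⟩ := ext4 hx
  have k : Z F (act s (0, 1, 2, 3), y, z) := by
    refine Z_perm s ?_
    have k1 := y_zero (F := F) h2 L105 ytab ychk (cq (act s.symm y)) (cq_mem (dis_act s.symm.injective hy))
      (act s.symm z) (dis_act s.symm.injective hz)
    intro d hd
    have := k1 d hd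
    dsimp only at this ⊢
    rwa [hd.s23, hd.cq1, hd.s23] at this
  rw [hs] at k
  exact k d h

end Cfsg.Agent.H879.E6.Uniq
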