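import Cfsg.Agent.H952.F4.Jord
import Cfsg.Agent.H879.E6.Uniq

/-!
# S5927, S5928: tuples of white vectors (helper879)

`Tup v c`: seven white vectors `v_i` with sum zero and `T(v_i × v_j, v_k) = c` for distinct `i, j, k`.
For two tuples with `c`, `1` : the trilinear forms of the vectors `u` are proportional.
-/

set_option autoImplicit false

namespace Cfsg.Agent.H879.E6

open Cfsg.Lie Cfsg.Agent.H952.F4 Cfsg.Agent.H952.F4.Jord Cfsg.Agent.H879.E6.Uniq
open Cfsg.Agent.ChevalleyStructure.E6Min.Tables Cfsg.Agent.ChevalleyStructure.E6Min.Basic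

section Ring

variable {R : Type*} [CommRing R]

/-- polarization of `cr_cr` -/
theorem cr_cr4 (x t y z : I27 → R) :
    cr (cr x y) (cr t z) + cr (cr t y) (cr x z) + cr (cr x t) (cr y z) =
      tf (cr x t) y • z + tf (cr x t) z • y + tf x (cr y z) • t + tf t (cr y z) • x := by
  have h := cr_cr (x + t) y z
  have h1 := cr_cr x y z
  have h2 := cr_cr t y z
  simp only [sh_add, cr_add_left, cr_add_right, tf_add_left, add_smul, smul_add] at h
  funext a
  have k := congrFun h a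
  have k1 := congrFun h1 a
  have k2 := congrFun h2 a
  simp only [Pi.add_apply, Pi.smul_apply, smul_eq_mul] at k k1 k2 ⊢
  linear_combination k - k1 - k2

theorem tf_cr_comm (x y z : I27 → R) : tf (cr x y) z = tf (cr x z) y := by
  rw [tf_cr, cr_comm y z, ← tf_cr]

theorem cr_zero_left (x : I27 → R) : cr 0 x = 0 := by
  have := cr_smul_left (0 : R) 0 x
  simpa using this

theorem cr_zero_right (x : I27 → R) : cr x 0 = 0 := by rw [cr_comm, cr_zero_left]

theorem tf_zero_left (x : I27 → R) : tf 0 x = 0 := by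
  have := tf_smul_left (0 : R) 0 x
  simpa using this

theorem tf_zero_right (x : I27 → R) : tf x 0 = 0 := by rw [tf_comm, tf_zero_left]

theorem cr_sum_right {ι : Type*} (s : Finset ι) (x : I27 → R) (f : ι → I27 → R) :
    cr x (∑ i ∈ s, f i) = ∑ i ∈ s, cr x (f i) := by
  classical
  induction s using Finset.induction_on with
  | empty => simp [cr_zero_right]
  | insert a s ha ih => rw [Finset.sum_insert ha, Finset.sum_insert ha, cr_add_right, ih]

theorem tf_sum_right {ι : Type*} (s : Finset ι) (x : I27 → R) (f : ι → I27 → R) :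
    tf x (∑ i ∈ s, f i) = ∑ i ∈ s, tf x (f i) := by
  classical
  induction s using Finset.induction_on with
  | empty => simp [tf_zero_right]
  | insert a s ha ih => rw [Finset.sum_insert ha, Finset.sum_insert ha, tf_add_right, ih]

/-- seven white vectors with sum zero and constant trilinear form -/
structure Tup (v : Fin 7 → I27 → R) (c : R) : Prop where
  white : ∀ i, sh (v i) = 0
  sum : ∑ i, v i = 0
  tri : ∀ i j k, i ≠ j → i ≠ k → j ≠ k → tf (v i) (cr (v j) (v k)) = c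

/-- the vectors `w_ij` -/
def ww (v : Fin 7 → I27 → R) (i j : Fin 7) : I27 → R := cr (v i) (v j)

/-- the vectors `u` -/
def uu (v : Fin 7 → I27 → R) (q : Q) : I27 → R := cr (ww v q.1 q.2.1) (ww v q.2.2.1 q.2.2.2)

/-- the trilinear form of the vectors `u` -/
def t3 (v : Fin 7 → I27 → R) (x y z : Q) : R := tf (cr (uu v x) (uu v y)) (uu v z)

/-- the trilinear form of the vectors `w` -/
def mm (v : Fin 7 → I27 → R) (a b c d e f : Fin 7) : R := tf (ww v a b) (cr (ww v c d) (ww v e f))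

namespace Tup

variable {v : Fin 7 → I27 → R} {c : R}

theorem ww_comm (v : Fin 7 → I27 → R) (i j : Fin 7) : ww v i j = ww v j i := cr_comm _ _

theorem ww_self (h : Tup v c) (i : Fin 7) : ww v i i = 0 := by
  rw [ww, cr_self, h.white, smul_zero]

theorem ww_sum (h : Tup v c) (i : Fin 7) : ∑ j, ww v i j = 0 := by
  unfold ww
  rw [← cr_sum_right, h.sum, cr_zero_right]

theorem sh_ww (h : Tup v c) (i j : Fin 7) : sh (ww v i j) = 0 := by
  have := sh_cr (v i) (v j)
  rw [h.white, h.white, cr_zero_left, tf_zero_left, tf_zero_right, zero_smul, zero_smul, add_zero, add_zero] at this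
  exact this

theorem cr_ww_share (h : Tup v c) (i j k : Fin 7) : cr (ww v i j) (ww v i k) = tf (v i) (cr (v j) (v k)) • v i := by
  have := cr_cr (v i) (v j) (v k)
  rw [h.white, cr_zero_left, tf_zero_left, tf_zero_left, zero_smul, zero_smul, add_zero, zero_add, zero_add] at this
  exact this

theorem tri_zero (h : Tup v c) {i j k : Fin 7} (hh : i = j ∨ i = k ∨ j = k) : tf (v i) (cr (v j) (v k)) = 0 := by
  rcases hh with rfl | rfl | rfl
  · rw [← tf_cr, cr_self, h.white, smul_zero, tf_zero_left]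
  · rw [cr_comm, ← tf_cr, cr_self, h.white, smul_zero, tf_zero_left]
  · rw [cr_self, h.white, smul_zero, tf_zero_right]

/-- star -/
theorem star (h : Tup v c) (i j : Fin 7) (a b x : I27 → R) :
    tf (cr (cr (ww v i j) a) (cr (ww v i j) b)) x = tf (ww v i j) (cr a b) * tf (ww v i j) x := by
  have := cr_cr (ww v i j) a b
  rw [h.sh_ww, cr_zero_left, tf_zero_left, tf_zero_left, zero_smul, zero_smul, add_zero, zero_add, zero_add] at this
  rw [this, tf_smul_left]

theorem mm_share (h : Tup v c) (a b d e f : Fin 7) :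
    mm v a b a d e f = tf (v a) (cr (v b) (v d)) * tf (v a) (cr (v e) (v f)) := by
  unfold mm
  rw [← tf_cr, h.cr_ww_share, tf_smul_left]
  rfl

theorem mm_a1 (v : Fin 7 → I27 → R) (a b c d e f : Fin 7) : mm v a b c d e f = mm v b a c d e f := by
  unfold mm; rw [ww_comm]

theorem mm_a2 (v : Fin 7 → I27 → R) (a b c d e f : Fin 7) : mm v a b c d e f = mm v a b d c e f := by
  unfold mm; rw [ww_comm v c d]

theorem mm_a3 (v : Fin 7 → I27 → R) (a b c d e f : Fin 7) : mm v a b c d e f = mm v a b c d f e := by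
  unfold mm; rw [ww_comm v e f]

theorem mm_s12 (v : Fin 7 → I27 → R) (a b c d e f : Fin 7) : mm v a b c d e f = mm v c d a b e f := by
  unfold mm; rw [← tf_cr, ← tf_cr, cr_comm]

theorem mm_s23 (v : Fin 7 → I27 → R) (a b c d e f : Fin 7) : mm v a b c d e f = mm v a b e f c d := by
  unfold mm; rw [cr_comm]

theorem mm_zero (h : Tup v c) (a b c d e : Fin 7) : mm v a b c d e e = 0 := by
  unfold mm; rw [h.ww_self, cr_zero_right, tf_zero_right]

theorem mm_sum (h : Tup v c) (a b c d e : Fin 7) : ∑ f, mm v a b c d e f = 0 := by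
  unfold mm
  rw [← tf_sum_right, ← cr_sum_right, h.ww_sum, cr_zero_right, tf_zero_right]

end Tup

end Ring

section Two

variable {F : Type*} [Field F] {v v₀ : Fin 7 → I27 → F} {c : F}

theorem tri_eq (h : Tup v c) (h0 : Tup v₀ 1) (i j k : Fin 7) :
    tf (v i) (cr (v j) (v k)) = c * tf (v₀ i) (cr (v₀ j) (v₀ k)) := by
  by_cases hh : i = j ∨ i = k ∨ j = k
  · rw [h.tri_zero hh, h0.tri_zero hh, mul_zero]
  · simp only [not_or] at hh
    rw [h.tri _ _ _ hh.1 hh.2.1 hh.2.2, h0.tri _ _ _ hh.1 hh.2.1 hh.2.2, mul_one]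

theorem mm_eq (h2 : (2 : F) ≠ 0) (h : Tup v c) (h0 : Tup v₀ 1) (a b x y e f : Fin 7) :
    mm v a b x y e f = c ^ 2 * mm v₀ a b x y e f := by
  -- sharing a point, first position
  have k1 : ∀ a b d e f, mm v a b a d e f = c ^ 2 * mm v₀ a b a d e f := by
    intro a b d e f
    rw [h.mm_share, h0.mm_share, tri_eq h h0, tri_eq h h0]
    ring
  have k2 : ∀ a b x y e f, (a = x ∨ a = y ∨ b = x ∨ b = y) → mm v a b x y e f = c ^ 2 * mm v₀ a b x y e f := by
    intro a b x y e f hh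
    rcases hh with rfl | rfl | rfl | rfl
    · exact k1 _ _ _ _ _
    · rw [Tup.mm_a2 v, Tup.mm_a2 v₀]; exact k1 _ _ _ _ _
    · rw [Tup.mm_a1 v, Tup.mm_a1 v₀]; exact k1 _ _ _ _ _
    · rw [Tup.mm_a1 v, Tup.mm_a1 v₀, Tup.mm_a2 v, Tup.mm_a2 v₀]; exact k1 _ _ _ _ _
  have k3 : ∀ a b x y e f, (a = e ∨ a = f ∨ b = e ∨ b = f) → mm v a b x y e f = c ^ 2 * mm v₀ a b x y e f := by
    intro a b x y e f hh
    rw [Tup.mm_s23 v, Tup.mm_s23 v₀]; exact k2 _ _ _ _ _ _ hh
  have k4 : ∀ a b x y e f, (x = e ∨ x = f ∨ y = e ∨ y = f) → mm v a b x y e f = c ^ 2 * mm v₀ a b x y e f := by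
    intro a b x y e f hh
    rw [Tup.mm_s12 v, Tup.mm_s12 v₀]; exact k3 _ _ _ _ _ _ hh
  by_cases c1 : a = x ∨ a = y ∨ b = x ∨ b = y
  · exact k2 _ _ _ _ _ _ c1
  by_cases c2 : a = e ∨ a = f ∨ b = e ∨ b = f
  · exact k3 _ _ _ _ _ _ c2
  by_cases c3 : x = e ∨ x = f ∨ y = e ∨ y = f
  · exact k4 _ _ _ _ _ _ c3
  by_cases c4 : e = f
  · rw [c4, h.mm_zero, h0.mm_zero, mul_zero]
  by_cases c5 : x = y
  · rw [c5, Tup.mm_s23 v, Tup.mm_s23 v₀, h.mm_zero, h0.mm_zero, mul_zero]
  by_cases c6 : a = b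
  · rw [c6, Tup.mm_s12 v, Tup.mm_s12 v₀, Tup.mm_s23 v, Tup.mm_s23 v₀, h.mm_zero, h0.mm_zero, mul_zero]
  simp only [not_or] at c1 c2 c3
  have hy : Function.Injective ![a, b, x, y, e, f] := by
    intro i j hij
    fin_cases i <;> fin_cases j <;> simp_all
  obtain ⟨s, hs⟩ := Equiv.Perm.exists_extending_pair ![0, 1, 2, 3, 4, 5] ![a, b, x, y, e, f] (by decide) hy
  have s0 : s 0 = a := hs 0
  have s1 : s 1 = b := hs 1
  have s2 : s 2 = x := hs 2
  have s3 : s 3 = y := hs 3
  have s4 : s 4 = e := hs 4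
  have s5 : s 5 = f := hs 5
  rw [← s0, ← s1, ← s2, ← s3, ← s4, ← s5]
  -- the difference
  let D : Fin 7 → Fin 7 → F := fun p q => mm v (s 0) (s 1) (s 2) (s 3) (s p) (s q) -
    c ^ 2 * mm v₀ (s 0) (s 1) (s 2) (s 3) (s p) (s q)
  have D0 : ∀ p, ∑ q, D p q = 0 := by
    intro p
    have e1 := h.mm_sum (s 0) (s 1) (s 2) (s 3) (s p)
    have e2 := h0.mm_sum (s 0) (s 1) (s 2) (s 3) (s p)
    rw [← Equiv.sum_comp s] at e1 e2
    simp only [D]
    rw [Finset.sum_sub_distrib, ← Finset.mul_sum, e1, e2, mul_zero, sub_zero]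
  have D1 : ∀ p q, q = 0 ∨ q = 1 → D p q = 0 := by
    intro p q hq
    simp only [D]
    rw [sub_eq_zero]
    refine k3 _ _ _ _ _ _ ?_
    rcases hq with rfl | rfl
    · exact Or.inr (Or.inl rfl)
    · exact Or.inr (Or.inr (Or.inr rfl))
  have D2 : ∀ p q, q = 2 ∨ q = 3 → D p q = 0 := by
    intro p q hq
    simp only [D]
    rw [sub_eq_zero]
    refine k4 _ _ _ _ _ _ ?_
    rcases hq with rfl | rfl
    · exact Or.inr (Or.inl rfl)
    · exact Or.inr (Or.inr (Or.inr rfl))
  have D3 : ∀ p, D p p = 0 := by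
    intro p
    simp only [D]
    rw [h.mm_zero, h0.mm_zero, mul_zero, sub_zero]
  have D4 : ∀ p q, D p q = D q p := by
    intro p q
    simp only [D]
    rw [Tup.mm_a3 v, Tup.mm_a3 v₀]
  have f4 := D0 4
  have f5 := D0 5
  have f6 := D0 6
  rw [Fin.sum_univ_seven, D1 _ 0 (by decide), D1 _ 1 (by decide), D2 _ 2 (by decide), D2 _ 3 (by decide)] at f4 f5 f6
  rw [D3] at f4 f5 f6
  have key : 2 * D 4 5 = 0 := by
    rw [D4 5 4] at f5
    rw [D4 6 4, D4 6 5] at f6
    linear_combination f4 + f5 - f6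
  have := (mul_eq_zero.1 key).resolve_left h2
  simp only [D] at this
  rw [sub_eq_zero] at this
  exact this

theorem good (h2 : (2 : F) ≠ 0) (h : Tup v c) (h0 : Tup v₀ 1) :
    Good (fun x y z => t3 v x y z - c ^ 4 * t3 v₀ x y z) := by
  have s12 : ∀ (v : Fin 7 → I27 → F) x y z, t3 v x y z = t3 v y x z := by
    intro v x y z; unfold t3; rw [cr_comm]
  have s23 : ∀ (v : Fin 7 → I27 → F) x y z, t3 v x y z = t3 v x z y := by
    intro v x y z; unfold t3; rw [tf_cr_comm]
  have key : ∀ {v : Fin 7 → I27 → F} (q q' : Q), uu v q = uu v q' → ∀ x y, t3 v x y q = t3 v x y q' := by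
    intro v q q' e x y; unfold t3; rw [e]
  have a1 : ∀ (v : Fin 7 → I27 → F) i j k l, uu v (i, j, k, l) = uu v (j, i, k, l) := by
    intro v i j k l
    change cr (ww v i j) (ww v k l) = cr (ww v j i) (ww v k l)
    rw [Tup.ww_comm v i j]
  have a2 : ∀ (v : Fin 7 → I27 → F) i j k l, uu v (i, j, k, l) = uu v (k, l, i, j) := by
    intro v i j k l
    change cr (ww v i j) (ww v k l) = cr (ww v k l) (ww v i j)
    rw [cr_comm]
  have sh1 : ∀ {v : Fin 7 → I27 → F} {c : F}, Tup v c → ∀ i j k, i ≠ j → i ≠ k → j ≠ k →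
      uu v (i, j, i, k) = c • v i := by
    intro v c h i j k g1 g2 g3
    change cr (ww v i j) (ww v i k) = c • v i
    rw [h.cr_ww_share, h.tri _ _ _ g1 g2 g3]
  have adj : ∀ {v : Fin 7 → I27 → F} {c : F}, Tup v c → ∀ i j k m n, i ≠ j → i ≠ k → j ≠ k → i ≠ m → i ≠ n →
      m ≠ n → uu v (i, j, i, k) = uu v (i, m, i, n) := by
    intro v c h i j k m n g1 g2 g3 g4 g5 g6
    rw [sh1 h _ _ _ g1 g2 g3, sh1 h _ _ _ g4 g5 g6]
  have z1 : ∀ {v : Fin 7 → I27 → F} {c : F}, Tup v c → ∀ i k l, uu v (i, i, k, l) = 0 := by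
    intro v c h i k l
    change cr (ww v i i) (ww v k l) = 0
    rw [h.ww_self, cr_zero_left]
  have z2 : ∀ {v : Fin 7 → I27 → F} {c : F}, Tup v c → ∀ i j, uu v (i, j, i, j) = 0 := by
    intro v c h i j
    change cr (ww v i j) (ww v i j) = 0
    rw [cr_self, h.sh_ww, smul_zero]
  have sm : ∀ {v : Fin 7 → I27 → F} {c : F}, Tup v c → ∀ i j k, ∑ l, uu v (i, j, k, l) = 0 := by
    intro v c h i j k
    change ∑ l, cr (ww v i j) (ww v k l) = 0
    rw [← cr_sum_right, h.ww_sum, cr_zero_right]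
  have th : ∀ {v : Fin 7 → I27 → F} {c : F}, Tup v c → ∀ i j k l, i ≠ j → i ≠ k → i ≠ l → j ≠ k → j ≠ l → k ≠ l →
      uu v (i, j, k, l) + uu v (i, k, j, l) + uu v (i, l, j, k) =
        uu v (vv i) + uu v (vv j) + uu v (vv k) + uu v (vv l) := by
    intro v c h i j k l g1 g2 g3 g4 g5 g6
    have e := cr_cr4 (v i) (v j) (v k) (v l)
    have e1 : ∀ i, uu v (vv i) = c • v i := fun i => sh1 h _ _ _ (Good.n1 i) (Good.n2 i) (Good.n3 i)
    rw [e1, e1, e1, e1]
    have f1 : tf (cr (v i) (v j)) (v k) = c := by rw [tf_cr, h.tri _ _ _ g1 g2 g4]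
    have f2 : tf (cr (v i) (v j)) (v l) = c := by rw [tf_cr, h.tri _ _ _ g1 g3 g5]
    rw [f1, f2, h.tri _ _ _ g2 g3 g6, h.tri _ _ _ g4 g5 g6] at e
    change cr (cr (v i) (v j)) (cr (v k) (v l)) + cr (cr (v i) (v k)) (cr (v j) (v l)) +
      cr (cr (v i) (v l)) (cr (v j) (v k)) = _
    rw [cr_comm (cr (v i) (v l))]
    calc _ = cr (cr (v i) (v k)) (cr (v j) (v l)) + cr (cr (v j) (v k)) (cr (v i) (v l)) +
          cr (cr (v i) (v j)) (cr (v k) (v l)) := by abel
      _ = _ := e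
      _ = _ := by abel
  constructor
  · intro x y z; rw [s12 v, s12 v₀]
  · intro x y z; rw [s23 v, s23 v₀]
  · intro x y i j k l; rw [key _ _ (a1 v i j k l), key _ _ (a1 v₀ i j k l)]
  · intro x y i j k l; rw [key _ _ (a2 v i j k l), key _ _ (a2 v₀ i j k l)]
  · intro x y i k l
    simp only [t3]
    rw [z1 h, z1 h0, tf_zero_right, tf_zero_right, mul_zero, sub_zero]
  · intro x y i j
    simp only [t3]
    rw [z2 h, z2 h0, tf_zero_right, tf_zero_right, mul_zero, sub_zero]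
  · intro x y i j k
    rw [Finset.sum_sub_distrib, ← Finset.mul_sum]
    simp only [t3]
    rw [← tf_sum_right, ← tf_sum_right, sm h, sm h0, tf_zero_right, tf_zero_right, mul_zero, sub_zero]
  · intro x y i j k m n g1 g2 g3 g4 g5 g6
    rw [key _ _ (adj h i j k m n g1 g2 g3 g4 g5 g6), key _ _ (adj h0 i j k m n g1 g2 g3 g4 g5 g6)]
  · intro x y i j k l g1 g2 g3 g4 g5 g6
    have e1 := congrArg (tf (cr (uu v x) (uu v y))) (th h i j k l g1 g2 g3 g4 g5 g6)
    have e2 := congrArg (tf (cr (uu v₀ x) (uu v₀ y))) (th h0 i j k l g1 g2 g3 g4 g5 g6)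
    simp only [tf_add_right] at e1 e2
    simp only [t3]
    linear_combination e1 - c ^ 4 * e2
  · intro i j k l m n z
    simp only [t3]
    have e : ∀ {v : Fin 7 → I27 → F} {c : F}, Tup v c →
        tf (cr (uu v (i, j, k, l)) (uu v (i, j, m, n))) (uu v z) =
          mm v i j k l m n * mm v i j z.1 z.2.1 z.2.2.1 z.2.2.2 := fun h => h.star i j _ _ _
    rw [e h, e h0, mm_eq h2 h h0, mm_eq h2 h h0]
    ring

/-- the trilinear forms of two tuples are proportional -/
theorem t3_eq (h2 : (2 : F) ≠ 0) (h : Tup v c) (h0 : Tup v₀ 1) (x y z : Q) : t3 v x y z = c ^ 4 * t3 v₀ x y z := by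
  have := (good h2 h h0).eq_zero h2 x y z
  exact sub_eq_zero.1 this

end Two

end Cfsg.Agent.H879.E6
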