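import Mathlib

/-!
# S5927, S5928: uniqueness of the cubic form of (A7, p = 5), first part (helper879)

`Good d`: a symmetric function on triples of indices `(i, j, k, l)` (the index of the vector
`u = (v_i × v_j) × (v_k × v_l)`) with the relations of the vectors `u`, and zero if two of the indices share a pair.
First step: it is zero if one of the arguments is one of the vectors `v`.
-/

set_option autoImplicit false

namespace Cfsg.Agent.H879.E6.Uniq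

abbrev Q := Fin 7 × Fin 7 × Fin 7 × Fin 7

/-- relabelling -/
def act (s : Fin 7 → Fin 7) (q : Q) : Q := (s q.1, s q.2.1, s q.2.2.1, s q.2.2.2)

/-- an index of the vector `v_i` -/
def vv (i : Fin 7) : Q := (i, i + 1, i, i + 2)

variable {F : Type*} [Field F]

structure Good (d : Q → Q → Q → F) : Prop where
  s12 : ∀ x y z, d x y z = d y x z
  s23 : ∀ x y z, d x y z = d x z y
  a1 : ∀ x y i j k l, d x y (i, j, k, l) = d x y (j, i, k, l)
  a2 : ∀ x y i j k l, d x y (i, j, k, l) = d x y (k, l, i, j)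
  z1 : ∀ x y i k l, d x y (i, i, k, l) = 0
  z2 : ∀ x y i j, d x y (i, j, i, j) = 0
  sum : ∀ x y i j k, ∑ l, d x y (i, j, k, l) = 0
  adj : ∀ x y i j k m n, i ≠ j → i ≠ k → j ≠ k → i ≠ m → i ≠ n → m ≠ n →
    d x y (i, j, i, k) = d x y (i, m, i, n)
  three : ∀ x y i j k l, i ≠ j → i ≠ k → i ≠ l → j ≠ k → j ≠ l → k ≠ l →
    d x y (i, j, k, l) + d x y (i, k, j, l) + d x y (i, l, j, k) =
      d x y (vv i) + d x y (vv j) + d x y (vv k) + d x y (vv l)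
  star : ∀ i j k l m n z, d (i, j, k, l) (i, j, m, n) z = 0

namespace Good

variable {d : Q → Q → Q → F}

/-- relabelling -/
def rl (d : Q → Q → Q → F) (s : Fin 7 → Fin 7) : Q → Q → Q → F := fun x y z => d (act s x) (act s y) (act s z)

theorem n1 : ∀ i : Fin 7, i ≠ i + 1 := by decide

theorem n2 : ∀ i : Fin 7, i ≠ i + 2 := by decide

theorem n3 : ∀ i : Fin 7, i + 1 ≠ i + 2 := by decide

theorem rel (h : Good d) {s : Fin 7 → Fin 7} (hs : Function.Injective s) : Good (rl d s) := by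
  have hv : ∀ x y i, d x y (act s (vv i)) = d x y (vv (s i)) := by
    intro x y i
    exact h.adj x y _ _ _ _ _ (hs.ne (n1 i)) (hs.ne (n2 i)) (hs.ne (n3 i)) (n1 _) (n2 _) (n3 _)
  have hb : Function.Bijective s := Finite.injective_iff_bijective.1 hs
  constructor
  · intro x y z; exact h.s12 _ _ _
  · intro x y z; exact h.s23 _ _ _
  · intro x y i j k l; exact h.a1 _ _ _ _ _ _
  · intro x y i j k l; exact h.a2 _ _ _ _ _ _
  · intro x y i k l; exact h.z1 _ _ _ _ _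
  · intro x y i j; exact h.z2 _ _ _ _
  · intro x y i j k
    have := h.sum (act s x) (act s y) (s i) (s j) (s k)
    rw [← hb.sum_comp] at this
    exact this
  · intro x y i j k m n h1 h2 h3 h4 h5 h6
    exact h.adj _ _ _ _ _ _ _ (hs.ne h1) (hs.ne h2) (hs.ne h3) (hs.ne h4) (hs.ne h5) (hs.ne h6)
  · intro x y i j k l h1 h2 h3 h4 h5 h6
    have := h.three (act s x) (act s y) (s i) (s j) (s k) (s l) (hs.ne h1) (hs.ne h2) (hs.ne h3) (hs.ne h4)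
      (hs.ne h5) (hs.ne h6)
    rw [← hv, ← hv, ← hv, ← hv] at this
    exact this
  · intro i j k l m n z; exact h.star _ _ _ _ _ _ _

theorem b1 (h : Good d) (x y : Q) (i j k l : Fin 7) : d x y (i, j, k, l) = d x y (i, j, l, k) := by
  rw [h.a2, h.a1, h.a2]

theorem c12 (h : Good d) (x y z : Q) : d x y z = d y x z := h.s12 x y z

theorem c13 (h : Good d) (x y z : Q) : d x y z = d z y x := by
  rw [h.s12, h.s23, h.s12]

/-- the value at `v_i` does not depend on the index -/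
theorem vadj (h : Good d) (x y : Q) {i m n : Fin 7} (h1 : i ≠ m) (h2 : i ≠ n) (h3 : m ≠ n) :
    d x y (vv i) = d x y (i, m, i, n) := by
  exact h.adj x y _ _ _ _ _ (n1 i) (n2 i) (n3 i) h1 h2 h3

/-- star, with the two indices in other position -/
theorem star2 (h : Good d) (x : Q) (i j k l m n : Fin 7) : d x (i, j, k, l) (i, j, m, n) = 0 := by
  rw [h.s12, h.s23]; exact h.star _ _ _ _ _ _ _

/-- `D(v_g, y, u) = 0` if `u` contains `g` -/
theorem v_cont (h : Good d) (y : Q) (g m k l : Fin 7) (hm : g ≠ m) : d (vv g) y (g, m, k, l) = 0 := by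
  obtain ⟨n, hn1, hn2⟩ : ∃ n : Fin 7, g ≠ n ∧ m ≠ n := by revert g m; decide
  rw [h.c13, h.vadj _ _ hm hn1 hn2, h.c12, h.star2]

/-- `D(v_g, y, v_i) = 0` -/
theorem v_v (h : Good d) (y : Q) (g i : Fin 7) : d (vv g) y (vv i) = 0 := by
  by_cases hg : g = i
  · subst hg
    exact h.v_cont _ _ _ _ _ (n1 _)
  · obtain ⟨n, hn1, hn2⟩ : ∃ n : Fin 7, i ≠ n ∧ g ≠ n := by revert g i; decide
    rw [h.vadj _ _ (Ne.symm hg) hn1 hn2, h.a1, h.v_cont _ _ _ _ _ hg]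

theorem v_v' (h : Good d) (y : Q) (g : Fin 7) {i j k : Fin 7} (h1 : i ≠ j) (h2 : i ≠ k) (h3 : j ≠ k) :
    d (vv g) y (i, j, i, k) = 0 := by
  rw [← h.vadj _ _ h1 h2 h3, h.v_v]

/-- the sum rule with `v_g` -/
theorem sum3 (h : Good d) {s : Fin 7 → Fin 7} (hs : Function.Injective s) (y : Q) :
    d (vv (s 6)) y (s 0, s 1, s 2, s 3) + d (vv (s 6)) y (s 0, s 1, s 2, s 4) +
      d (vv (s 6)) y (s 0, s 1, s 2, s 5) = 0 := by
  have hb : Function.Bijective s := Finite.injective_iff_bijective.1 hs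
  have := h.sum (vv (s 6)) y (s 0) (s 1) (s 2)
  rw [← hb.sum_comp, Fin.sum_univ_seven] at this
  have e0 : d (vv (s 6)) y (s 0, s 1, s 2, s 0) = 0 := by
    rw [h.b1, h.v_v' _ _ (hs.ne (by decide)) (hs.ne (by decide)) (hs.ne (by decide))]
  have e1 : d (vv (s 6)) y (s 0, s 1, s 2, s 1) = 0 := by
    rw [h.b1, h.a1, h.v_v' _ _ (hs.ne (by decide)) (hs.ne (by decide)) (hs.ne (by decide))]
  have e2 : d (vv (s 6)) y (s 0, s 1, s 2, s 2) = 0 := by rw [h.a2, h.z1]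
  have e6 : d (vv (s 6)) y (s 0, s 1, s 2, s 6) = 0 := by
    rw [h.a2, h.a1, h.v_cont _ _ _ _ _ (hs.ne (by decide))]
  rw [e0, e1, e2, e6] at this
  linear_combination this

theorem opp (h : Good d) (h2 : (2 : F) ≠ 0) {s : Fin 7 → Fin 7} (hs : Function.Injective s) (y : Q) :
    d (vv (s 6)) y (s 0, s 1, s 2, s 3) = d (vv (s 6)) y (s 0, s 1, s 4, s 5) := by
  have r2 := h.sum3 hs y
  have r3 := h.sum3 (s := s ∘ ![0, 1, 3, 2, 4, 5, 6]) (hs.comp (by decide)) y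
  have r4 := h.sum3 (s := s ∘ ![0, 1, 4, 2, 3, 5, 6]) (hs.comp (by decide)) y
  have r5 := h.sum3 (s := s ∘ ![0, 1, 5, 2, 3, 4, 6]) (hs.comp (by decide)) y
  simp only [Function.comp_apply] at r3 r4 r5
  change d (vv (s 6)) y (s 0, s 1, s 3, s 2) + d (vv (s 6)) y (s 0, s 1, s 3, s 4) +
    d (vv (s 6)) y (s 0, s 1, s 3, s 5) = 0 at r3
  change d (vv (s 6)) y (s 0, s 1, s 4, s 2) + d (vv (s 6)) y (s 0, s 1, s 4, s 3) +
    d (vv (s 6)) y (s 0, s 1, s 4, s 5) = 0 at r4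
  change d (vv (s 6)) y (s 0, s 1, s 5, s 2) + d (vv (s 6)) y (s 0, s 1, s 5, s 3) +
    d (vv (s 6)) y (s 0, s 1, s 5, s 4) = 0 at r5
  rw [h.b1 _ _ _ _ (s 3) (s 2)] at r3
  rw [h.b1 _ _ _ _ (s 4) (s 2), h.b1 _ _ _ _ (s 4) (s 3)] at r4
  rw [h.b1 _ _ _ _ (s 5) (s 2), h.b1 _ _ _ _ (s 5) (s 3), h.b1 _ _ _ _ (s 5) (s 4)] at r5
  refine mul_left_cancel₀ h2 ?_
  linear_combination r2 + r3 - r4 - r5

/-- the odd cycle -/
theorem Hneg (h : Good d) (h2 : (2 : F) ≠ 0) {s : Fin 7 → Fin 7} (hs : Function.Injective s) :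
    d (vv (s 6)) (s 1, s 3, s 2, s 4) (s 3, s 2, s 4, s 5) =
      - d (vv (s 6)) (s 0, s 1, s 2, s 3) (s 1, s 2, s 3, s 4) := by
  set y : Q := (s 0, s 1, s 2, s 3) with hy
  have e1 : d (vv (s 6)) y (s 5, s 0, s 1, s 2) + d (vv (s 6)) y (s 5, s 0, s 1, s 3) +
      d (vv (s 6)) y (s 5, s 0, s 1, s 4) = 0 :=
    h.sum3 (s := s ∘ ![5, 0, 1, 2, 3, 4, 6]) (hs.comp (by decide)) y
  have e2 : d (vv (s 6)) y (s 1, s 2, s 5, s 0) = d (vv (s 6)) y (s 1, s 2, s 3, s 4) :=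
    h.opp h2 (s := s ∘ ![1, 2, 5, 0, 3, 4, 6]) (hs.comp (by decide)) y
  have e3 : d (vv (s 6)) y (s 1, s 3, s 5, s 0) = d (vv (s 6)) y (s 1, s 3, s 2, s 4) :=
    h.opp h2 (s := s ∘ ![1, 3, 5, 0, 2, 4, 6]) (hs.comp (by decide)) y
  have e4 : d (vv (s 6)) y (s 1, s 4, s 5, s 0) = d (vv (s 6)) y (s 1, s 4, s 2, s 3) :=
    h.opp h2 (s := s ∘ ![1, 4, 5, 0, 2, 3, 6]) (hs.comp (by decide)) y
  have e5 : d (vv (s 6)) y (s 1, s 4, s 2, s 3) = 0 := by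
    rw [h.s23, h.a2, h.s23, h.a2, h.star2]
  have e6 : ∀ z, d (vv (s 6)) z (s 3, s 2, s 4, s 5) = d (vv (s 6)) z (s 3, s 2, s 0, s 1) := fun z =>
    h.opp h2 (s := s ∘ ![3, 2, 4, 5, 0, 1, 6]) (hs.comp (by decide)) z
  have t1 : d (vv (s 6)) y (s 5, s 0, s 1, s 2) = d (vv (s 6)) y (s 1, s 2, s 5, s 0) := h.a2 _ _ _ _ _ _
  have t2 : d (vv (s 6)) y (s 5, s 0, s 1, s 3) = d (vv (s 6)) y (s 1, s 3, s 5, s 0) := h.a2 _ _ _ _ _ _
  have t3 : d (vv (s 6)) y (s 5, s 0, s 1, s 4) = d (vv (s 6)) y (s 1, s 4, s 5, s 0) := h.a2 _ _ _ _ _ _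
  have t4 : d (vv (s 6)) (s 1, s 3, s 2, s 4) (s 3, s 2, s 0, s 1) = d (vv (s 6)) (s 1, s 3, s 2, s 4) y := by
    rw [h.a2, h.b1]
  rw [e6, t4, h.s23, ← e3, ← t2, ← e2, ← t1]
  rw [t3, e4, e5] at e1
  linear_combination e1

/-- the value of the hexagon is zero -/
theorem H0 (h : Good d) (h2 : (2 : F) ≠ 0) {s : Fin 7 → Fin 7} (hs : Function.Injective s) :
    d (vv (s 6)) (s 0, s 1, s 2, s 3) (s 1, s 2, s 3, s 4) = 0 := by
  have k1 : d (vv (s 6)) (s 1, s 3, s 2, s 4) (s 3, s 2, s 4, s 5) =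
      - d (vv (s 6)) (s 0, s 1, s 2, s 3) (s 1, s 2, s 3, s 4) := h.Hneg h2 hs
  have k2 : d (vv (s 6)) (s 3, s 4, s 2, s 5) (s 4, s 2, s 5, s 0) =
      - d (vv (s 6)) (s 1, s 3, s 2, s 4) (s 3, s 2, s 4, s 5) :=
    h.Hneg h2 (s := s ∘ ![1, 3, 2, 4, 5, 0, 6]) (hs.comp (by decide))
  have k3 : d (vv (s 6)) (s 4, s 5, s 2, s 0) (s 5, s 2, s 0, s 1) =
      - d (vv (s 6)) (s 3, s 4, s 2, s 5) (s 4, s 2, s 5, s 0) :=
    h.Hneg h2 (s := s ∘ ![3, 4, 2, 5, 0, 1, 6]) (hs.comp (by decide))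
  have k4 : d (vv (s 6)) (s 5, s 0, s 2, s 1) (s 0, s 2, s 1, s 3) =
      - d (vv (s 6)) (s 4, s 5, s 2, s 0) (s 5, s 2, s 0, s 1) :=
    h.Hneg h2 (s := s ∘ ![4, 5, 2, 0, 1, 3, 6]) (hs.comp (by decide))
  have k5 : d (vv (s 6)) (s 0, s 1, s 2, s 3) (s 1, s 2, s 3, s 4) =
      - d (vv (s 6)) (s 5, s 0, s 2, s 1) (s 0, s 2, s 1, s 3) :=
    h.Hneg h2 (s := s ∘ ![5, 0, 2, 1, 3, 4, 6]) (hs.comp (by decide))
  refine (mul_eq_zero.1 ?_).resolve_left h2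
  linear_combination k1 - k2 + k3 - k4 + k5

end Good

end Cfsg.Agent.H879.E6.Uniq
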