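import Cfsg.Agent.H879.E6.UniqA

/-!
# S5927, S5928: uniqueness of the cubic form of (A7, p = 5), second part (helper879)

Canonical forms of indices; end of the first step.
-/

set_option autoImplicit false

namespace Cfsg.Agent.H879.E6.Uniq

/-- equality of numbers modulo 7 -/
def eb (i j : Fin 7) : Bool := Nat.beq i.val j.val

theorem eb_iff {i j : Fin 7} : eb i j = true ↔ i = j := by
  unfold eb
  rw [Nat.beq_eq, Fin.ext_iff]

/-- equality of indices -/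
def qb (x y : Q) : Bool := eb x.1 y.1 && eb x.2.1 y.2.1 && eb x.2.2.1 y.2.2.1 && eb x.2.2.2 y.2.2.2

theorem qb_iff {x y : Q} : qb x y = true ↔ x = y := by
  obtain ⟨a, b, c, e⟩ := x
  obtain ⟨a', b', c', e'⟩ := y
  simp only [qb, Bool.and_eq_true, eb_iff, Prod.mk.injEq]
  tauto

/-- sort -/
def so (i j : Fin 7) : Fin 7 × Fin 7 := bif Nat.ble i.val j.val then (i, j) else (j, i)

/-- canonical form of an index -/
def cq (q : Q) : Q :=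
  let a := so q.1 q.2.1
  let b := so q.2.2.1 q.2.2.2
  bif Nat.ble (a.1.val * 7 + a.2.val) (b.1.val * 7 + b.2.val) then (a.1, a.2, b.1, b.2) else (b.1, b.2, a.1, a.2)

/-- distinct entries -/
def dis (q : Q) : Bool :=
  !(eb q.1 q.2.1) && !(eb q.1 q.2.2.1) && !(eb q.1 q.2.2.2) && !(eb q.2.1 q.2.2.1) && !(eb q.2.1 q.2.2.2) &&
    !(eb q.2.2.1 q.2.2.2)

/-- all quadruples -/
def allQ (f : Q → Bool) : Bool :=
  (List.finRange 7).all fun i => (List.finRange 7).all fun j => (List.finRange 7).all fun k =>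
    (List.finRange 7).all fun l => f (i, j, k, l)

theorem allQ_iff {f : Q → Bool} (h : allQ f = true) (q : Q) : f q = true := by
  obtain ⟨i, j, k, l⟩ := q
  unfold allQ at h
  have h1 := List.all_eq_true.1 h i (List.mem_finRange i)
  have h2 := List.all_eq_true.1 h1 j (List.mem_finRange j)
  have h3 := List.all_eq_true.1 h2 k (List.mem_finRange k)
  exact List.all_eq_true.1 h3 l (List.mem_finRange l)

/-- the list of the canonical indices with distinct entries -/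
def L105 : List Q := [(0, 1, 2, 3), (0, 1, 2, 4), (0, 1, 2, 5), (0, 1, 2, 6), (0, 1, 3, 4), (0, 1, 3, 5), (0, 1, 3, 6), (0, 1, 4, 5),
  (0, 1, 4, 6), (0, 1, 5, 6), (0, 2, 1, 3), (0, 2, 1, 4), (0, 2, 1, 5), (0, 2, 1, 6), (0, 2, 3, 4), (0, 2, 3, 5),
  (0, 2, 3, 6), (0, 2, 4, 5), (0, 2, 4, 6), (0, 2, 5, 6), (0, 3, 1, 2), (0, 3, 1, 4), (0, 3, 1, 5), (0, 3, 1, 6),
  (0, 3, 2, 4), (0, 3, 2, 5), (0, 3, 2, 6), (0, 3, 4, 5), (0, 3, 4, 6), (0, 3, 5, 6), (0, 4, 1, 2), (0, 4, 1, 3),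
  (0, 4, 1, 5), (0, 4, 1, 6), (0, 4, 2, 3), (0, 4, 2, 5), (0, 4, 2, 6), (0, 4, 3, 5), (0, 4, 3, 6), (0, 4, 5, 6),
  (0, 5, 1, 2), (0, 5, 1, 3), (0, 5, 1, 4), (0, 5, 1, 6), (0, 5, 2, 3), (0, 5, 2, 4), (0, 5, 2, 6), (0, 5, 3, 4),
  (0, 5, 3, 6), (0, 5, 4, 6), (0, 6, 1, 2), (0, 6, 1, 3), (0, 6, 1, 4), (0, 6, 1, 5), (0, 6, 2, 3), (0, 6, 2, 4),
  (0, 6, 2, 5), (0, 6, 3, 4), (0, 6, 3, 5), (0, 6, 4, 5), (1, 2, 3, 4), (1, 2, 3, 5), (1, 2, 3, 6), (1, 2, 4, 5),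
  (1, 2, 4, 6), (1, 2, 5, 6), (1, 3, 2, 4), (1, 3, 2, 5), (1, 3, 2, 6), (1, 3, 4, 5), (1, 3, 4, 6), (1, 3, 5, 6),
  (1, 4, 2, 3), (1, 4, 2, 5), (1, 4, 2, 6), (1, 4, 3, 5), (1, 4, 3, 6), (1, 4, 5, 6), (1, 5, 2, 3), (1, 5, 2, 4),
  (1, 5, 2, 6), (1, 5, 3, 4), (1, 5, 3, 6), (1, 5, 4, 6), (1, 6, 2, 3), (1, 6, 2, 4), (1, 6, 2, 5), (1, 6, 3, 4),
  (1, 6, 3, 5), (1, 6, 4, 5), (2, 3, 4, 5), (2, 3, 4, 6), (2, 3, 5, 6), (2, 4, 3, 5), (2, 4, 3, 6), (2, 4, 5, 6),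
  (2, 5, 3, 4), (2, 5, 3, 6), (2, 5, 4, 6), (2, 6, 3, 4), (2, 6, 3, 5), (2, 6, 4, 5), (3, 4, 5, 6), (3, 5, 4, 6),
  (3, 6, 4, 5)]

theorem cq_mem' : allQ (fun q => !(dis q) || L105.any (qb (cq q))) = true := by decide +kernel

theorem cq_mem {q : Q} (h : dis q = true) : cq q ∈ L105 := by
  have := allQ_iff cq_mem' q
  rw [h, Bool.not_true, Bool.false_or, List.any_eq_true] at this
  obtain ⟨x, hx, e⟩ := this
  rw [qb_iff.1 e]
  exact hx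

variable {F : Type*} [Field F]

namespace Good

variable {d : Q → Q → Q → F}

theorem cqs (h : Good d) (s : Fin 7 → Fin 7) (x y z : Q) : d x y (act s (cq z)) = d x y (act s z) := by
  obtain ⟨i, j, k, l⟩ := z
  have e1 : ∀ a b, d x y (s (so i j).1, s (so i j).2, a, b) = d x y (s i, s j, a, b) := by
    intro a b
    unfold so
    rcases Bool.eq_false_or_eq_true (Nat.ble i.val j.val) with hh | hh
    · rw [hh]; rfl
    · rw [hh]; exact h.a1 _ _ _ _ _ _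
  have e2 : ∀ a b, d x y (a, b, s (so k l).1, s (so k l).2) = d x y (a, b, s k, s l) := by
    intro a b
    rw [h.a2, h.a2 _ _ a b (s k)]
    unfold so
    rcases Bool.eq_false_or_eq_true (Nat.ble k.val l.val) with hh | hh
    · rw [hh]; rfl
    · rw [hh]; exact h.a1 _ _ _ _ _ _
  unfold cq act
  dsimp only
  rcases Bool.eq_false_or_eq_true (Nat.ble ((so i j).1.val * 7 + (so i j).2.val) ((so k l).1.val * 7 + (so k l).2.val))
    with hh | hh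
  · rw [hh]
    dsimp only [cond_true]
    rw [e1, e2]
  · rw [hh]
    dsimp only [cond_false]
    rw [h.a2, e1, e2]

theorem cq1 (h : Good d) (x y z : Q) : d x y (cq z) = d x y z := h.cqs id x y z

theorem cqs2 (h : Good d) (s : Fin 7 → Fin 7) (x y z : Q) : d x (act s (cq y)) z = d x (act s y) z := by
  rw [h.s23, h.cqs, h.s23]

/-- basic zeros -/
def bas : List (Q × Q) :=
  [((0, 1, 2, 3), (0, 1, 2, 3)), ((0, 1, 2, 3), (0, 1, 2, 4)), ((0, 1, 2, 3), (0, 1, 4, 5)),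
   ((0, 1, 2, 3), (0, 2, 1, 3)), ((0, 1, 2, 3), (0, 2, 4, 5)), ((0, 1, 2, 3), (2, 4, 3, 5)),
   ((0, 1, 2, 3), (1, 2, 3, 4)), ((0, 1, 2, 3), (3, 4, 0, 5))]

theorem bas_zero (h : Good d) (h2 : (2 : F) ≠ 0) : ∀ e ∈ bas, ∀ s : Fin 7 → Fin 7, Function.Injective s →
    d (vv (s 6)) (act s e.1) (act s e.2) = 0 := by
  have f1 : ∀ (g a b c e m n : Fin 7), d (vv g) (a, b, c, e) (a, b, m, n) = 0 := fun g a b c e m n => h.star2 _ _ _ _ _ _ _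
  simp only [bas, List.forall_mem_cons, List.not_mem_nil, false_imp_iff, implies_true, and_true]
  refine ⟨?_, ?_, ?_, ?_, ?_, ?_, ?_, ?_⟩ <;> intro s hs <;> change d (vv (s 6)) (s 0, s 1, s 2, s 3) _ = 0
  · exact f1 _ _ _ _ _ _ _
  · exact f1 _ _ _ _ _ _ _
  · exact f1 _ _ _ _ _ _ _
  · change d (vv (s 6)) (s 0, s 1, s 2, s 3) (s 0, s 2, s 1, s 3) = 0
    have e1 : d (vv (s 6)) (s 0, s 1, s 2, s 3) (s 0, s 2, s 1, s 3) =
      d (vv (s 6)) (s 0, s 1, s 2, s 3) (s 0, s 2, s 4, s 5) :=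
      h.opp h2 (s := s ∘ ![0, 2, 1, 3, 4, 5, 6]) (hs.comp (by decide)) _
    rw [e1, h.s23, h.opp h2 hs, h.a2, h.s23, h.a2, f1]
  · change d (vv (s 6)) (s 0, s 1, s 2, s 3) (s 0, s 2, s 4, s 5) = 0
    rw [h.s23, h.opp h2 hs, h.a2, h.s23, h.a2, f1]
  · change d (vv (s 6)) (s 0, s 1, s 2, s 3) (s 2, s 4, s 3, s 5) = 0
    have e1 : d (vv (s 6)) (s 0, s 1, s 2, s 3) (s 2, s 4, s 3, s 5) =
      d (vv (s 6)) (s 0, s 1, s 2, s 3) (s 2, s 4, s 0, s 1) :=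
      h.opp h2 (s := s ∘ ![2, 4, 3, 5, 0, 1, 6]) (hs.comp (by decide)) _
    rw [e1, h.a2, f1]
  · exact h.H0 h2 hs
  · change d (vv (s 6)) (s 0, s 1, s 2, s 3) (s 3, s 4, s 0, s 5) = 0
    have e1 : d (vv (s 6)) (s 0, s 1, s 2, s 3) (s 3, s 4, s 0, s 5) =
      d (vv (s 6)) (s 0, s 1, s 2, s 3) (s 3, s 4, s 1, s 2) :=
      h.opp h2 (s := s ∘ ![3, 4, 0, 5, 1, 2, 6]) (hs.comp (by decide)) _
    rw [e1, h.a2, h.H0 h2 hs]

/-- the stabilizer of `(0 1 | 2 3)` in the symmetric group of degree 6 -/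
def pl : List (Fin 7 → Fin 7) := [![0, 1, 2, 3, 4, 5, 6], ![0, 1, 2, 3, 5, 4, 6], ![0, 1, 3, 2, 4, 5, 6], ![0, 1, 3, 2, 5, 4, 6],
  ![1, 0, 2, 3, 4, 5, 6], ![1, 0, 2, 3, 5, 4, 6], ![1, 0, 3, 2, 4, 5, 6], ![1, 0, 3, 2, 5, 4, 6],
  ![2, 3, 0, 1, 4, 5, 6], ![2, 3, 0, 1, 5, 4, 6], ![2, 3, 1, 0, 4, 5, 6], ![2, 3, 1, 0, 5, 4, 6],
  ![3, 2, 0, 1, 4, 5, 6], ![3, 2, 0, 1, 5, 4, 6], ![3, 2, 1, 0, 4, 5, 6], ![3, 2, 1, 0, 5, 4, 6]]

/-- injective -/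
def inj (s : Fin 7 → Fin 7) : Bool :=
  (List.finRange 7).all fun i => (List.finRange 7).all fun j => eb i j || !(eb (s i) (s j))

theorem inj_iff {s : Fin 7 → Fin 7} (h : inj s = true) : Function.Injective s := by
  intro i j e
  have h1 := List.all_eq_true.1 h i (List.mem_finRange i)
  have h2 := List.all_eq_true.1 h1 j (List.mem_finRange j)
  rw [Bool.or_eq_true, Bool.not_eq_true', eb_iff] at h2
  rcases h2 with h2 | h2
  · exact h2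
  · rw [eb_iff.2 e] at h2; exact absurd h2 (by decide)

theorem pl_inj' : pl.all (fun s => inj s && eb (s 6) 6) = true := by decide +kernel

theorem cov1' : L105.all (fun z => eb z.1 6 || eb z.2.1 6 || eb z.2.2.1 6 || eb z.2.2.2 6 ||
    bas.any fun e => pl.any fun p => qb (cq (act p e.1)) (0, 1, 2, 3) && qb (cq (act p e.2)) z) = true := by
  decide +kernel

end Good

end Cfsg.Agent.H879.E6.Uniq
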