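import Cfsg.Agent.H879.E6.UniqB

/-!
# S5927, S5928: uniqueness of the cubic form of (A7, p = 5), third part (helper879)

End of the first step: `D(v_g, y, z) = 0` for all `y`, `z`.
-/

set_option autoImplicit false

namespace Cfsg.Agent.H879.E6.Uniq

theorem dis_iff {i j k l : Fin 7} : dis (i, j, k, l) = true ↔ i ≠ j ∧ i ≠ k ∧ i ≠ l ∧ j ≠ k ∧ j ≠ l ∧ k ≠ l := by
  have e : ∀ a b : Fin 7, (!(eb a b)) = true ↔ a ≠ b := by
    intro a b
    rw [Bool.not_eq_true', ← Bool.not_eq_true, eb_iff]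
  simp only [dis, Bool.and_eq_true, e]
  tauto

theorem ext4 {q : Q} (hq : dis q = true) : ∃ s : Equiv.Perm (Fin 7), act s (0, 1, 2, 3) = q := by
  obtain ⟨i, j, k, l⟩ := q
  obtain ⟨h1, h2, h3, h4, h5, h6⟩ := dis_iff.1 hq
  have hy : Function.Injective ![i, j, k, l] := by
    intro a b e
    fin_cases a <;> fin_cases b <;> simp_all
  obtain ⟨s, hs⟩ := Equiv.Perm.exists_extending_pair ![0, 1, 2, 3] ![i, j, k, l] (by decide) hy
  have e0 := hs 0
  have e1 := hs 1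
  have e2 := hs 2
  have e3 := hs 3
  simp only [Matrix.cons_val] at e0 e1 e2 e3
  exact ⟨s, by rw [← e0, ← e1, ← e2, ← e3]; rfl⟩

theorem ext5 {q : Q} {g : Fin 7} (hq : dis q = true) (h0 : q.1 ≠ g) (h1 : q.2.1 ≠ g) (h2 : q.2.2.1 ≠ g)
    (h3 : q.2.2.2 ≠ g) : ∃ s : Equiv.Perm (Fin 7), s 6 = g ∧ act s (0, 1, 2, 3) = q := by
  obtain ⟨i, j, k, l⟩ := q
  obtain ⟨g1, g2, g3, g4, g5, g6⟩ := dis_iff.1 hq
  dsimp only at h0 h1 h2 h3
  have hy : Function.Injective ![g, i, j, k, l] := by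
    intro a b e
    fin_cases a <;> fin_cases b <;> simp_all
  obtain ⟨s, hs⟩ := Equiv.Perm.exists_extending_pair ![6, 0, 1, 2, 3] ![g, i, j, k, l] (by decide) hy
  have e0 := hs 0
  have e1 := hs 1
  have e2 := hs 2
  have e3 := hs 3
  have e4 := hs 4
  simp only [Matrix.cons_val] at e0 e1 e2 e3 e4
  exact ⟨s, e0, by rw [← e1, ← e2, ← e3, ← e4]; rfl⟩

variable {F : Type*} [Field F]

namespace Good

variable {d : Q → Q → Q → F}

/-- zero at indices with repeated entries -/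
theorem ovl (h : Good d) (x y : Q) (hv : ∀ i, d x y (vv i) = 0) {z : Q} (hz : dis z = false) : d x y z = 0 := by
  obtain ⟨i, j, k, l⟩ := z
  have f1 : ∀ i j l : Fin 7, d x y (i, j, i, l) = 0 := by
    intro i j l
    by_cases h1 : i = j
    · rw [h1, h.z1]
    by_cases h2 : i = l
    · rw [h.a2, h2, h.z1]
    by_cases h3 : j = l
    · rw [h3, h.z2]
    rw [← h.vadj _ _ h1 h2 h3, hv]
  by_cases h1 : i = j
  · rw [h1, h.z1]
  by_cases h2 : k = l
  · rw [h.a2, h2, h.z1]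
  by_cases h3 : i = k
  · rw [h3, f1]
  by_cases h4 : i = l
  · rw [h.b1, h4, f1]
  by_cases h5 : j = k
  · rw [h.a1, h5, f1]
  by_cases h6 : j = l
  · rw [h.a1, h.b1, h6, f1]
  · have := dis_iff.2 ⟨h1, h3, h4, h5, h6, h2⟩
    rw [this] at hz
    exact absurd hz (by decide)

/-- zero if an index contains `g` -/
theorem vz_cont (h : Good d) (g : Fin 7) (y : Q) {z : Q} (hz : z.1 = g ∨ z.2.1 = g ∨ z.2.2.1 = g ∨ z.2.2.2 = g) :
    d (vv g) y z = 0 := by
  obtain ⟨i, j, k, l⟩ := z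
  dsimp only at hz
  have f : ∀ j k l, d (vv g) y (g, j, k, l) = 0 := by
    intro j k l
    by_cases h1 : g = j
    · rw [← h1, h.z1]
    · exact h.v_cont _ _ _ _ _ h1
  rcases hz with rfl | rfl | rfl | rfl
  · rw [f]
  · rw [h.a1, f]
  · rw [h.a2, f]
  · rw [h.a2, h.a1, f]

theorem vz_ovl (h : Good d) (g : Fin 7) (y : Q) {z : Q} (hz : dis z = false) : d (vv g) y z = 0 :=
  h.ovl _ _ (fun _ => h.v_v _ _ _) hz

/-- end of the first step -/
theorem vzero (h : Good d) (h2 : (2 : F) ≠ 0) (g : Fin 7) (y z : Q) : d (vv g) y z = 0 := by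
  rcases Bool.eq_false_or_eq_true (dis z) with hz | hz
  swap
  · exact h.vz_ovl _ _ hz
  rcases Bool.eq_false_or_eq_true (dis y) with hy | hy
  swap
  · rw [h.s23]; exact h.vz_ovl _ _ hy
  by_cases hyg : y.1 = g ∨ y.2.1 = g ∨ y.2.2.1 = g ∨ y.2.2.2 = g
  · rw [h.s23]; exact h.vz_cont _ _ hyg
  simp only [not_or] at hyg
  obtain ⟨s, hs6, hsy⟩ := ext5 hy hyg.1 hyg.2.1 hyg.2.2.1 hyg.2.2.2
  have hzs : act s (act s.symm z) = z := by
    simp only [act, Equiv.apply_symm_apply]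
  have hd : dis (act s.symm z) = true := by
    obtain ⟨i, j, k, l⟩ := z
    obtain ⟨g1, g2, g3, g4, g5, g6⟩ := dis_iff.1 hz
    exact dis_iff.2 ⟨s.symm.injective.ne g1, s.symm.injective.ne g2, s.symm.injective.ne g3, s.symm.injective.ne g4,
      s.symm.injective.ne g5, s.symm.injective.ne g6⟩
  have hm := cq_mem hd
  have hc := List.all_eq_true.1 cov1' _ hm
  rw [← hzs, ← h.cqs]
  generalize cq (act s.symm z) = z' at hm hc
  simp only [Bool.or_eq_true, eb_iff] at hc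
  rcases hc with hc | hc
  · refine h.vz_cont _ _ ?_
    obtain ⟨i, j, k, l⟩ := z'
    simp only [act] at hc ⊢
    rcases hc with ((hc | hc) | hc) | hc
    · exact Or.inl (by rw [hc, hs6])
    · exact Or.inr (Or.inl (by rw [hc, hs6]))
    · exact Or.inr (Or.inr (Or.inl (by rw [hc, hs6])))
    · exact Or.inr (Or.inr (Or.inr (by rw [hc, hs6])))
  · rw [List.any_eq_true] at hc
    obtain ⟨e, he, hc⟩ := hc
    rw [List.any_eq_true] at hc
    obtain ⟨p, hp, hc⟩ := hc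
    rw [Bool.and_eq_true, qb_iff, qb_iff] at hc
    have hpi := List.all_eq_true.1 pl_inj' p hp
    rw [Bool.and_eq_true, eb_iff] at hpi
    have hb := h.bas_zero h2 e he (s ∘ p) (s.injective.comp (inj_iff hpi.1))
    have ea : ∀ q, act (s ∘ p) q = act s (act p q) := fun q => rfl
    rw [ea, ea, ← h.cqs, ← h.cqs2, hc.1, hc.2, hsy] at hb
    rw [Function.comp_apply, hpi.2, hs6] at hb
    exact hb

end Good

end Cfsg.Agent.H879.E6.Uniq
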