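import Cfsg.Agent.H879.E6.Tuple

/-!
# S5927, S5928: computation in `M₃(F)³` in characteristic 5 (helper879)

Vectors given by lists of 27 natural numbers modulo 5.
-/

set_option autoImplicit false

namespace Cfsg.Agent.H879.E6

open Cfsg.Lie Cfsg.Agent.H952.F4 Cfsg.Agent.H952.F4.Jord Cfsg.Agent.H879.E6.Uniq
open Cfsg.Agent.ChevalleyStructure.E6Min.Tables Cfsg.Agent.ChevalleyStructure.E6Min.Basic

/-- the coordinate of a list -/
def gt (l : List ℕ) (n : ℕ) : ℕ := l.getD n 0

/-- number of a coordinate -/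
def nb (k i j : ℕ) : ℕ := 9 * k + 3 * i + j

/-- polarized adjugate -/
def adj2 (x y : List ℕ) (s i j : ℕ) : ℕ :=
  let a := nb s ((j + 1) % 3) ((i + 1) % 3)
  let b := nb s ((j + 2) % 3) ((i + 2) % 3)
  let c := nb s ((j + 1) % 3) ((i + 2) % 3)
  let d := nb s ((j + 2) % 3) ((i + 1) % 3)
  gt x a * gt y b + gt y a * gt x b + 4 * (gt x c * gt y d + gt y c * gt x d)

/-- polarized product -/
def prd2 (x y : List ℕ) (s t i j : ℕ) : ℕ :=
  (gt x (nb s i 0) * gt y (nb t 0 j) + gt y (nb s i 0) * gt x (nb t 0 j)) +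
  (gt x (nb s i 1) * gt y (nb t 1 j) + gt y (nb s i 1) * gt x (nb t 1 j)) +
  (gt x (nb s i 2) * gt y (nb t 2 j) + gt y (nb s i 2) * gt x (nb t 2 j))

/-- coordinate of the cross product -/
def crc (x y : List ℕ) (k i j : ℕ) : ℕ :=
  match k with
  | 0 => adj2 x y 0 i j + 4 * prd2 x y 1 2 i j
  | 1 => adj2 x y 2 i j + 4 * prd2 x y 0 1 i j
  | _ => adj2 x y 1 i j + 4 * prd2 x y 2 0 i j

/-- the cross product of lists -/
def crL (x y : List ℕ) : List ℕ := (List.range 27).map fun n => crc x y (n / 9) (n / 3 % 3) (n % 3) % 5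

/-- the trace form of lists -/
def tfL (x y : List ℕ) : ℕ :=
  ((gt x 0 * gt y 0 + gt x 1 * gt y 3 + gt x 2 * gt y 6 + gt x 3 * gt y 1 + gt x 4 * gt y 4 + gt x 5 * gt y
    7 + gt x 6 * gt y 2 + gt x 7 * gt y 5 + gt x 8 * gt y 8) + (gt x 9 * gt y 18 + gt x 10 * gt y 21 + gt x
    11 * gt y 24 + gt x 12 * gt y 19 + gt x 13 * gt y 22 + gt x 14 * gt y 25 + gt x 15 * gt y 20 + gt x 16 *
    gt y 23 + gt x 17 * gt y 26) + (gt x 18 * gt y 9 + gt x 19 * gt y 12 + gt x 20 * gt y 15 + gt x 21 * gt y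
    10 + gt x 22 * gt y 13 + gt x 23 * gt y 16 + gt x 24 * gt y 11 + gt x 25 * gt y 14 + gt x 26 * gt y 17)) % 5

def addL (x y : List ℕ) : List ℕ := (List.range 27).map fun n => (gt x n + gt y n) % 5

def smulL (c : ℕ) (x : List ℕ) : List ℕ := (List.range 27).map fun n => c * gt x n % 5

/-- equality of lists -/
def eqL (x y : List ℕ) : Bool := (List.range 27).all fun n => Nat.beq (gt x n) (gt y n)

/-- the list is zero -/
def zeroL (x : List ℕ) : Bool := (List.range 27).all fun n => Nat.beq (gt x n) 0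

section
variable (F : Type*) [Field F]

/-- the vector of a list -/
def vec (l : List ℕ) : I27 → F := fun a => ((gt l (nb a.1.val a.2.1.val a.2.2.val) : ℕ) : F)

variable {F}

theorem gt_map {f : ℕ → ℕ} {n : ℕ} (hn : n < 27) : gt ((List.range 27).map f) n = f n := by
  unfold gt
  rw [List.getD_eq_getElem?_getD, List.getElem?_map, List.getElem?_range hn]
  rfl

variable [CharP F 5]

theorem cast_mod (n : ℕ) : ((n % 5 : ℕ) : F) = (n : F) := by
  conv_rhs => rw [← Nat.mod_add_div n 5]
  rw [Nat.cast_add, Nat.cast_mul, CharP.cast_eq_zero F 5, zero_mul, add_zero]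

theorem five_zero : (5 : F) = 0 := by
  have := CharP.cast_eq_zero F 5
  exact_mod_cast this

theorem two_ne : (2 : F) ≠ 0 := by
  intro h
  have h5 := five_zero (F := F)
  have : (1 : F) = 0 := by linear_combination h5 - 2 * h
  exact one_ne_zero this

theorem vec_add (x y : List ℕ) : vec F (addL x y) = vec F x + vec F y := by
  funext ⟨k, i, j⟩
  have hn : nb k.val i.val j.val < 27 := by unfold nb; omega
  simp only [vec, addL, Pi.add_apply]
  rw [gt_map hn, cast_mod, Nat.cast_add]

theorem vec_smul (c : ℕ) (x : List ℕ) : vec F (smulL c x) = (c : F) • vec F x := by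
  funext ⟨k, i, j⟩
  have hn : nb k.val i.val j.val < 27 := by unfold nb; omega
  simp only [vec, smulL, Pi.smul_apply, smul_eq_mul]
  rw [gt_map hn, cast_mod, Nat.cast_mul]

omit [CharP F 5] in
theorem vec_eq {x y : List ℕ} (h : eqL x y = true) : vec F x = vec F y := by
  funext ⟨k, i, j⟩
  have hn : nb k.val i.val j.val < 27 := by unfold nb; omega
  have := List.all_eq_true.1 h _ (List.mem_range.2 hn)
  rw [Nat.beq_eq] at this
  simp only [vec]
  rw [this]

omit [CharP F 5] in
theorem vec_zero {x : List ℕ} (h : zeroL x = true) : vec F x = 0 := by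
  funext ⟨k, i, j⟩
  have hn : nb k.val i.val j.val < 27 := by unfold nb; omega
  have := List.all_eq_true.1 h _ (List.mem_range.2 hn)
  rw [Nat.beq_eq] at this
  simp only [vec, this, Nat.cast_zero, Pi.zero_apply]

theorem vec_cr (x y : List ℕ) : cr (vec F x) (vec F y) = vec F (crL x y) := by
  have h4 : (4 : F) = -1 := by linear_combination five_zero (F := F)
  have e : ∀ k i j : Fin 3, vec F (crL x y) (k, i, j) = ((crc x y k.val i.val j.val : ℕ) : F) := by
    intro k i j
    have hn : nb k.val i.val j.val < 27 := by unfold nb; omega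
    simp only [vec, crL]
    rw [gt_map hn, cast_mod]
    congr 2
    · unfold nb; omega
    · unfold nb; omega
    · unfold nb; omega
  refine ext27 fun k i j => ?_
  rw [e]
  unfold cr
  fin_cases k <;> fin_cases i <;> fin_cases j <;>
    simp only [Fin.zero_eta, Fin.mk_one, Fin.reduceFinMk, Pi.add_apply, Pi.sub_apply, sh000, sh001, sh002, sh010,
      sh011, sh012, sh020, sh021, sh022, sh100, sh101, sh102, sh110, sh111, sh112, sh120, sh121, sh122, sh200, sh201,
      sh202, sh210, sh211, sh212, sh220, sh221, sh222, vec, crc, adj2, prd2, Nat.cast_add, Nat.cast_mul,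
      Nat.cast_ofNat, h4, Fin.val_zero, Fin.val_one, Fin.val_two, Nat.reduceAdd, Nat.reduceMod, zero_add, nb,
      Nat.reduceMul] <;>
    ring

theorem vec_tf (x y : List ℕ) : tf (vec F x) (vec F y) = ((tfL x y : ℕ) : F) := by
  rw [tfL, cast_mod, tf_eq]
  simp only [Fin.sum_univ_three, vec, nb, Fin.val_zero, Fin.val_one, Fin.val_two, Nat.reduceAdd, Nat.reduceMul, zero_add,
    add_zero, Nat.cast_add, Nat.cast_mul, mul_zero, mul_one]
  ring

end

end Cfsg.Agent.H879.E6
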